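import Mathlib
import Cfsg.Agent.Part.Am1
import Cfsg.Agent.Perm.FC7

/-! Quaternion units in division rings; explicit facts on `SL(2,5)`. -/

set_option autoImplicit false

namespace Cfsg.Agent.Part.Am

open Matrix MatrixGroups

universe u

section D
variable {D : Type u} [DivisionRing D]

/-- Quaternion units. -/
structure QU (I J : D) : Prop where
  ii : I * I = -1
  jj : J * J = -1
  ji : J * I = -(I * J)
  two : (2 : D) ≠ 0

variable {I J : D}

theorem QU.i0 (h : QU I J) : I ≠ 0 := fun e => by simpa [e] using h.ii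

theorem QU.j0 (h : QU I J) : J ≠ 0 := fun e => by simpa [e] using h.jj

theorem QU.half (h : QU I J) {x : D} (e : x + x = 0) : x = 0 := by
  rw [← two_mul] at e
  exact (mul_eq_zero.1 e).resolve_left h.two

theorem QU.aux (h : QU I J) {α β : D} (h1 : I * α = α * I) (h2 : I * β = β * I) (e : α + β * J = 0) : α = 0 := by
  have : α * I + α * I = 0 := by
    have e1 : I * (α + β * J) + (α + β * J) * I = 0 := by rw [e]; simp
    rw [mul_add, add_mul, h1, ← mul_assoc, h2, mul_assoc β J, h.ji, mul_assoc, mul_neg] at e1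
    rw [← e1]; abel
  exact (mul_eq_zero.1 (h.half this)).resolve_right h.i0

theorem QU.four (h : QU I J) {K : Type*} [CommRing K] (f : K →+* D) (hI : ∀ x, I * f x = f x * I)
    (hJ : ∀ x, J * f x = f x * J) {a b c d : K} (e : a ^ 2 + b ^ 2 + c ^ 2 + d ^ 2 = 0) : f a = 0 := by
  have cI : ∀ x y, I * (f x + f y * I) = (f x + f y * I) * I := fun x y => by
    rw [mul_add, add_mul, hI, ← mul_assoc, hI]
  have cJ : ∀ x y, J * (f x + f y * I) = (f x + f (-y) * I) * J := fun x y => by
    rw [mul_add, add_mul, hJ, ← mul_assoc, hJ, mul_assoc, h.ji, map_neg, mul_assoc]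
    simp
  have mm : ∀ x y z w, (f x + f y * I) * (f z + f w * I) = f (x * z - y * w) + f (x * w + y * z) * I :=
    fun x y z w => by
      rw [mul_add, add_mul, add_mul, mul_assoc (f y), hI, mul_assoc (f y), ← mul_assoc I, hI, mul_assoc (f w),
        h.ii]
      simp only [map_sub, map_add, map_mul, add_mul, mul_assoc, mul_neg, mul_one]
      abel
  have z : ∀ x y, f x + f y * I = 0 → f x = 0 := fun x y e => by
    have e1 := cJ x y
    rw [e, mul_zero] at e1
    have e2 := (mul_eq_zero.1 e1.symm).resolve_right h.j0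
    refine h.half ?_
    rw [map_neg, neg_mul] at e2
    rw [← add_zero (0 : D)]
    nth_rewrite 1 [← e]
    rw [← e2]; abel
  have key : ((f a + f b * I) + (f c + f d * I) * J) * ((f a + f (-b) * I) + (f (-c) + f (-d) * I) * J) = 0 := by
    rw [add_mul (f a + f b * I), mul_add (f a + f b * I), mul_add ((f c + f d * I) * J), mul_assoc _ J, cJ,
      mul_assoc _ J, ← mul_assoc J, cJ, ← mul_assoc (f a + f b * I), ← mul_assoc (f c + f d * I), mul_assoc _ J J,
      h.jj, ← mul_assoc (f c + f d * I), mm, mm, mm, mm]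
    have e1 : a * a - b * -b = -(c * c + d * d) := by linear_combination e
    have e2 : a * -b + b * a = 0 := by ring
    have e3 : a * -c - b * -d = -(c * a - d * b) := by ring
    have e4 : a * -d + b * -c = -(c * b + d * a) := by ring
    have e5 : c * -c - d * d = -(c * c + d * d) := by ring
    have e6 : c * d + d * -c = 0 := by ring
    rw [neg_neg, neg_neg, e1, e2, e3, e4, e5, e6]
    simp only [map_neg, map_zero, zero_mul, add_zero, neg_mul, mul_neg, mul_one, add_mul]
    abel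
  rcases mul_eq_zero.1 key with e | e
  · exact z _ _ (h.aux (cI _ _) (cI _ _) e)
  · exact z _ _ (h.aux (cI _ _) (cI _ _) e)

/-- The centralizer of a set, as a division subring. -/
def cen (T : Set D) : Subfield D :=
  { Subring.centralizer T with
    inv_mem' := fun x hx => Set.inv_mem_centralizer₀ hx }

theorem exists_field (I J x y : D) (h1 : I * x = x * I) (h2 : J * x = x * J) (h3 : I * y = y * I)
    (h4 : J * y = y * J) (h5 : x * y = y * x) : ∃ (K : Type u) (_ : Field K) (f : K →+* D),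
      (∀ a, I * f a = f a * I) ∧ (∀ a, J * f a = f a * J) ∧ (∃ a, f a = x) ∧ ∃ a, f a = y := by
  let A := cen ({I, J, x, y} : Set D)
  have m : ∀ a : D, a ∈ A ↔ I * a = a * I ∧ J * a = a * J ∧ x * a = a * x ∧ y * a = a * y := fun a => by
    change a ∈ Subring.centralizer _ ↔ _
    simp [Subring.mem_centralizer_iff]
  refine ⟨Subring.center A, inferInstance, A.subtype.comp (Subring.center A).subtype,
    fun a => ((m _).1 a.1.2).1, fun a => ((m _).1 a.1.2).2.1,
    ⟨⟨⟨x, (m _).2 ⟨h1, h2, rfl, h5.symm⟩⟩, Subring.mem_center_iff.2 fun g => Subtype.ext ((m _).1 g.2).2.2.1.symm⟩, rfl⟩,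
    ⟨⟨⟨y, (m _).2 ⟨h3, h4, h5, rfl⟩⟩, Subring.mem_center_iff.2 fun g => Subtype.ext ((m _).1 g.2).2.2.2.symm⟩, rfl⟩⟩

theorem QU.charZero (h : QU I J) {K : Type*} [Field K] (f : K →+* D) (hI : ∀ x, I * f x = f x * I)
    (hJ : ∀ x, J * f x = f x * J) : CharZero K := by
  obtain ⟨p, hp⟩ := CharP.exists K
  rcases CharP.char_is_prime_or_zero K p with pp | rfl
  · have := Fact.mk pp
    obtain ⟨a, b, e⟩ := ZMod.sq_add_sq p (-1)
    have e2 := congrArg (ZMod.castHom (dvd_refl p) K) e
    simp only [map_add, map_pow, map_neg, map_one] at e2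
    have := h.four f hI hJ (a := 1) (b := 0) (c := ZMod.castHom (dvd_refl p) K a)
      (d := ZMod.castHom (dvd_refl p) K b) (by linear_combination e2)
    simp at this
  · exact CharP.charP_to_charZero K

theorem QU.sq_ne (h : QU I J) {x : D} (h1 : I * x = x * I) (h2 : J * x = x * J) (n : ℕ) :
    x * x ≠ -(1 + (n : D) * n) := fun e => by
  obtain ⟨K, _, f, hI, hJ, ⟨a, rfl⟩, -⟩ := exists_field I J x x h1 h2 h1 h2 rfl
  have := h.four f hI hJ (a := 1) (b := 0) (c := a) (d := n) (f.injective (by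
    simp only [map_add, sq, map_mul, e, map_one, map_zero, map_natCast]
    simp))
  simp at this

theorem QU.root (h : QU I J) {x δ : D} (h1 : I * x = x * I) (h2 : J * x = x * J) (h3 : I * δ = δ * I)
    (h4 : J * δ = δ * J) (h5 : x * δ = δ * x) (hδ : δ * δ = 5) {r : ℕ} (hr : r.Coprime 20) (hx : x ^ r = 1) :
    x = 1 := by
  obtain ⟨K, _, f, hI, hJ, ⟨a, rfl⟩, b, rfl⟩ := exists_field I J x δ h1 h2 h3 h4 h5
  have := h.charZero f hI hJ
  by_contra a1
  obtain ⟨u, v, w, z, u0, e⟩ := four_sq (K := K) (δ := b) (x := a) (f.injective (by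
    rw [sq, map_mul, hδ, map_ofNat])) hr (f.injective (by rw [map_pow, hx, map_one]))
    (fun e => a1 (by rw [e, map_one]))
  exact u0 (f.injective (by rw [h.four f hI hJ e, map_zero]))

theorem QU.final (h : QU I J) {w δ : D} (h1 : I * w = w * I) (h2 : J * w = w * J) (h3 : I * δ = δ * I)
    (h4 : J * δ = δ * J) (h5 : w * δ = -(δ * w)) (hδ : δ * δ = 5) {c : D}
    (hc : c = 1 ∨ c = -1 ∨ c = 2 ∨ c = -2) (hw : w * w = c ∨ w * w = c * I) : False := by
  have cc : ∀ y : D, y * c = c * y := fun y => by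
    rcases hc with rfl | rfl | rfl | rfl <;> simp [two_mul, mul_two]
  have c0 : c ≠ 0 := by
    rcases hc with rfl | rfl | rfl | rfl <;> simp [h.two]
  rcases hw with hw | hw
  · have e : w * δ * (w * δ) = -(5 * c) := by
      rw [mul_assoc, ← mul_assoc δ, ← neg_neg (δ * w), ← h5, neg_mul, mul_neg, mul_assoc, hδ, ← mul_assoc, hw, cc]
    have a1 : I * (w * δ) = w * δ * I := by rw [← mul_assoc, h1, mul_assoc, h3, mul_assoc]
    have a2 : J * (w * δ) = w * δ * J := by rw [← mul_assoc, h2, mul_assoc, h4, mul_assoc]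
    rcases hc with rfl | rfl | rfl | rfl
    · exact h.sq_ne a1 a2 2 (by rw [e]; norm_num)
    · exact h.sq_ne h1 h2 0 (by rw [hw]; norm_num)
    · exact h.sq_ne a1 a2 3 (by rw [e]; norm_num)
    · exact h.sq_ne h1 h2 1 (by rw [hw]; norm_num)
  · have e : J * (w * w) = w * w * J := by rw [← mul_assoc, h2, mul_assoc, h2, mul_assoc]
    rw [hw, ← mul_assoc, cc, mul_assoc, mul_assoc, h.ji] at e
    have e2 := mul_left_cancel₀ c0 e
    have : I * J = 0 := h.half (by nth_rewrite 1 [← e2]; simp)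
    exact mul_ne_zero h.i0 h.j0 this

theorem golden {s t t' : D} (h1 : t * t' = 1) (h1' : t' * t = 1) (hs : s * s = s - 1) (hst : s * t * (s * t) = -1)
    (hts : t * s * (t * s) = -1) : s * (t + t') = (t + t') * s := by
  have a : t' * (1 - s) = -(s * t) := by
    have : s * t * (t' * (1 - s)) = s * t * -(s * t) := by
      rw [mul_assoc, ← mul_assoc t, h1, one_mul, mul_neg, hst, mul_sub, hs]; simp
    refine mul_left_cancel₀ (fun e => ?_) this
    simp [e] at hst
  have b : (1 - s) * t' = -(t * s) := by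
    have : (1 - s) * t' * (t * s) = -(t * s) * (t * s) := by
      rw [mul_assoc, ← mul_assoc t', h1', one_mul, neg_mul, hts, sub_mul, hs]; simp
    refine mul_right_cancel₀ (fun e => ?_) this
    simp [e] at hts
  rw [mul_sub, mul_one] at a
  rw [sub_mul, one_mul] at b
  rw [mul_add, add_mul]
  have : s * t + s * t' - (t * s + t' * s) = (t' - t' * s - -(s * t)) - (t' - s * t' - -(t * s)) := by abel
  rw [← sub_eq_zero, this, a, b]; simp

end D

/-- `SL(2,5)`. -/
abbrev S5 := SL(2, ZMod 5)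
/-- An element of order six. -/
def s : S5 := ⟨!![0, 1; 4, 1], by decide⟩
/-- An element of order ten. -/
def t : S5 := ⟨!![4, 4; 0, 4], by decide⟩
/-- An element of order four. -/
def i : S5 := ⟨!![0, 4; 1, 0], by decide⟩
/-- An element of order four. -/
def j : S5 := ⟨!![2, 0; 0, 3], by decide⟩

theorem F1 : ∀ g : S5, g ^ 5 = -1 → g ≠ -1 → ∃ h, g * h = h * t ∨ g * h = h * t ^ 3 := by decide +kernel
theorem F2 : ∀ g : S5, g ^ 3 = -1 → (g * t) ^ 2 = -1 → ∃ k : Fin 5, g * t ^ k.1 = t ^ k.1 * s := by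
  decide +kernel
theorem F3 : ∀ g : S5, g * g = -1 → ∃ h, g * h = h * i := by decide +kernel
theorem F4 : ∀ g : S5, g * i = -1 * (i * g) → g = j ∨ g = -1 * j ∨ g = i * j ∨ g = -1 * (i * j) := by
  decide +kernel
theorem F5 : ∀ g : S5, g * i = i * g → g = 1 ∨ g = -1 ∨ g = i ∨ g = -1 * i := by decide +kernel
theorem F6 : s ^ 3 = -1 ∧ s ≠ -1 ∧ t ^ 5 = -1 ∧ t ≠ -1 ∧ (s * t) ^ 2 = -1 ∧ (t * s) ^ 2 = -1 ∧ i * i = -1 ∧
    j * j = -1 ∧ j * i = -1 * (i * j) ∧ (-1 : S5) ≠ 1 ∧ (-1 : S5) * -1 = 1 := by decide +kernel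
theorem F7 : ∀ k : Fin 5, (t ^ 2) ^ k.1 * s = s * (t ^ 2) ^ k.1 → (t ^ 2) ^ k.1 = 1 := by decide +kernel
theorem o3 : orderOf (s ^ 2) = 3 := by
  have := Fact.mk Nat.prime_three
  exact orderOf_eq_prime (by decide +kernel) (by decide +kernel)
theorem o5 : orderOf (t ^ 2) = 5 := by
  have := Fact.mk Nat.prime_five
  exact orderOf_eq_prime (by decide +kernel) (by decide +kernel)
theorem o4 : orderOf (s * t) = 2 ^ (1 + 1) := orderOf_eq_prime_pow (by decide +kernel) (by decide +kernel)

theorem gen (hp : commutator S5 = ⊤) (C : Subgroup S5) (hs : s ∈ C) (ht : t ∈ C) : C = ⊤ := by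
  have h3 : 3 ∣ Nat.card C := o3 ▸ C.orderOf_dvd_natCard (C.pow_mem hs 2)
  have h5 : 5 ∣ Nat.card C := by
    have := C.orderOf_dvd_natCard (C.pow_mem ht 2)
    rwa [o5] at this
  have h4 : 4 ∣ Nat.card C := by
    have := C.orderOf_dvd_natCard (C.mul_mem hs ht)
    rwa [o4] at this
  have e := C.card_mul_index
  rw [Perm.card_SL25] at e
  have h2 := Perm.index_ne_two_of_perfect hp C
  obtain ⟨k, hk⟩ : 60 ∣ Nat.card C := by omega
  rw [hk, mul_assoc] at e
  have e2 : k * C.index = 2 := by omega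
  have := (Nat.dvd_prime Nat.prime_two).1 (Dvd.intro_left _ e2)
  exact Subgroup.index_eq_one.1 (this.resolve_right h2)

end Cfsg.Agent.Part.Am
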