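import Mathlib
import Cfsg.Agent.Part.Am2

/-! Amitsur: a finite subgroup of a division ring normalizing a binary icosahedral group equals it. -/

set_option autoImplicit false

namespace Cfsg.Agent.Part.Am

open Matrix MatrixGroups

variable {D : Type*} [DivisionRing D] {G : Type*} [Group G]

/-- The setting. -/
structure St (ρ : G →* D) (φ : S5 →* G) : Prop where
  hρ : Function.Injective ρ
  hφ : Function.Injective φ
  nr : φ.range.Normal
  pf : commutator S5 = ⊤
  fc : Perm.IsFC G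

variable {ρ : G →* D} {φ : S5 →* G} (h : St ρ φ)
include h

theorem St.sq {g : G} (e : g * g = 1) : g = 1 ∨ ρ g = -1 := by
  have : ρ g * ρ g = 1 := by rw [← map_mul, e, map_one]
  rcases mul_self_eq_one_iff.1 this with a | a
  · exact Or.inl (h.hρ (by rw [a, map_one]))
  · exact Or.inr a

theorem St.neg : ρ (φ (-1)) = -1 :=
  (h.sq (by rw [← map_mul, F6.2.2.2.2.2.2.2.2.2.2, map_one])).resolve_left fun e =>
    F6.2.2.2.2.2.2.2.2.2.1 (h.hφ (by rw [e, map_one]))

theorem St.qu : QU (ρ (φ i)) (ρ (φ j)) where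
  ii := by rw [← map_mul, ← map_mul, F6.2.2.2.2.2.2.1, h.neg]
  jj := by rw [← map_mul, ← map_mul, F6.2.2.2.2.2.2.2.1, h.neg]
  ji := by
    rw [← map_mul, ← map_mul, F6.2.2.2.2.2.2.2.2.1, map_mul, map_mul, h.neg, map_mul, map_mul, neg_one_mul]
  two := fun e => by
    have : ρ (φ (-1)) = ρ (φ 1) := by
      rw [h.neg, map_one, map_one, neg_eq_iff_add_eq_zero, one_add_one_eq_two, e]
    exact F6.2.2.2.2.2.2.2.2.2.1 (h.hφ (h.hρ this))

theorem St.ne_neg {a : S5} (ha : a ≠ -1) : ρ (φ a) + 1 ≠ 0 := fun e =>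
  ha (h.hφ (h.hρ (by rw [h.neg, eq_neg_iff_add_eq_zero, e])))

omit h in
/-- The golden ratio. -/
def tau (ρ : G →* D) (φ : S5 →* G) : D := ρ (φ t) + ρ (φ t⁻¹)

theorem St.tau_comm (a : S5) : ρ (φ a) * tau ρ φ = tau ρ φ * ρ (φ a) := by
  let C : Subgroup S5 :=
    { carrier := {a | ρ (φ a) * tau ρ φ = tau ρ φ * ρ (φ a)}
      mul_mem' := fun {a b} ha hb => by
        simp only [Set.mem_setOf_eq, map_mul] at *
        rw [mul_assoc, hb, ← mul_assoc, ha, mul_assoc]
      one_mem' := by simp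
      inv_mem' := fun {a} ha => by
        simp only [Set.mem_setOf_eq, map_inv₀, map_inv] at *
        exact (Commute.inv_left₀ ha).eq }
  have : C = ⊤ := by
    refine gen h.pf C ?_ ?_
    · refine golden ?_ ?_ ?_ ?_ ?_
      · rw [← map_mul, ← map_mul, mul_inv_cancel, map_one, map_one]
      · rw [← map_mul, ← map_mul, inv_mul_cancel, map_one, map_one]
      · have e : ρ (φ s) ^ 3 = -1 := by rw [← map_pow, ← map_pow, F6.1, h.neg]
        refine mul_left_cancel₀ (h.ne_neg F6.2.1) ?_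
        have : (ρ (φ s) + 1) * (ρ (φ s) * ρ (φ s)) - (ρ (φ s) + 1) * (ρ (φ s) - 1) = ρ (φ s) ^ 3 + 1 := by
          noncomm_ring
        rw [← sub_eq_zero, this, e, neg_add_cancel]
      · rw [← pow_two, ← map_mul, ← map_mul, ← map_pow, ← map_pow, F6.2.2.2.2.1, h.neg]
      · rw [← pow_two, ← map_mul, ← map_mul, ← map_pow, ← map_pow, F6.2.2.2.2.2.1, h.neg]
    · change _ * (_ + _) = (_ + _) * _
      rw [mul_add, add_mul, ← map_mul, ← map_mul, ← map_mul, ← map_mul, ← map_mul, ← map_mul, mul_inv_cancel,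
        inv_mul_cancel]
  exact this.ge (Subgroup.mem_top a)

theorem St.tau_sq : tau ρ φ * tau ρ φ = tau ρ φ + 1 ∧ ρ (φ (t ^ 3)) + ρ (φ (t ^ 3)⁻¹) = 1 - tau ρ φ := by
  have e : ρ (φ t) ^ 5 = -1 := by rw [← map_pow, ← map_pow, F6.2.2.1, h.neg]
  have n := h.ne_neg F6.2.2.2.1
  simp only [tau, map_inv, map_pow]
  generalize ρ (φ t) = x at e n
  have x0 : x ≠ 0 := by
    rintro rfl
    simp at e
  have e1 : x⁻¹ = -x ^ 4 := by
    refine inv_eq_of_mul_eq_one_right ?_
    rw [mul_neg, ← pow_succ', e, neg_neg]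
  have e3 : (x ^ 3)⁻¹ = -x ^ 2 := by
    refine inv_eq_of_mul_eq_one_right ?_
    rw [mul_neg, ← pow_add, e, neg_neg]
  have e2 : x ^ 4 = x ^ 3 - x ^ 2 + x - 1 := by
    refine mul_left_cancel₀ n ?_
    have : (x + 1) * x ^ 4 - (x + 1) * (x ^ 3 - x ^ 2 + x - 1) = x ^ 5 + 1 := by noncomm_ring
    rw [← sub_eq_zero, this, e, neg_add_cancel]
  rw [e1, e3]
  constructor
  · have : (x + -x ^ 4) * (x + -x ^ 4) = x ^ 2 - 2 * x ^ 5 + x ^ 5 * x ^ 3 := by noncomm_ring
    rw [this, e, e2]; noncomm_ring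
  · rw [e2]; noncomm_ring

omit h in
/-- A square root of five. -/
def del (ρ : G →* D) (φ : S5 →* G) : D := tau ρ φ + tau ρ φ - 1

theorem St.del_comm (a : S5) : ρ (φ a) * del ρ φ = del ρ φ * ρ (φ a) := by
  simp only [del, mul_sub, mul_add, sub_mul, add_mul, h.tau_comm, mul_one, one_mul]

theorem St.del_sq : del ρ φ * del ρ φ = 5 := by
  have : del ρ φ * del ρ φ = 4 * (tau ρ φ * tau ρ φ) - 4 * tau ρ φ + 1 := by
    rw [del]; noncomm_ring
  rw [this, h.tau_sq.1, mul_add, add_sub_cancel_left]; norm_num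

theorem St.del_cent {x : D} (hx : ∀ a, ρ (φ a) * x = x * ρ (φ a)) : x * del ρ φ = del ρ φ * x := by
  simp only [del, tau, mul_sub, mul_add, sub_mul, add_mul, hx, mul_one, one_mul]

theorem St.cent_prime [Finite G] {c : G} (hc : ∀ a, φ a * c = c * φ a) (hp : (orderOf c).Prime) : ρ c = -1 := by
  classical
  have hx : ∀ a, ρ (φ a) * ρ c = ρ c * ρ (φ a) := fun a => by rw [← map_mul, hc, map_mul]
  have c1 : c ≠ 1 := fun e => by simp [e, Nat.not_prime_one] at hp
  by_cases h2 : orderOf c = 2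
  · exact (h.sq (by rw [← pow_two, ← h2, pow_orderOf_eq_one])).resolve_left c1
  exfalso
  by_cases h5 : orderOf c = 5
  · have o : orderOf (φ (t ^ 2)) = 5 := by rw [orderOf_injective φ h.hφ, o5]
    have := h.fc.mem_zpowers Nat.prime_five h5 o (hc _).symm
    rw [mem_zpowers_iff_mem_range_orderOf, o] at this
    obtain ⟨k, hk, rfl⟩ := Finset.mem_image.1 this
    refine c1 ?_
    rw [← map_pow, F7 ⟨k, Finset.mem_range.1 hk⟩ (h.hφ ?_), map_one]
    rw [map_mul, map_mul, map_pow, hc]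
  have co : (orderOf c).Coprime 20 := by
    rw [show 20 = 2 ^ 2 * 5 from rfl]
    exact Nat.Coprime.mul_right (((Nat.coprime_primes hp Nat.prime_two).2 h2).pow_right 2)
      ((Nat.coprime_primes hp Nat.prime_five).2 h5)
  have := h.qu.root (hx _) (hx _) (h.del_comm _) (h.del_comm _) (h.del_cent hx) h.del_sq co
    (by rw [← map_pow, pow_orderOf_eq_one, map_one])
  exact c1 (h.hρ (by rw [this, map_one]))

theorem St.cent [Finite G] {c : G} (hc : ∀ a, φ a * c = c * φ a) : c ∈ φ.range := by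
  by_cases h2 : c * c = 1
  · rcases h.sq h2 with e | e
    · exact e ▸ one_mem _
    · exact ⟨-1, h.hρ (by rw [e, h.neg])⟩
  exfalso
  obtain ⟨r, hr, d⟩ := Nat.exists_prime_and_dvd (mt orderOf_eq_one_iff.1 h2)
  have o := orderOf_pow_orderOf_div (orderOf_pos (c * c)).ne' d
  set k := orderOf (c * c) / r
  have hk : ∀ a, φ a * c ^ k = c ^ k * φ a := fun a => (Commute.pow_right (hc a) k).eq
  have e : (c * c) ^ k = c ^ k * c ^ k := (Commute.refl c).mul_pow k
  have := h.cent_prime (c := (c * c) ^ k) (fun a => by rw [e, ← mul_assoc, hk, mul_assoc, hk, mul_assoc])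
    (o ▸ hr)
  rw [e, map_mul] at this
  have hx : ∀ a, ρ (φ a) * ρ (c ^ k) = ρ (c ^ k) * ρ (φ a) := fun a => by rw [← map_mul, hk, map_mul]
  exact h.qu.sq_ne (hx _) (hx _) 0 (by rw [this]; simp)

theorem St.conj (g : G) (a : S5) : ∃ b, φ b = g * φ a * g⁻¹ := h.nr.conj_mem _ ⟨a, rfl⟩ g

theorem St.conj_neg (g : G) : g * φ (-1) * g⁻¹ = φ (-1) :=
  h.hρ (by rw [map_mul, map_mul, h.neg, mul_neg, neg_mul, mul_one, ← map_mul, mul_inv_cancel, map_one])

theorem St.fix_t [Finite G] {g : G} (e : g * φ t * g⁻¹ = φ t) : g ∈ φ.range := by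
  obtain ⟨b, hb⟩ := h.conj g s
  obtain ⟨k, hk⟩ := F2 b (h.hφ (by rw [map_pow, hb, conj_pow, ← map_pow, F6.1, h.conj_neg]))
    (h.hφ (by
      rw [map_pow, map_mul, hb, ← e, conj_mul, conj_pow, ← map_mul, ← map_pow, F6.2.2.2.2.1, h.conj_neg]))
  have hk' := congrArg φ hk
  rw [map_mul, map_mul, hb] at hk'
  let C : Subgroup S5 := (Subgroup.centralizer {(φ (t ^ k.1))⁻¹ * g}).comap φ
  have : C = ⊤ := by
    refine gen h.pf C ?_ ?_
    · rw [Subgroup.mem_comap, Subgroup.mem_centralizer_singleton_iff]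
      calc _ = (φ (t ^ k.1))⁻¹ * (φ (t ^ k.1) * φ s) * (φ (t ^ k.1))⁻¹ * g := by group
        _ = _ := by rw [← hk']; group
    · rw [Subgroup.mem_comap, Subgroup.mem_centralizer_singleton_iff, map_pow]
      calc _ = (φ t ^ k.1)⁻¹ * (φ t) * g := by group
        _ = _ := by nth_rewrite 2 [← e]; group
  have := h.cent (c := (φ (t ^ k.1))⁻¹ * g) fun a =>
    Subgroup.mem_centralizer_singleton_iff.1 (this.ge (Subgroup.mem_top a))
  exact (mul_mem_cancel_left (inv_mem (MonoidHom.mem_range.2 ⟨_, rfl⟩))).1 this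

theorem St.anti [Finite G] {g : G} (hg : g ∉ φ.range) : ρ g * del ρ φ = -(del ρ φ * ρ g) := by
  obtain ⟨b, hb⟩ := h.conj g t
  obtain ⟨a, ha | ha⟩ := F1 b (h.hφ (by rw [map_pow, hb, conj_pow, ← map_pow, F6.2.2.1, h.conj_neg]))
    (fun e => F6.2.2.2.1 (h.hφ (by
      rw [e, ← h.conj_neg g] at hb
      simpa using hb.symm)))
  · have ha' := congrArg φ ha
    rw [map_mul, map_mul, hb] at ha'
    refine absurd ((mul_mem_cancel_left (inv_mem (MonoidHom.mem_range.2 ⟨a, rfl⟩))).1 (h.fix_t ?_)) hg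
    calc _ = (φ a)⁻¹ * (g * φ t * g⁻¹ * φ a) := by group
      _ = _ := by rw [ha']; group
  · have e1 : g * φ t = φ a * φ (t ^ 3) * φ a⁻¹ * g := by
      rw [← map_mul, ← ha, map_mul, hb, map_inv]; group
    have e2 : g * φ t⁻¹ = φ a * φ (t ^ 3)⁻¹ * φ a⁻¹ * g := by
      have : g * φ t * g⁻¹ = φ a * φ (t ^ 3) * φ a⁻¹ := by rw [e1]; group
      calc _ = (g * φ t * g⁻¹)⁻¹ * g := by rw [map_inv]; group
        _ = _ := by rw [this, map_inv, map_inv]; group
    have e3 : ρ g * tau ρ φ = (1 - tau ρ φ) * ρ g := by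
      have : ρ (φ a) * (1 - tau ρ φ) * ρ (φ a⁻¹) = 1 - tau ρ φ := by
        rw [mul_sub, h.tau_comm, mul_one, sub_mul, mul_assoc, ← map_mul, ← map_mul, mul_inv_cancel, map_one,
          map_one, mul_one]
      rw [← this, ← h.tau_sq.2, tau, mul_add, ← map_mul, ← map_mul, e1, e2]
      simp only [map_mul, mul_add, add_mul]
    rw [del, mul_sub, mul_add, e3]
    noncomm_ring

theorem St.fix_i [Finite G] {g : G} (e : g * φ i * g⁻¹ = φ i) : g ∈ φ.range := by
  by_contra hg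
  have q := h.qu
  have an := h.anti hg
  have d0 : del ρ φ ≠ 0 := fun z => by
    have := h.del_sq
    rw [z, zero_mul] at this
    exact q.sq_ne (x := 0) (by simp) (by simp) 2 (by rw [zero_mul, eq_neg_iff_add_eq_zero, zero_add, this]; norm_num)
  have g0 : ∀ x : G, ρ x ≠ 0 := fun x z => by
    have := ρ.map_mul x x⁻¹
    simp [z] at this
  obtain ⟨m, hm⟩ : g * g ∈ φ.range := by
    by_contra h2
    have a2 := h.anti h2
    rw [map_mul, mul_assoc, an, mul_neg, ← mul_assoc, an, neg_mul, neg_neg, mul_assoc] at a2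
    exact mul_ne_zero d0 (mul_ne_zero (g0 g) (g0 g)) (q.half (by nth_rewrite 1 [a2]; simp))
  have e' : g * φ i = φ i * g := by nth_rewrite 2 [← e]; group
  have gI : ρ (φ i) * ρ g = ρ g * ρ (φ i) := by rw [← map_mul, ← e', map_mul]
  have hm' : ρ g * ρ g = ρ (φ m) := by rw [hm, map_mul]
  have h5 := F5 m (h.hφ (by rw [map_mul, map_mul, hm, mul_assoc, e', ← mul_assoc, e', mul_assoc]))
  have gg : ρ g * ρ g = 1 ∨ ρ g * ρ g = -1 ∨ ρ g * ρ g = ρ (φ i) ∨ ρ g * ρ g = -ρ (φ i) := by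
    rw [hm']
    rcases h5 with rfl | rfl | rfl | rfl <;> simp only [map_mul, map_one, h.neg] <;> simp
  obtain ⟨b, hb⟩ := h.conj g j
  have hb' : ρ g * ρ (φ j) = ρ (φ b) * ρ g := by rw [← map_mul, ← map_mul, hb]; congr 1; group
  have h4 := F4 b (h.hφ (by
    rw [map_mul, map_mul, map_mul, hb, ← e, conj_mul, conj_mul, ← h.conj_neg g, conj_mul, ← map_mul,
      F6.2.2.2.2.2.2.2.2.1, map_mul, map_mul]))
  have h6 : ρ (φ b) = ρ (φ j) ∨ ρ (φ b) = -ρ (φ j) ∨ ρ (φ b) = ρ (φ i) * ρ (φ j) ∨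
      ρ (φ b) = -(ρ (φ i) * ρ (φ j)) := by
    rcases h4 with rfl | rfl | rfl | rfl <;> simp only [map_mul, map_one, h.neg] <;> simp
  have dI := h.del_comm i
  have dJ := h.del_comm j
  have ds := h.del_sq
  generalize ρ (φ i) = I at *
  generalize ρ (φ j) = J at *
  generalize del ρ φ = δ at *
  generalize ρ g = x at *
  have fin : ∀ u : D, I * u = u * I → x * u = u * x → u * δ = δ * u → J * (u * x) = u * x * J →
      (u * u = 1 ∨ u * u = -1 ∨ u * u = 2 * I ∨ u * u = -2 * I) → False := fun u u1 u2 u3 u4 u5 => by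
    have w1 : I * (u * x) = u * x * I := by rw [← mul_assoc, u1, mul_assoc, gI, mul_assoc]
    have w2 : u * x * δ = -(δ * (u * x)) := by rw [mul_assoc, an, mul_neg, ← mul_assoc, u3, mul_assoc]
    have w3 : u * x * (u * x) = u * u * (x * x) := by rw [mul_assoc, ← mul_assoc x, u2]; simp only [mul_assoc]
    have F := fun c => q.final w1 u4 dI dJ w2 ds (c := c)
    rw [w3] at F
    have ii := q.ii
    rcases u5 with u5 | u5 | u5 | u5 <;> rcases gg with gg | gg | gg | gg <;> rw [u5, gg] at F <;>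
      first
      | (refine F 1 (by simp) ?_; simp [mul_assoc, ii]; done)
      | (refine F (-1) (by simp) ?_; simp [mul_assoc, ii]; done)
      | (refine F 2 (by simp) ?_; simp [mul_assoc, ii]; done)
      | (refine F (-2) (by simp) ?_; simp [mul_assoc, ii]; done)
  have ii := q.ii
  have ji := q.ji
  rcases h6 with h6 | h6 | h6 | h6 <;> rw [h6] at hb'
  · exact fin 1 (by simp) (by simp) (by simp) (by simp [hb']) (by simp)
  · refine fin I rfl gI.symm dI ?_ (by simp [ii])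
    rw [mul_assoc, hb', ← mul_assoc, ji]; simp [mul_assoc]
  · refine fin (1 - I) (by simp [mul_sub, sub_mul]) (by simp [mul_sub, sub_mul, gI])
      (by simp [mul_sub, sub_mul, dI]) ?_ (Or.inr (Or.inr (Or.inr ?_)))
    · rw [mul_assoc, hb', ← mul_assoc, ← mul_assoc, mul_sub, ji, sub_mul 1 I, ← mul_assoc I, ii]
      noncomm_ring
    · rw [mul_sub, sub_mul, sub_mul, ii]; noncomm_ring
  · refine fin (1 + I) (by simp [mul_add, add_mul]) (by simp [mul_add, add_mul, gI])
      (by simp [mul_add, add_mul, dI]) ?_ (Or.inr (Or.inr (Or.inl ?_)))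
    · rw [mul_assoc, hb', ← mul_assoc, ← mul_assoc, mul_add, ji, add_mul 1 I, mul_neg I, ← mul_assoc I, ii]
      noncomm_ring
    · rw [mul_add, add_mul, add_mul, ii]; noncomm_ring

theorem St.surj [Finite G] (g : G) : g ∈ φ.range := by
  obtain ⟨b, hb⟩ := h.conj g i
  obtain ⟨a, ha⟩ := F3 b (h.hφ (by rw [map_mul, hb, conj_mul, ← map_mul, F6.2.2.2.2.2.2.1, h.conj_neg]))
  have ha' := congrArg φ ha
  rw [map_mul, map_mul, hb] at ha'
  refine (mul_mem_cancel_left (inv_mem (MonoidHom.mem_range.2 ⟨a, rfl⟩))).1 (h.fix_i ?_)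
  calc _ = (φ a)⁻¹ * (g * φ i * g⁻¹ * φ a) := by group
    _ = _ := by rw [ha']; group

end Cfsg.Agent.Part.Am
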