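import Mathlib
import Cfsg.Agent.Isaacs.AvFix
import Cfsg.Agent.FGS.FitCrit
import Cfsg.Agent.Core.Fitting

/-! Degrees of primitive characters and class sizes, twisted by elements acting trivially on chief factors. -/

set_option autoImplicit false

open scoped commutatorElement

namespace Cfsg.Agent.Part.Av

open Cfsg Cfsg.Agent.Char Cfsg.Agent.Core Cfsg.Agent.Isaacs Subgroup

variable {G : Type*} [Group G]

theorem sq_case [Fintype G] (hs : Group.IsSolvable G) {K L : Subgroup G} [hK : K.Normal] [hL : L.Normal]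
    (c : Chief ⊤ L K) {k : ℕ} (h9 : k ^ 2 = L.relIndex K) :
    k ^ Nat.card G ∣ ∏ g : G, (centralizer {(g : G ⧸ L)}).relIndex (K.map (QuotientGroup.mk' L)) := by
  have hab := c.comm_le norm_top (solvMod_of_solv inferInstance)
  have k0 : k ≠ 0 := by
    rintro rfl
    have := one_lt_relIndex c.lt
    rw [← h9] at this
    simp at this
  obtain ⟨q, hq, -, a, a0, ha⟩ := c.exists_prime hab
  obtain ⟨V, hV⟩ : ∃ V, V = K.map (QuotientGroup.mk' L) := ⟨_, rfl⟩
  have : V.Normal := hV ▸ hK.map _ (QuotientGroup.mk'_surjective L)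
  have cV : Nat.card V = k ^ 2 := by rw [hV, ← K.relIndex_ker, QuotientGroup.ker_mk', h9]
  have hm : ∀ M : Subgroup (G ⧸ L), M.Normal → M ≤ V → M = ⊥ ∨ M = V := fun M _ l =>
    (c.min (M.comap (QuotientGroup.mk' L)) (QuotientGroup.le_comap_mk' L M) ((comap_mono l).trans (by
      rw [hV, comap_map_eq, QuotientGroup.ker_mk', sup_eq_left.2 c.lt.le])) norm_top).imp
      (fun e => by rw [← map_comap_eq_self_of_surjective (QuotientGroup.mk'_surjective L) M, e,
        QuotientGroup.map_mk'_self]) fun e => by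
      rw [← map_comap_eq_self_of_surjective (QuotientGroup.mk'_surjective L) M, e, hV]
  rw [← hV]
  have := Fact.mk hq
  have hc : centralizer (V : Set (G ⧸ L)) ≠ ⊤ := fun e => by
    obtain ⟨v, hv, o⟩ := exists_mem_prime_orderOf (H := V) (fun e => by
      rw [e, card_bot, h9] at cV; exact (one_lt_relIndex c.lt).ne cV)
    have := (hm (zpowers v) ⟨fun y hy g => by
      rwa [← e.ge (mem_top g) y (zpowers_le.2 hv hy), mul_inv_cancel_right]⟩ (zpowers_le.2 hv)).resolve_left
      fun e => by simp [zpowers_eq_bot.1 e, Nat.not_prime_one] at o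
    rw [← Nat.card_zpowers, this, cV] at o
    exact o.prime.not_isSquare ⟨k, sq k⟩
  have key := prod_fix_le_of_min (QuotientGroup.mk' L) (QuotientGroup.mk'_surjective L) inferInstance hm hc
  have tot : (∏ g : G, Nat.card (V ⊓ centralizer {QuotientGroup.mk' L g} : Subgroup _)) *
      ∏ g : G, (centralizer {(g : G ⧸ L)}).relIndex V = (k ^ Nat.card G) ^ 2 := by
    rw [← Finset.prod_mul_distrib, ← pow_mul, mul_comm, pow_mul, ← cV, Nat.card_eq_fintype_card (α := G),
      ← Finset.card_univ, ← Finset.prod_const]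
    exact Finset.prod_congr rfl fun g _ => by rw [inf_comm]; exact card_inf_mul_relIndex _ _
  rw [cV, ← pow_mul, mul_comm, pow_mul, Nat.pow_le_pow_iff_left two_ne_zero] at key
  have e1 : (k ^ Nat.card G) ^ 2 = q ^ (a * Nat.card G) := by rw [← pow_mul, mul_comm, pow_mul, h9, ha, pow_mul]
  obtain ⟨i, -, hi⟩ := (Nat.dvd_prime_pow hq).1 (e1 ▸ dvd_pow_self _ two_ne_zero)
  obtain ⟨j, -, hj⟩ := (Nat.dvd_prime_pow hq).1 (e1 ▸ tot ▸ dvd_mul_left _ _)
  have le : k ^ Nat.card G ≤ ∏ g : G, (centralizer {(g : G ⧸ L)}).relIndex V :=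
    Nat.le_of_mul_le_mul_left (sq (k ^ Nat.card G) ▸ tot.ge.trans (Nat.mul_le_mul_right _ key)) (by positivity)
  rw [hi, hj] at le ⊢
  exact pow_dvd_pow _ ((Nat.pow_le_pow_iff_right hq.one_lt).1 le)

theorem rel_ne [Finite G] (A B : Subgroup G) : A.relIndex B ≠ 0 := FiniteIndex.index_ne_zero

theorem fac_le [Fintype G] {ι : Type*} [Fintype ι] {k : ℕ} (k0 : k ≠ 0) (f : ι → ℕ) (hf : ∀ i, f i ≠ 0)
    (h : k ^ Nat.card G ∣ ∏ i, f i) (p : ℕ) :
    Nat.card G * k.factorization p ≤ ∑ i, (f i).factorization p := by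
  have h0 : ∀ i ∈ (Finset.univ : Finset ι), f i ≠ 0 := fun i _ => hf i
  have := (Nat.factorization_le_iff_dvd (pow_ne_zero _ k0) (Finset.prod_ne_zero_iff.2 h0)).2 h p
  rwa [Nat.factorization_pow, Nat.factorization_prod h0, Finsupp.smul_apply, Finsupp.finsetSum_apply,
    smul_eq_mul] at this

theorem deg_fac [Fintype G] (hs : Group.IsSolvable G) {χ : G → ℂ} (h : Irr ⊤ χ) (hp : Prim ⊥ ⊤ χ)
    {p : ℕ} (pp : p.Prime) (A : Subgroup G)
    (hA : ∀ L K : Subgroup G, Chief ⊤ L K → p ∣ L.relIndex K → ⁅K, A⁆ ≤ L)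
    (σ : G → G) (hσ : ∀ g, σ g ∈ A)
    (K : Subgroup G) : K.Normal → ∀ φ, Irr K φ → inn K χ φ ≠ 0 → ∀ d : ℕ, φ 1 = d →
      Nat.card G * d.factorization p ≤
        ∑ g : G, ((centralizer {g * σ g}).relIndex K).factorization p := by
  induction K using WellFoundedLT.induction with | _ K ih
  intro hK φ hφ e d hd
  rcases eq_or_ne K ⊥ with rfl | K0
  · rw [(irr_bot_iff hφ.chr).1 hφ] at hd
    obtain rfl : 1 = d := by exact_mod_cast hd
    simp
  obtain ⟨L, -, c⟩ := exists_chief_below (A := ⊤) K0.bot_lt norm_top norm_top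
  have hL := normal_of_le_normalizer c.nL
  have hab := c.comm_le norm_top (solvMod_of_solv inferInstance)
  have hi := hp.inv h bot_le le_top norm_top hφ e
  have r := h.res_smul norm_top le_top hφ hi e
  have ov : ∀ ψ, inn L φ ψ ≠ 0 → inn L χ ψ ≠ 0 := fun ψ a => by
    rw [(r.mono c.lt.le).inn_left, inn_smul_left]; exact mul_ne_zero e a
  have dv : ∀ g : G, ((centralizer {g}).relIndex L).factorization p +
      ((centralizer {(g : G ⧸ L)}).relIndex (K.map (QuotientGroup.mk' L))).factorization p ≤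
      ((centralizer {g}).relIndex K).factorization p := fun g => by
    have := (Nat.factorization_le_iff_dvd (mul_ne_zero (rel_ne _ _) (rel_ne _ _)) (rel_ne _ _)).2
      (relIndex_cent_dvd c.lt.le g) p
    rwa [Nat.factorization_mul (rel_ne _ _) (rel_ne _ _), Finsupp.add_apply] at this
  have dv2 := Finset.sum_le_sum (s := Finset.univ) fun g _ => dv (g * σ g)
  rw [Finset.sum_add_distrib] at dv2
  rcases c.going_down hab hφ hi with h7 | ⟨ψ, k, h7, h8, h9⟩ | ⟨ψ, h7, h8, h9, -⟩
  · exact (ih L c.lt hL φ h7 (ov _ h7.inn_self_ne) d hd).trans ((Nat.le_add_right _ _).trans dv2)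
  · obtain ⟨f, f0, hf⟩ := h7.deg
    have k0 : k ≠ 0 := by
      rintro rfl
      exact hφ.one_ne (by simpa using h8.one)
    obtain rfl : d = f * k := by
      have := h8.one
      rw [hd, Pi.smul_apply, hf, smul_eq_mul, mul_comm] at this
      exact_mod_cast this
    rw [Nat.factorization_mul f0.ne' k0, Finsupp.add_apply, mul_add]
    refine (Nat.add_le_add (ih L c.lt hL ψ h7 (ov _ ?_) f hf) ?_).trans dv2
    · rw [h8.inn_left, inn_smul_left]; exact mul_ne_zero (Nat.cast_ne_zero.2 k0) h7.inn_self_ne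
    by_cases hpk : p ∣ k
    · have hA' := hA L K c (h9 ▸ dvd_pow hpk two_ne_zero)
      refine (fac_le k0 _ (fun g => rel_ne _ _) (sq_case hs c h9) p).trans (le_of_eq ?_)
      refine Finset.sum_congr rfl fun g _ => ?_
      rw [← inf_relIndex_right, ← inf_relIndex_right (centralizer {((g * σ g : G) : G ⧸ L)})]
      refine congrArg (fun X : Subgroup (G ⧸ L) => (X.relIndex (K.map (QuotientGroup.mk' L))).factorization p) ?_
      ext v
      simp only [mem_inf, mem_centralizer_singleton_iff, and_congr_left_iff]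
      rintro ⟨v, hv, rfl⟩
      have a : (v : G ⧸ L) * (σ g : G ⧸ L) = (σ g : G ⧸ L) * v := by
        rw [← commutatorElement_eq_one_iff_mul_comm]
        exact (QuotientGroup.eq_one_iff (N := L) ⁅v, σ g⁆).2 (hA' (commutator_mem_commutator hv (hσ g)))
      simp only [QuotientGroup.mk'_apply, QuotientGroup.mk_mul]
      rw [mul_assoc, ← a, ← mul_assoc, ← mul_assoc, mul_left_inj]
    · rw [Nat.factorization_eq_zero_of_not_dvd hpk]
      simp
  · have := (le_stab c.nL).mpr (hp.inv h bot_le le_top c.nL h7 (ov _ h8))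
    exact absurd (h9 ▸ le_inf (le_top.trans this) le_rfl) c.lt.not_ge

theorem exists_good [Fintype G] (hs : Group.IsSolvable G) {χ : G → ℂ} (h : Irr ⊤ χ) (hp : Prim ⊥ ⊤ χ)
    {p : ℕ} (pp : p.Prime) (A : Subgroup G)
    (hA : ∀ L K : Subgroup G, Chief ⊤ L K → p ∣ L.relIndex K → ⁅K, A⁆ ≤ L) {d : ℕ} (hd : χ 1 = d) :
    ∃ g : G, ∀ a ∈ A, d.factorization p ≤ ((centralizer {g * a}).index).factorization p := by
  by_contra hc
  push Not at hc
  choose σ hσ h2 using hc
  have := deg_fac hs h hp pp A hA σ hσ ⊤ inferInstance χ h h.inn_self_ne d hd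
  simp only [relIndex_top_right] at this
  rw [Nat.card_eq_fintype_card, ← Finset.card_univ, ← smul_eq_mul, ← Finset.sum_const] at this
  exact absurd (Finset.sum_lt_sum_of_nonempty Finset.univ_nonempty fun g _ => h2 g) this.not_gt

/-- In a metanilpotent group, Sylow `p`-subgroups centralize the `p`-chief factors. -/
theorem sylow_cent [Finite G] (hs : Group.IsSolvable G) {F : Subgroup G} [F.Normal] (hF : Group.IsNilpotent F)
    (hm : Group.IsNilpotent (G ⧸ F)) {p : ℕ} [pp : Fact p.Prime] (P : Sylow p G) (L K : Subgroup G)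
    (c : Chief ⊤ L K) (hp : p ∣ L.relIndex K) : ⁅K, (P : Subgroup G)⁆ ≤ L := by
  have hL := normal_of_le_normalizer c.nL
  have hK := normal_of_le_normalizer c.nK
  have h1 : ⁅K, F⁆ ≤ L := FGS.commutator_le_of_chief hF c.lt fun W _ a b => c.min W a b norm_top
  have hPF : ((P : Subgroup G) ⊔ F).Normal := by
    have h2 : ((P.mapSurjective (QuotientGroup.mk'_surjective F) : Sylow p (G ⧸ F)) : Subgroup (G ⧸ F)).Normal :=
      Sylow.normal_of_all_max_subgroups_normal
        (fun H hH => NormalizerCondition.normal_of_coatom H normalizerCondition_of_isNilpotent hH) _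
    have h3 := h2.comap (QuotientGroup.mk' F)
    rwa [Sylow.coe_mapSurjective, comap_map_eq, QuotientGroup.ker_mk'] at h3
  -- fixed points
  let M : Subgroup G := K ⊓ (centralizer (((P : Subgroup G) ⊔ F).map (QuotientGroup.mk' L) : Set (G ⧸ L))).comap
    (QuotientGroup.mk' L)
  have hN : (((P : Subgroup G) ⊔ F).map (QuotientGroup.mk' L)).Normal := hPF.map _ (QuotientGroup.mk'_surjective L)
  have hM : M.Normal := inferInstance
  have hLM : L ≤ M := le_inf c.lt.le fun x hx => by
    rw [mem_comap, QuotientGroup.mk'_apply, (QuotientGroup.eq_one_iff x).2 hx]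
    exact one_mem _
  rcases c.min M hLM inf_le_left norm_top with e | e
  · exfalso
    have hab := c.comm_le norm_top (solvMod_of_solv inferInstance)
    obtain ⟨q, hq, -, a, a0, ha⟩ := c.exists_prime hab
    obtain rfl : p = q := (Nat.prime_dvd_prime_iff_eq pp.out hq).1 (pp.out.dvd_of_dvd_pow (ha ▸ hp))
    have cV : Nat.card (K.map (QuotientGroup.mk' L)) = p ^ a := by
      rw [← K.relIndex_ker, QuotientGroup.ker_mk', ha]
    have pV : IsPGroup p (K.map (QuotientGroup.mk' L)) := IsPGroup.of_card cV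
    have : (K.map (QuotientGroup.mk' L)).Normal := hK.map _ (QuotientGroup.mk'_surjective L)
    have V0 : K.map (QuotientGroup.mk' L) ≠ ⊥ := fun e => by
      rw [e, card_bot] at cV
      exact (Nat.one_lt_pow a0.ne' hq.one_lt).ne cV
    refine inf_centralizer_ne_bot_of_isPGroup pV (P.isPGroup'.map (QuotientGroup.mk' L)) norm_top V0 ?_
    rw [eq_bot_iff]
    rintro _ ⟨⟨v, hv, rfl⟩, h2⟩
    have : v ∈ M := by
      refine mem_inf.2 ⟨hv, ?_⟩
      rw [mem_comap, Subgroup.map_sup]
      refine (le_centralizer_iff.1 (sup_le ?_ ?_) : zpowers _ ≤ _) (mem_zpowers _)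
      · exact le_centralizer_iff.1 (zpowers_le.2 h2)
      · refine le_centralizer_iff.1 (zpowers_le.2 ?_)
        rintro _ ⟨f, hf, rfl⟩
        symm
        rw [← commutatorElement_eq_one_iff_mul_comm, ← map_commutatorElement]
        exact (QuotientGroup.eq_one_iff (N := L) _).2 (h1 (commutator_mem_commutator hv hf))
    rw [e] at this
    exact (QuotientGroup.eq_one_iff (N := L) _).2 this
  · rw [commutator_le]
    intro k hk x hx
    have := (e.ge hk).2 _ (mem_map_of_mem (QuotientGroup.mk' L) (mem_sup_left hx))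
    rw [← QuotientGroup.eq_one_iff (N := L), ← QuotientGroup.mk'_apply, map_commutatorElement,
      commutatorElement_eq_one_iff_mul_comm]
    exact this.symm

end Cfsg.Agent.Part.Av
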