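import Mathlib
import Cfsg.Agent.Char.Extend

/-!
Extension of characters of extraspecial 2-groups, part 1: the character computation for a
cyclic group acting without fixed points.
-/

set_option autoImplicit false

namespace Cfsg.Agent.Part.Dade

open Cfsg Cfsg.Agent.Char
open scoped ComplexConjugate

theorem int_pairs {ι : Type*} [Fintype ι] (m : ι → ℤ) :
    (Fintype.card ι : ℤ) * ∑ i, m i ^ 2 - (∑ i, m i) ^ 2 = 0 ∨
      (Fintype.card ι : ℤ) - 1 ≤ (Fintype.card ι : ℤ) * ∑ i, m i ^ 2 - (∑ i, m i) ^ 2 := by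
  classical
  rcases isEmpty_or_nonempty ι with hι | ⟨⟨a⟩⟩
  · left
    simp
  set c := m a with hc
  set x : ι → ℤ := fun j => m j - c with hx
  have e1 : ∑ i, m i = ∑ i, x i + Fintype.card ι * c := by
    simp only [hx, Finset.sum_sub_distrib, Finset.sum_const, Finset.card_univ, nsmul_eq_mul]
    ring
  have e2 : ∑ i, m i ^ 2 = ∑ i, x i ^ 2 + 2 * c * ∑ i, x i + Fintype.card ι * c ^ 2 := by
    have : ∀ i, m i ^ 2 = x i ^ 2 + 2 * c * x i + c ^ 2 := fun i => by simp only [hx]; ring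
    simp only [this, Finset.sum_add_distrib, ← Finset.mul_sum, Finset.sum_const, Finset.card_univ,
      nsmul_eq_mul]
  have e3 : (Fintype.card ι : ℤ) * ∑ i, m i ^ 2 - (∑ i, m i) ^ 2 =
      (Fintype.card ι : ℤ) * ∑ i, x i ^ 2 - (∑ i, x i) ^ 2 := by rw [e1, e2]; ring
  rw [e3]
  set s := Finset.univ.filter fun j => x j ≠ 0 with hs
  have h1 : ∑ i, x i = ∑ i ∈ s, x i := (Finset.sum_filter_ne_zero _).symm
  have h2 : ∑ i, x i ^ 2 = ∑ i ∈ s, x i ^ 2 := by
    refine (Finset.sum_subset (Finset.subset_univ _) fun i _ hi => ?_).symm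
    have : x i = 0 := by simpa [hs] using hi
    simp [this]
  rcases s.eq_empty_or_nonempty with h0 | h0
  · left
    rw [h1, h2, h0]
    simp
  right
  have h3 : (∑ i ∈ s, x i) ^ 2 ≤ s.card * ∑ i ∈ s, x i ^ 2 := sq_sum_le_card_mul_sum_sq
  have h4 : (s.card : ℤ) ≤ ∑ i ∈ s, x i ^ 2 := by
    have : ∑ _i ∈ s, (1 : ℤ) ≤ ∑ i ∈ s, x i ^ 2 := Finset.sum_le_sum fun i hi => by
      have : x i ≠ 0 := by simpa [hs] using hi
      have := sq_pos_of_ne_zero this
      omega
    simpa using this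
  have h5 : 1 ≤ s.card := h0.card_pos
  have h6 : s.card < Fintype.card ι := by
    rw [← Finset.card_univ]
    refine Finset.card_lt_card ⟨Finset.subset_univ _, fun h => ?_⟩
    have := h (Finset.mem_univ a)
    simp [hs, hx, hc] at this
  rw [h1, h2]
  have h5' : (1 : ℤ) ≤ s.card := by exact_mod_cast h5
  have h6' : (s.card : ℤ) + 1 ≤ Fintype.card ι := by exact_mod_cast h6
  nlinarith [mul_le_mul_of_nonneg_left h4 (by linarith : (0 : ℤ) ≤ Fintype.card ι - s.card),
    mul_nonneg (sub_nonneg.mpr h5') (sub_nonneg.mpr h6')]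

theorem exists_linear_of_norm_one {W Y : Type*} [Group W] [Group Y] [Finite W] [Finite Y]
    [IsMulCommutative Y] [Nontrivial Y] {χ : W × Y → ℂ} (hχ : IsCharacter (W × Y) χ)
    (h : ∀ w y, y ≠ 1 → ‖χ (w, y)‖ = 1) :
    ∃ μ : W →* ℂˣ, ∀ w y, y ≠ 1 → χ (w, y) = χ (1, y) * μ w := by
  classical
  have := Fintype.ofFinite W
  have := Fintype.ofFinite Y
  let f : Y → W → ℂ := fun y w => χ (w, y)
  have hf : ∀ y, IsClassFunction W (f y) := fun y g x => by
    have := isChar_classFun hχ (g, y) (x, 1)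
    simpa [f] using this
  let a : IrrCharacter W → Y → ℂ := fun φ y => classInner (f y) φ
  have ha : ∀ φ, IsClassFunction Y (a φ) := fun φ g x => by
    rw [mul_comm' x g, mul_inv_cancel_right]
  have hm : ∀ (φ : IrrCharacter W) (l : IrrCharacter Y), ∃ n : ℕ, classInner (a φ) l = n := by
    intro φ l
    obtain ⟨n, hn⟩ := classInner_isChar_nat hχ (isChar_mul
      (isChar_comp (MonoidHom.fst W Y) (irr_isChar φ)) (isChar_comp (MonoidHom.snd W Y) (irr_isChar l)))
    refine ⟨n, ?_⟩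
    rw [← hn]
    simp only [classInner_def, a, f, Fintype.sum_prod_type_right, Nat.card_prod, Pi.mul_apply,
      MonoidHom.coe_fst, MonoidHom.coe_snd, map_mul, Finset.mul_sum, Finset.sum_mul]
    refine Finset.sum_congr rfl fun y _ => Finset.sum_congr rfl fun w _ => ?_
    push_cast
    ring
  choose m hm using hm
  have hY : (Nat.card Y : ℝ) ≠ 0 := by exact_mod_cast Nat.card_pos.ne'
  have hW : (Nat.card W : ℝ) ≠ 0 := by exact_mod_cast Nat.card_pos.ne'
  let D : IrrCharacter W → ℝ := fun φ => ∑ y ∈ Finset.univ.erase 1, ‖a φ y‖ ^ 2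
  have hD : ∀ φ, D φ = 0 ∨ (Nat.card Y : ℝ) - 1 ≤ D φ := by
    intro φ
    have e1 := classInner_self_re_eq_sum (ha φ)
    rw [classInner_self_re] at e1
    have e2 := classFun_apply_eq_sum (ha φ) 1
    simp only [hm, Complex.norm_natCast] at e1
    simp only [hm, isIrr_degree_one_of_comm (Subtype.property _), mul_one] at e2
    have e3 : D φ = ∑ y, ‖a φ y‖ ^ 2 - ‖a φ 1‖ ^ 2 := by
      rw [← Finset.add_sum_erase _ _ (Finset.mem_univ (1 : Y))]
      ring
    have e4 : ‖a φ 1‖ = ∑ l, (m φ l : ℝ) := by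
      rw [e2, ← Nat.cast_sum, Complex.norm_natCast, Nat.cast_sum]
    have e5 : ∑ y, ‖a φ y‖ ^ 2 = Nat.card Y * ∑ l, (m φ l : ℝ) ^ 2 := by
      rw [← e1]
      field_simp
    have e6 := int_pairs fun l => (m φ l : ℤ)
    rw [← Nat.card_eq_fintype_card, card_irr_of_comm] at e6
    rw [e3, e4, e5]
    rcases e6 with e6 | e6
    · left
      exact_mod_cast e6
    · right
      exact_mod_cast e6
  have hn : ∀ y, y ≠ 1 → ∑ φ, ‖a φ y‖ ^ 2 = 1 := by
    intro y hy
    rw [← classInner_self_re_eq_sum (hf y), classInner_self_re]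
    simp only [f, h _ y hy, one_pow, Finset.sum_const, Finset.card_univ, nsmul_eq_mul, mul_one,
      ← Nat.card_eq_fintype_card]
    field_simp
  have hsum : ∑ φ, D φ = (Nat.card Y : ℝ) - 1 := by
    rw [Finset.sum_comm, Finset.sum_congr rfl fun y hy => hn y (Finset.ne_of_mem_erase hy)]
    rw [Finset.sum_const, Finset.card_erase_of_mem (Finset.mem_univ _), Finset.card_univ,
      ← Nat.card_eq_fintype_card, nsmul_eq_mul, mul_one, Nat.cast_sub Nat.card_pos]
    simp
  have hpos : (0 : ℝ) < (Nat.card Y : ℝ) - 1 := by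
    have : (1 : ℝ) < Nat.card Y := by exact_mod_cast Finite.one_lt_card
    linarith
  have hD0 : ∀ φ, 0 ≤ D φ := fun φ => Finset.sum_nonneg fun _ _ => by positivity
  obtain ⟨φ₀, -, h0⟩ : ∃ φ ∈ Finset.univ, D φ ≠ 0 :=
    Finset.exists_ne_zero_of_sum_ne_zero (by rw [hsum]; exact hpos.ne')
  have h1 : ∀ φ, φ ≠ φ₀ → ∀ y, y ≠ 1 → a φ y = 0 := by
    intro φ hφ y hy
    have e1 := Finset.add_sum_erase _ D (Finset.mem_univ φ₀)
    have e2 : D φ ≤ ∑ ψ ∈ Finset.univ.erase φ₀, D ψ :=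
      Finset.single_le_sum (fun ψ _ => hD0 ψ) (Finset.mem_erase.mpr ⟨hφ, Finset.mem_univ _⟩)
    have e3 := (hD φ₀).resolve_left h0
    have e4 : D φ = 0 := le_antisymm (by linarith) (hD0 φ)
    have e5 := (Finset.sum_eq_zero_iff_of_nonneg fun _ _ => by positivity).mp e4 y
      (Finset.mem_erase.mpr ⟨hy, Finset.mem_univ _⟩)
    simpa using e5
  have h2 : ∀ w y, y ≠ 1 → χ (w, y) = a φ₀ y * (φ₀ : W → ℂ) w := by
    intro w y hy
    have := classFun_apply_eq_sum (hf y) w
    rw [Finset.sum_eq_single φ₀ (fun φ _ hφ => by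
      have := h1 φ hφ y hy
      simp only [a] at this
      rw [this, zero_mul]) (by simp)] at this
    exact this
  obtain ⟨y₀, hy₀⟩ := exists_ne (1 : Y)
  have h3 : ‖a φ₀ y₀‖ = 1 := by
    have := hn y₀ hy₀
    rw [Finset.sum_eq_single φ₀ (fun φ _ hφ => by simp [h1 φ hφ y₀ hy₀]) (by simp)] at this
    exact (pow_eq_one_iff_of_nonneg (norm_nonneg _) two_ne_zero).mp this
  obtain ⟨d, -, hd⟩ := isIrr_degree φ₀.2
  have h4 : (φ₀ : W → ℂ) 1 = 1 := by
    have := h 1 y₀ hy₀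
    rw [h2 1 y₀ hy₀, norm_mul, h3, one_mul] at this
    erw [hd] at this ⊢
    rw [Complex.norm_natCast] at this
    exact_mod_cast this
  obtain ⟨μ, hμ⟩ := isChar_linear_of_degree_one (irr_isChar φ₀) h4
  refine ⟨μ, fun w y hy => ?_⟩
  rw [h2 w y hy, h2 1 y hy, h4, mul_one, hμ]

theorem comm_of_coprime {Γ : Type*} [Group Γ] {w k : Γ} {a b : ℕ} (hab : a.Coprime b)
    (hc : w * k * w⁻¹ * k⁻¹ ∈ Subgroup.center Γ) (hw : w ^ a ∈ Subgroup.center Γ)
    (hk : k ^ b ∈ Subgroup.center Γ) : w * k = k * w := by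
  set c := w * k * w⁻¹ * k⁻¹ with hcd
  have hc' : ∀ g, Commute g c := fun g => Subgroup.mem_center_iff.mp hc g
  have e0 : w * k * w⁻¹ = c * k := by rw [hcd]; group
  have e1 : ∀ n : ℕ, w ^ n * k = c ^ n * k * w ^ n := by
    intro n
    induction n with
    | zero => simp
    | succ n ih =>
      have e : w * k = c * k * w := by rw [hcd]; group
      rw [pow_succ', mul_assoc, ih, ← mul_assoc, ← mul_assoc, ((hc' w).pow_right n).eq,
        mul_assoc (c ^ n), e, pow_succ c]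
      simp only [mul_assoc]
  have h1 : c ^ a = 1 := by
    have := e1 a
    rw [← Subgroup.mem_center_iff.mp hw k, mul_left_inj] at this
    simpa using this
  have h2 : c ^ b = 1 := by
    have := congrArg (· ^ b) e0
    simp only [conj_pow, (hc' k).symm.mul_pow] at this
    rw [Subgroup.mem_center_iff.mp hk w, mul_inv_cancel_right] at this
    simpa using this
  have h3 : c = 1 := by
    have := pow_gcd_eq_one.mpr ⟨h1, h2⟩
    rwa [hab, pow_one] at this
  rw [h3, one_mul] at e0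
  rw [← mul_inv_eq_iff_eq_mul, e0]

theorem exists_lin_sylow {Γ G : Type*} [Group Γ] [Group G] [Finite Γ] [Finite G] (π : Γ →* G)
    (hπ : Function.Surjective π) (hc : π.ker ≤ Subgroup.center Γ) (lam : π.ker →* ℂˣ)
    {ψ : Γ → ℂ} (hψ : IsCharacter Γ ψ) (hs : ∀ (z : π.ker) γ, ψ (z * γ) = lam z * ψ γ)
    (K S : Subgroup G) (hSK : S ≤ Subgroup.normalizer (K : Set G)) {q : ℕ} (hq : q.Prime)
    (hq2 : q ≠ 2) (hK : Nat.card K = q) (hS : IsPGroup 2 S)
    (hn : ∀ γ, ∀ t ∈ S ⊓ Subgroup.centralizer (K : Set G), ∀ k ∈ K, k ≠ 1 → π γ = t * k →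
      ‖ψ γ‖ = 1) :
    ∃ τ : S.comap π →* ℂˣ, ∀ (z : π.ker) (hz : (z : Γ) ∈ S.comap π), τ ⟨z, hz⟩ = lam z := by
  have : Fact q.Prime := ⟨hq⟩
  have hcyc : IsCyclic K := isCyclic_of_prime_card hK
  have : Nontrivial K := Finite.one_lt_card_iff_nontrivial.mp (hK ▸ hq.one_lt)
  let L := K.comap π
  let W := (S ⊓ Subgroup.centralizer (K : Set G)).comap π
  have hker : ∀ (U : Subgroup G) {z : Γ}, z ∈ π.ker → z ∈ U.comap π := fun U z hz => by
    rw [Subgroup.mem_comap, MonoidHom.mem_ker.mp hz]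
    exact U.one_mem
  have hL : IsMulCommutative L :=
    (π.subgroupComap K).isMulCommutative_of_isCyclic_of_ker_le_center fun x hx =>
      Subgroup.mem_center_iff.mpr fun y => Subtype.ext
        (Subgroup.mem_center_iff.mp (hc (congrArg Subtype.val hx : π x = 1)) y)
  obtain ⟨ν, hν⟩ := Det.exists_extend_linear (π.ker.subgroupOf L)
    (lam.comp (L.subtype.subgroupComap π.ker)) fun x hx => by
      rw [commutator_eq_bot, Subgroup.mem_bot] at hx
      rw [show x = 1 from Subtype.ext hx, map_one]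
  have hν' : ∀ z : π.ker, ν ⟨z, hker K z.2⟩ = lam z := fun z => hν ⟨⟨z, hker K z.2⟩, z.2⟩
  have hcomm : ∀ (w : W) (k : L), Commute (W.subtype w) (L.subtype k) := by
    intro w k
    obtain ⟨a, ha⟩ := hS ⟨π w, w.2.1⟩
    refine comm_of_coprime (a := 2 ^ a) (b := q)
      (Nat.Coprime.pow_left a ((Nat.coprime_primes Nat.prime_two hq).mpr hq2.symm))
      (hc ?_) (hc ?_) (hc ?_)
    · have := w.2.2 (π k) k.2
      simp only [MonoidHom.mem_ker, map_mul, map_inv, Subgroup.coe_subtype, ← this]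
      group
    · rw [MonoidHom.mem_ker, map_pow]
      exact congrArg Subtype.val ha
    · rw [MonoidHom.mem_ker, map_pow, ← hK]
      exact congrArg Subtype.val (pow_card_eq_one' (x := (⟨π k, k.2⟩ : K)))
  have hP := isChar_mul (isChar_comp (MonoidHom.noncommCoprod _ _ hcomm) hψ)
    (isChar_linear (ν⁻¹.comp (MonoidHom.snd W L)))
  obtain ⟨χ, hχ, eχ⟩ := isChar_exists_of_ker_le ((MonoidHom.id W).prodMap (π.subgroupComap K))
    (Function.Surjective.prodMap Function.surjective_id (π.subgroupComap_surjective_of_surjective K hπ))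
    hP (by
      rintro ⟨w, k⟩ hx
      rw [mem_charKer_iff hP]
      have h1 : w = 1 := congrArg Prod.fst hx
      have h2 : π k = 1 := congrArg (fun x => (x.2 : G)) hx
      have h3 := hs ⟨k, h2⟩ 1
      have h4 := hν' ⟨k, h2⟩
      simp only [mul_one] at h3
      have h5 : ν k = lam ⟨k, h2⟩ := h4
      have h6 : (lam ⟨k, h2⟩ : ℂ) ≠ 0 := Units.ne_zero _
      simp only [h1, h3, h5, Pi.mul_apply, MonoidHom.noncommCoprod_apply, Subgroup.coe_subtype,
        MonoidHom.comp_apply, MonoidHom.inv_apply, MonoidHom.coe_snd,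
        Units.val_inv_eq_inv_val, map_one, OneMemClass.coe_one, one_mul, inv_one, Units.val_one,
        mul_one, Prod.fst_one, Prod.snd_one]
      field_simp)
  have eχ' : ∀ (w : W) (k : L), χ (w, ⟨π k, k.2⟩) = ψ (w * k) * (ν k : ℂ)⁻¹ := fun w k => by
    have := congrFun eχ (w, k)
    simp only [Pi.mul_apply, MonoidHom.noncommCoprod_apply, Subgroup.coe_subtype,
      MonoidHom.comp_apply, MonoidHom.inv_apply, MonoidHom.coe_snd,
      Units.val_inv_eq_inv_val] at this
    exact this.symm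
  obtain ⟨μ, hμ⟩ := exists_linear_of_norm_one hχ (by
    rintro w ⟨y, hy⟩ hy1
    obtain ⟨k, rfl⟩ := hπ y
    rw [eχ' w ⟨k, hy⟩, norm_mul, norm_inv, linear_norm, inv_one, mul_one]
    exact hn _ _ w.2 _ hy (fun h => hy1 (Subtype.ext h)) (map_mul π _ _))
  have hμ' : ∀ (w : W) (k : Γ), π k ∈ K → π k ≠ 1 → ψ (w * k) = ψ k * μ w := by
    intro w k hk hk1
    have := hμ w ⟨π k, hk⟩ (fun h => hk1 (congrArg Subtype.val h))
    rw [eχ' w ⟨k, hk⟩, eχ' 1 ⟨k, hk⟩] at this
    simp only [OneMemClass.coe_one, one_mul] at this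
    have h0 : (ν ⟨k, hk⟩ : ℂ) ≠ 0 := Units.ne_zero _
    field_simp at this
    exact this
  obtain ⟨⟨y, hy⟩, hy1⟩ := exists_ne (1 : K)
  obtain ⟨u, rfl⟩ := hπ y
  have hu1 : π u ≠ 1 := fun h => hy1 (Subtype.ext h)
  have hu0 : ψ u ≠ 0 := by
    rw [← norm_ne_zero_iff, hn u 1 (Subgroup.one_mem _) _ hy hu1 (one_mul _).symm]
    exact one_ne_zero
  let φ : S.comap π →* MulAut K :=
    K.normalizerMonoidHom.comp ((Subgroup.inclusion hSK).comp (π.subgroupComap S))
  have hφ : ∀ x : S.comap π, x ∈ φ.ker ↔ (x : Γ) ∈ W := fun x => by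
    have : x ∈ φ.ker ↔ Subgroup.inclusion hSK (π.subgroupComap S x) ∈ K.normalizerMonoidHom.ker :=
      Iff.rfl
    rw [this, Subgroup.normalizerMonoidHom_ker, Subgroup.mem_subgroupOf]
    exact ⟨fun h => ⟨x.2, h⟩, fun h => h.2⟩
  let j : φ.ker →* W := ((S.comap π).subtype.comp φ.ker.subtype).codRestrict W
    fun x => (hφ x).mp x.2
  have hA : IsCyclic (MulAut K) := by
    have := (IsCyclic.mulAutMulEquiv K).isCyclic
    rw [this, hK]
    exact ZMod.isCyclic_units_prime hq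
  obtain ⟨η, hη, eη⟩ := Extend.exists_ext_of_isCyclic (N := φ.ker)
    (isCyclic_of_injective _ (QuotientGroup.kerLift_injective φ)) (isIrr_linear (μ.comp j))
    (Clifford.inertia_eq_top.mpr fun g n => by
      have hg := hSK g.2
      have h1 := hμ' (j ⟨g * n * g⁻¹, φ.normal_ker.conj_mem n n.2 g⟩) (g * u * (g : Γ)⁻¹)
        (by
          rw [map_mul, map_mul, map_inv]
          exact (Subgroup.mem_normalizer_iff.mp hg _).mp hy)
        (by
          rw [map_mul, map_mul, map_inv]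
          simpa using hu1)
      have h2 := hμ' (j n) u hy hu1
      have e : ((j ⟨g * n * g⁻¹, φ.normal_ker.conj_mem n n.2 g⟩ : W) : Γ) * (g * u * (g : Γ)⁻¹) =
          g * ((j n : Γ) * u) * (g : Γ)⁻¹ := by
        change ((g : Γ) * n * (g : Γ)⁻¹) * _ = g * ((n : Γ) * u) * (g : Γ)⁻¹
        group
      rw [e, isChar_classFun hψ, isChar_classFun hψ, h2] at h1
      exact (mul_left_cancel₀ hu0 h1).symm)
  obtain ⟨τ, hτ⟩ := isChar_linear_of_degree_one (isIrr_isChar hη) (by simpa using eη 1)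
  refine ⟨τ, fun z hz => Units.ext ?_⟩
  have h1 := eη ⟨⟨z, hz⟩, (hφ _).mpr (hker _ z.2)⟩
  have h2 := hμ' ⟨z, hker _ z.2⟩ u hy hu1
  rw [hs, mul_comm] at h2
  rw [mul_left_cancel₀ hu0 h2]
  rw [hτ] at h1
  exact h1

end Cfsg.Agent.Part.Dade
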