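import Mathlib
import Cfsg.Agent.Part.Dade1
import Cfsg.Agent.Core.Coprime
import Cfsg.Agent.PGrp.Basic

/-!
Extension of characters of extraspecial 2-groups, part 2: central products.
-/

set_option autoImplicit false

namespace Cfsg.Agent.Part.Dade

open Cfsg Cfsg.Agent.Char Subgroup
open scoped ComplexConjugate

variable {G : Type*} [Group G]

/-- `E` is extraspecial with centre generated by `z`, or is generated by `z`. -/
structure ES (z : G) (E : Subgroup G) : Prop where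
  zE : z ∈ E
  z1 : z ≠ 1
  z2 : z * z = 1
  zc : z ∈ center G
  sq : ∀ e ∈ E, e * e ∈ zpowers z
  nd : ∀ e ∈ E, (∀ x ∈ E, x * e = e * x) → e ∈ zpowers z

theorem mem_zp {z x : G} (h : z * z = 1) : x ∈ zpowers z ↔ x = 1 ∨ x = z := by
  refine ⟨?_, by rintro (rfl | rfl) <;> simp⟩
  rintro ⟨k, rfl⟩
  have h2 : z ^ (2 : ℤ) = 1 := by rw [zpow_two, h]
  rcases Int.even_or_odd' k with ⟨j, rfl | rfl⟩
  · left
    simp only [zpow_mul, h2, one_zpow]
  · right
    simp only [zpow_add, zpow_mul, h2, one_zpow, zpow_one, one_mul]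

theorem ES.cm {z : G} {E : Subgroup G} (h : ES z E) {a b : G} (ha : a ∈ E) (hb : b ∈ E) :
    a * b * a⁻¹ * b⁻¹ ∈ zpowers z := by
  have : a * b * a⁻¹ * b⁻¹ = a * a * (a⁻¹ * b * (a⁻¹ * b)) * (b⁻¹ * b⁻¹) := by group
  rw [this]
  exact mul_mem (mul_mem (h.sq a ha) (h.sq _ (mul_mem (inv_mem ha) hb))) (h.sq _ (inv_mem hb))

theorem ES.zp_le {z : G} {E : Subgroup G} (h : ES z E) : zpowers z ≤ E :=
  (zpowers_le).mpr h.zE

theorem ES.zp_center {z : G} {E : Subgroup G} (h : ES z E) : zpowers z ≤ center G :=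
  (zpowers_le).mpr h.zc

theorem ES.isPGroup {z : G} {E : Subgroup G} (h : ES z E) : IsPGroup 2 E := by
  intro e
  refine ⟨2, Subtype.ext ?_⟩
  have : ((e ^ 2 ^ 2 : E) : G) = (e * e) * (e * e) := by
    rw [Subgroup.coe_pow]
    norm_num [pow_succ, mul_assoc]
  rw [this]
  rcases (mem_zp h.z2).mp (h.sq e e.2) with h1 | h1 <;> simp [h1, h.z2]

theorem ES.card_zp {z : G} {E : Subgroup G} (h : ES z E) : Nat.card (zpowers z) = 2 := by
  rw [Nat.card_zpowers]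
  exact orderOf_eq_prime (by rw [pow_two, h.z2]) h.z1

/-- `f` is a character of `U` restricting to the faithful irreducible character of `E`. -/
def Ok (z : G) (E U : Subgroup G) (f : G → ℂ) : Prop :=
  IsCharacter U (fun u => f u) ∧ f z = -f 1 ∧ 2 * f 1 ^ 2 = Nat.card E

variable [Finite G]

theorem mul_z {H : Type*} [Group H] [Finite H] {χ : H → ℂ} (hχ : IsCharacter H χ) {z : H}
    (h : χ z = -χ 1) (g : H) : χ (z * g) = -χ g := by
  by_cases h1 : χ 1 = 0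
  · simp [isChar_eq_zero_of_degree hχ h1]
  have := isChar_mul_of_norm_eq hχ (z := z) (by rw [h, norm_neg]) g
  rw [h] at this
  exact mul_right_cancel₀ h1 (by rw [this]; ring)

theorem ES.vanish {z : G} {E : Subgroup G} (h : ES z E) {θ : E → ℂ} (hθ : IsCharacter E θ)
    (hz : θ ⟨z, h.zE⟩ = -θ 1) (e : E) (he : (e : G) ∉ zpowers z) : θ e = 0 := by
  have : ∃ x ∈ E, x * e ≠ e * x := by
    by_contra hc
    push Not at hc
    exact he (h.nd e e.2 hc)
  obtain ⟨x, hx, hxe⟩ := this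
  rcases (mem_zp h.z2).mp (h.cm hx e.2) with h1 | h1
  · exact absurd (by rw [← mul_inv_eq_iff_eq_mul, ← mul_inv_eq_one, h1]) hxe
  have h2 : (⟨x, hx⟩ : E) * e * (⟨x, hx⟩ : E)⁻¹ = ⟨z, h.zE⟩ * e :=
    Subtype.ext (by simp [← h1])
  have h3 := isChar_classFun hθ e ⟨x, hx⟩
  rw [h2, mul_z hθ hz] at h3
  linear_combination (-1 / 2 : ℂ) * h3

theorem ES.inner {z : G} {E : Subgroup G} [Fintype E] (h : ES z E) {θ : E → ℂ}
    (hθ : IsCharacter E θ) (hz : θ ⟨z, h.zE⟩ = -θ 1) :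
    Nat.card E * classInner θ θ = 2 * θ 1 ^ 2 := by
  classical
  rw [card_mul_classInner, ← Finset.sum_subset (Finset.subset_univ {1, ⟨z, h.zE⟩}),
    Finset.sum_pair (fun e => h.z1 (congrArg Subtype.val e).symm), hz, map_neg,
    isChar_conj_one hθ]
  · ring
  intro e _ he
  rw [h.vanish hθ hz e, zero_mul]
  rw [mem_zp h.z2]
  rintro (h1 | h1)
  · exact he (by simp [show e = 1 from Subtype.ext h1])
  · exact he (by simp [show e = ⟨z, h.zE⟩ from Subtype.ext h1])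

omit [Finite G] in
theorem Ok.res {z : G} {E U V : Subgroup G} {f : G → ℂ} (hf : Ok z E U f) (h : V ≤ U) :
    Ok z E V f := ⟨isChar_comp (inclusion h) hf.1, hf.2⟩

theorem Ok.irr {z : G} {E U : Subgroup G} {f : G → ℂ} (h : ES z E) (hf : Ok z E U f)
    (hU : E ≤ U) : IsIrrCharacter E (fun e => f e) := by
  have := Fintype.ofFinite E
  have h1 := (hf.res hU).1
  refine isIrr_of_isChar_norm_one h1 (mul_left_cancel₀ (card_ne_zero (G := E)) ?_)
  rw [h.inner h1 hf.2.1, mul_one]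
  exact hf.2.2

theorem ok_of_char {z : G} {E U : Subgroup G} (hz : z ∈ U) {χ : U → ℂ} (hχ : IsCharacter U χ)
    (h1 : χ ⟨z, hz⟩ = -χ 1) (h2 : 2 * χ 1 ^ 2 = Nat.card E) :
    ∃ f, Ok z E U f ∧ ∀ u : U, f u = χ u := by
  classical
  let f : G → ℂ := fun g => if h : g ∈ U then χ ⟨g, h⟩ else 0
  have hf : ∀ u : U, f u = χ u := fun u => dif_pos u.2
  refine ⟨f, ⟨by simpa only [hf] using hχ, ?_, ?_⟩, hf⟩
  · rw [hf ⟨z, hz⟩, show f 1 = χ 1 from hf 1, h1]
  · rw [show f 1 = χ 1 from hf 1, h2]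

theorem ES.ok_of_irr {z : G} {E : Subgroup G} (h : ES z E) {θ : E → ℂ} (hθ : IsIrrCharacter E θ)
    (hz : θ ⟨z, h.zE⟩ ≠ θ 1) : ∃ f, Ok z E E f ∧ ∀ u : E, f u = θ u := by
  have := Fintype.ofFinite E
  obtain ⟨c, -, hc⟩ := mem_charCenter.mp (center_le_charCenter hθ
    (show (⟨z, h.zE⟩ : E) ∈ center E from
      mem_center_iff.mpr fun g => Subtype.ext (mem_center_iff.mp h.zc g)))
  have h1 := hc 1
  have h2 := hc ⟨z, h.zE⟩
  rw [show (⟨z, h.zE⟩ : E) * ⟨z, h.zE⟩ = 1 from Subtype.ext h.z2] at h2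
  rw [mul_one] at h1
  have h0 := isIrr_one_ne_zero hθ
  have h3 : (c - 1) * (c + 1) = 0 := by
    rw [h1] at h2
    exact mul_right_cancel₀ h0 (by linear_combination -h2)
  have h4 : θ ⟨z, h.zE⟩ = -θ 1 := by
    rcases mul_eq_zero.mp h3 with h4 | h4
    · exact absurd (by rw [h1, sub_eq_zero.mp h4, one_mul]) hz
    · rw [h1, eq_neg_of_add_eq_zero_left h4, neg_one_mul]
  refine ok_of_char h.zE (isIrr_isChar hθ) h4 ?_
  rw [← h.inner (isIrr_isChar hθ) h4, classInner_isIrr_self hθ, mul_one]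

theorem ES.exists_ok {z : G} {E : Subgroup G} (h : ES z E) : ∃ f, Ok z E E f := by
  obtain ⟨θ, hθ, hz⟩ := exists_irr_not_mem_charKer
    (show (⟨z, h.zE⟩ : E) ≠ 1 from fun e => h.z1 (congrArg Subtype.val e))
  rw [mem_charKer_iff (isIrr_isChar hθ)] at hz
  exact (h.ok_of_irr hθ hz).imp fun _ h => h.1

theorem Ok.eq {z : G} {E : Subgroup G} {f f' : G → ℂ} (h : ES z E) (hf : Ok z E E f)
    (hf' : Ok z E E f') {e : G} (he : e ∈ E) : f e = f' e := by
  obtain ⟨a, ha⟩ := isChar_degree hf.1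
  obtain ⟨b, hb⟩ := isChar_degree hf'.1
  have ha : f 1 = a := ha
  have hb : f' 1 = b := hb
  have h1 : f 1 = f' 1 := by
    have := hf.2.2.trans hf'.2.2.symm
    rw [ha, hb] at this ⊢
    have h2 : a ^ 2 = b ^ 2 := by exact_mod_cast mul_left_cancel₀ two_ne_zero this
    rw [Nat.pow_left_injective two_ne_zero h2]
  by_cases hz : e ∈ zpowers z
  · rcases (mem_zp h.z2).mp hz with rfl | rfl
    · exact h1
    · rw [hf.2.1, hf'.2.1, h1]
  · exact (h.vanish hf.1 hf.2.1 ⟨e, he⟩ hz).trans (h.vanish hf'.1 hf'.2.1 ⟨e, he⟩ hz).symm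

omit [Finite G] in
theorem Ok.conj {z : G} {E U E' U' : Subgroup G} {f : G → ℂ} (hf : Ok z E U f)
    (hz : z ∈ center G) (s : G) (hU : ∀ u ∈ U', s * u * s⁻¹ ∈ U) (hE : Nat.card E' = Nat.card E) :
    Ok z E' U' (fun g => f (s * g * s⁻¹)) := by
  refine ⟨isChar_comp (((MulAut.conj s).toMonoidHom.comp U'.subtype).codRestrict U
    fun u => hU u u.2) hf.1, ?_, ?_⟩
  · simp only [mem_center_iff.mp hz s, mul_inv_cancel_right, mul_one, mul_inv_cancel, hf.2.1]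
  · simp only [mul_one, mul_inv_cancel, hE, hf.2.2]

theorem Ok.inertia {z : G} {E : Subgroup G} [hE : E.Normal] {f : G → ℂ} (h : ES z E)
    (hf : Ok z E E f) : Clifford.inertia E (fun e => f e) = ⊤ :=
  Clifford.inertia_eq_top.mpr fun g n =>
    (hf.conj h.zc g (fun u hu => hE.conj_mem u hu g) rfl).eq h hf n.2

omit [Finite G] in
theorem Ok.of_top {z : G} {E U : Subgroup G} (hz : z ∈ E) {f χ : G → ℂ} (hf : Ok z E E f)
    (hχ : IsIrrCharacter G χ) (h : ∀ n : E, χ n = f n) : Ok z E U χ :=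
  ⟨isChar_res U (isIrr_isChar hχ), by rw [h ⟨z, hz⟩, show χ 1 = f 1 from h 1, hf.2.1],
    by rw [show χ 1 = f 1 from h 1, hf.2.2]⟩

theorem cp {z : G} {X Y H : Subgroup G} (h : ES z (X ⊔ Y)) (hX : z ∈ X) (hY : z ∈ Y)
    (hXY : ∀ x ∈ X, ∀ y ∈ Y, x * y = y * x) (hHX : H ≤ normalizer (X : Set G))
    (hHY : H ≤ normalizer (Y : Set G)) (hd : ∀ g ∈ H, g ∈ X ⊔ Y → g = 1) {f₁ f₂ : G → ℂ}
    (h₁ : Ok z X (X ⊔ H) f₁) (h₂ : Ok z Y (Y ⊔ H) f₂) :
    ∃ f, Ok z (X ⊔ Y) ((X ⊔ Y) ⊔ H) f ∧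
      ∀ x ∈ X, ∀ y ∈ Y, ∀ g ∈ H, f (x * y * g) = f₁ (x * g) * f₂ (y * g) := by
  have hYX : Y ≤ normalizer (X : Set G) := fun y hy =>
    PGrp.mem_normalizer_of_conj_mem fun x hx => by rwa [← hXY x hx y hy, mul_inv_cancel_right]
  have hi : X ⊓ Y = zpowers z := by
    refine le_antisymm (fun e he => h.nd e (mem_sup_left he.1) fun x hx => ?_)
      (zpowers_le.mpr ⟨hX, hY⟩)
    obtain ⟨a, ha, b, hb, rfl⟩ := (Core.mem_sup_of_le_normalizer hYX).mp hx
    rw [mul_assoc, ← hXY e he.1 b hb, ← mul_assoc, hXY a ha e he.2, mul_assoc]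
  let P : Subgroup (G × G × G) :=
    { carrier := {p | p.1 * p.2.2⁻¹ ∈ X ∧ p.2.1 * p.2.2⁻¹ ∈ Y ∧ p.2.2 ∈ H}
      mul_mem' := by
        rintro ⟨a, b, c⟩ ⟨a', b', c'⟩ ⟨h1, h2, h3⟩ ⟨h4, h5, h6⟩
        refine ⟨?_, ?_, mul_mem h3 h6⟩
        · convert mul_mem h1 (Core.conj_mem_of_le_normalizer hHX h3 h4) using 1
          simp only [Prod.mk_mul_mk]
          group
        · convert mul_mem h2 (Core.conj_mem_of_le_normalizer hHY h3 h5) using 1
          simp only [Prod.mk_mul_mk]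
          group
      one_mem' := ⟨by simp, by simp, by simp⟩
      inv_mem' := by
        rintro ⟨a, b, c⟩ ⟨h1, h2, h3⟩
        refine ⟨?_, ?_, inv_mem h3⟩
        · convert Core.inv_conj_mem_of_le_normalizer hHX h3 (inv_mem h1) using 1
          simp only [Prod.inv_mk]
          group
        · convert Core.inv_conj_mem_of_le_normalizer hHY h3 (inv_mem h2) using 1
          simp only [Prod.inv_mk]
          group }
  let p₁ : P →* ↥(X ⊔ H) := ((MonoidHom.fst _ _).comp P.subtype).codRestrict _ fun p => by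
    simpa using mul_mem (mem_sup_left (T := H) p.2.1) (mem_sup_right (S := X) p.2.2.2)
  let p₂ : P →* ↥(Y ⊔ H) :=
    ((MonoidHom.fst _ _).comp ((MonoidHom.snd _ _).comp P.subtype)).codRestrict _ fun p => by
      simpa using mul_mem (mem_sup_left (T := H) p.2.2.1) (mem_sup_right (S := Y) p.2.2.2)
  let φ : P →* ↥((X ⊔ Y) ⊔ H) := MonoidHom.mk'
    (fun p => ⟨p.1.1 * p.1.2.2⁻¹ * p.1.2.1, by
      simpa [mul_assoc] using mul_mem (mem_sup_left (T := H) (mul_mem (mem_sup_left (T := Y) p.2.1)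
        (mem_sup_right (S := X) p.2.2.1))) (mem_sup_right (S := X ⊔ Y) p.2.2.2)⟩) (by
      rintro ⟨⟨a, b, c⟩, h1, h2, h3⟩ ⟨⟨a', b', c'⟩, h4, h5, h6⟩
      refine Subtype.ext ?_
      have := hXY _ h4 _ (Core.inv_conj_mem_of_le_normalizer hHY h3 h2)
      change a * a' * (c * c')⁻¹ * (b * b') = a * c⁻¹ * b * (a' * c'⁻¹ * b')
      change a' * c'⁻¹ * (c⁻¹ * (b * c⁻¹) * c) = c⁻¹ * (b * c⁻¹) * c * (a' * c'⁻¹) at this
      calc _ = a * (a' * c'⁻¹ * (c⁻¹ * (b * c⁻¹) * c)) * b' := by group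
        _ = _ := by rw [this]; group)
  have hmem : ∀ x ∈ X, ∀ y ∈ Y, ∀ g ∈ H, (x * g, y * g, g) ∈ P := fun x hx y hy g hg =>
    ⟨by simpa using hx, by simpa using hy, hg⟩
  have hφ : ∀ x hx y hy g hg, (φ ⟨_, hmem x hx y hy g hg⟩ : G) = x * y * g := by
    intro x hx y hy g hg
    simp [φ, mul_assoc]
  have hχ := isChar_mul (isChar_comp p₁ h₁.1) (isChar_comp p₂ h₂.1)
  obtain ⟨ψ, hψ, e⟩ := isChar_exists_of_ker_le φ (by
      rintro ⟨u, hu⟩
      obtain ⟨w, hw, g, hg, rfl⟩ :=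
        (Core.mem_sup_of_le_normalizer (Core.le_normalizer_sup hHX hHY)).mp hu
      obtain ⟨x, hx, y, hy, rfl⟩ := (Core.mem_sup_of_le_normalizer hYX).mp hw
      exact ⟨_, Subtype.ext (hφ x hx y hy g hg)⟩) hχ (by
      rintro ⟨⟨a, b, c⟩, h1, h2, h3⟩ hp
      have hp : a * c⁻¹ * b = 1 := congrArg Subtype.val hp
      have hc : c = 1 := hd c h3 (by
        have := inv_mem (mul_mem (mem_sup_left (T := Y) h1) (mem_sup_right (S := X) h2))
        rwa [← mul_assoc, hp, one_mul, inv_inv] at this)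
      subst hc
      have hb : b = a⁻¹ := eq_inv_of_mul_eq_one_right (by simpa using hp)
      subst hb
      have ha : a ∈ zpowers z := hi ▸ mem_inf.mpr ⟨by simpa using h1, by simpa using h2⟩
      rw [mem_charKer_iff hχ]
      change f₁ a * f₂ a⁻¹ = f₁ 1 * f₂ 1
      rcases (mem_zp h.z2).mp ha with rfl | rfl
      · rw [inv_one]
      · rw [← eq_inv_of_mul_eq_one_left h.z2, h₁.2.1, h₂.2.1, neg_mul_neg])
  have e' : ∀ x ∈ X, ∀ y ∈ Y, ∀ g ∈ H, ∀ u : ↥((X ⊔ Y) ⊔ H), (u : G) = x * y * g →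
      ψ u = f₁ (x * g) * f₂ (y * g) := by
    intro x hx y hy g hg u hu
    rw [show u = φ ⟨_, hmem x hx y hy g hg⟩ from Subtype.ext (hu.trans (hφ x hx y hy g hg).symm)]
    exact (congrFun e ⟨_, hmem x hx y hy g hg⟩).symm
  have e1 : ψ 1 = f₁ 1 * f₂ 1 := by
    simpa using e' 1 (one_mem _) 1 (one_mem _) 1 (one_mem _) 1 (by simp)
  obtain ⟨f, hf, ef⟩ := ok_of_char (E := X ⊔ Y) (mem_sup_left h.zE) hψ
    (by
      rw [e1, e' z hX 1 (one_mem _) 1 (one_mem _) _ (by simp)]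
      simp [h₁.2.1])
    (by
      have h3 := Core.card_sup_mul_card_inf hYX
      rw [hi, h.card_zp] at h3
      have h4 : (Nat.card ↥(X ⊔ Y) : ℂ) * 2 = Nat.card X * Nat.card Y := by exact_mod_cast h3
      rw [← h₁.2.2, ← h₂.2.2] at h4
      rw [e1]
      linear_combination (-1 / 2 : ℂ) * h4)
  refine ⟨f, hf, fun x hx y hy g hg => ?_⟩
  have hu : x * y * g ∈ (X ⊔ Y) ⊔ H :=
    mul_mem (mem_sup_left (mul_mem (mem_sup_left hx) (mem_sup_right hy))) (mem_sup_right hg)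
  rw [ef ⟨_, hu⟩]
  exact e' x hx y hy g hg _ rfl

end Cfsg.Agent.Part.Dade
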