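import Mathlib
import Cfsg.Agent.Part.Dade2
import Cfsg.Agent.S0868

/-!
Extension of characters of extraspecial 2-groups, part 3: swapping two factors, and the case of
a cyclic group of prime order.
-/

set_option autoImplicit false

namespace Cfsg.Agent.Part.Dade

open Cfsg Cfsg.Agent.Char Subgroup
open scoped ComplexConjugate

variable {G : Type*} [Group G] [Finite G]

theorem swap {z s : G} {E X H : Subgroup G} [hE : E.Normal] (h : ES z E) (hX : z ∈ X)
    (hXE : X ⊔ X.comap (MulAut.conj s).toMonoidHom = E)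
    (hXY : ∀ x ∈ X, ∀ y, s * y * s⁻¹ ∈ X → x * y = y * x) (hHX : H ≤ normalizer (X : Set G))
    (hs : s ∈ normalizer (H : Set G)) (hs2 : s * s ∈ H)
    (hall : ∀ g, g ∈ E ⊔ H ∨ g * s⁻¹ ∈ E ⊔ H) (hd : ∀ g ∈ H, g ∈ E → g = 1) {f₁ : G → ℂ}
    (h₁ : Ok z X (X ⊔ H) f₁) (U : Subgroup G) : ∃ f, Ok z E U f := by
  set Y := X.comap (MulAut.conj s).toMonoidHom with hYd
  have hm : ∀ {y}, y ∈ Y ↔ s * y * s⁻¹ ∈ X := Iff.rfl
  have hsH : ∀ g ∈ H, s * g * s⁻¹ ∈ H := fun g hg => PGrp.conj_mem_of_mem_normalizer hs hg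
  have hHY : H ≤ normalizer (Y : Set G) := fun g hg => PGrp.mem_normalizer_of_conj_mem fun y hy => by
    rw [hm] at hy ⊢
    convert Core.conj_mem_of_le_normalizer hHX (hsH g hg) hy using 1
    group
  have hcard : Nat.card Y = Nat.card X := Nat.card_congr
    ⟨fun y => ⟨s * y * s⁻¹, y.2⟩, fun x => ⟨s⁻¹ * x * s, by rw [hm]; simp [mul_assoc]⟩,
      fun y => Subtype.ext (by simp [mul_assoc]), fun x => Subtype.ext (by simp [mul_assoc])⟩
  have h₂ := h₁.conj h.zc s (U' := Y ⊔ H) (E' := Y) (fun u hu => by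
    obtain ⟨y, hy, g, hg, rfl⟩ := (Core.mem_sup_of_le_normalizer hHY).mp hu
    convert mul_mem (mem_sup_left (T := H) (hm.mp hy)) (mem_sup_right (S := X) (hsH g hg)) using 1
    group) hcard
  have hzY : z ∈ Y := by rwa [hm, mem_center_iff.mp h.zc s, mul_inv_cancel_right]
  subst hXE
  obtain ⟨f, hf, ef⟩ := cp h hX hzY (fun x hx y hy => hXY x hx y hy) hHX hHY hd h₁ h₂
  have hYX : Y ≤ normalizer (X : Set G) := fun y hy =>
    PGrp.mem_normalizer_of_conj_mem fun x hx => by rwa [← hXY x hx y hy, mul_inv_cancel_right]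
  have hsN : s ∈ normalizer (((X ⊔ Y) ⊔ H : Subgroup G) : Set G) :=
    Core.le_normalizer_sup (A := zpowers s) (le_normalizer_of_normal) (zpowers_le.mpr hs)
      (mem_zpowers s)
  have hN : ((X ⊔ Y) ⊔ H).Normal := Core.normal_of_le_normalizer fun g _ => by
    rcases hall g with hg | hg
    · exact le_normalizer hg
    · simpa using mul_mem (le_normalizer hg) hsN
  have hirr : IsIrrCharacter ↥((X ⊔ Y) ⊔ H) (fun u => f u) :=
    isIrr_of_isIrr_comp (inclusion le_sup_left) hf.1 (hf.irr h le_sup_left)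
  have hsI : s ∈ Clifford.inertia ((X ⊔ Y) ⊔ H) (fun u => f u) := by
    rw [Clifford.mem_inertia']
    rintro ⟨u, hu⟩
    obtain ⟨w, hw, g, hg, rfl⟩ :=
      (Core.mem_sup_of_le_normalizer (Core.le_normalizer_sup hHX hHY)).mp hu
    obtain ⟨x, hx, y, hy, rfl⟩ := (Core.mem_sup_of_le_normalizer hYX).mp hw
    have hx' : s * x * s⁻¹ ∈ Y := by
      rw [hm]
      convert Core.conj_mem_of_le_normalizer hHX hs2 hx using 1
      group
    have e1 : s * (x * y * g) * s⁻¹ = s * y * s⁻¹ * (s * x * s⁻¹) * (s * g * s⁻¹) := by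
      rw [hXY x hx y hy]
      group
    have e2 := isChar_classFun h₁.1 ⟨x * g, mul_mem (mem_sup_left hx) (mem_sup_right hg)⟩
      ⟨s * s, mem_sup_right hs2⟩
    change f (s * (x * y * g) * s⁻¹) = f (x * y * g)
    change f₁ (s * s * (x * g) * (s * s)⁻¹) = f₁ (x * g) at e2
    rw [e1, ef _ (hm.mp hy) _ hx' _ (hsH g hg), ef x hx y hy g hg, ← e2, mul_comm]
    congr 2 <;> group
  obtain ⟨χ, hχ, eχ⟩ := Extend.exists_ext_of_isCyclic (N := (X ⊔ Y) ⊔ H)
    ⟨⟨(s : G ⧸ ((X ⊔ Y) ⊔ H)), fun x => by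
      obtain ⟨g, rfl⟩ := QuotientGroup.mk_surjective x
      rcases hall g with hg | hg
      · exact ⟨0, (zpow_zero _).trans ((QuotientGroup.eq_one_iff g).mpr hg).symm⟩
      · refine ⟨1, ?_⟩
        simp only [zpow_one]
        rw [QuotientGroup.eq]
        simpa [mul_assoc] using hN.conj_mem _ hg s⁻¹⟩⟩ hirr
    (eq_top_iff.mpr fun g _ => by
      have hle := Clifford.le_inertia (isIrr_classFun hirr)
      rcases hall g with hg | hg
      · exact hle hg
      · simpa using mul_mem (hle hg) hsI)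
  exact ⟨χ, (hf.res (le_sup_left)).of_top h.zE hχ fun n => eχ ⟨n, mem_sup_left n.2⟩⟩

theorem exists_comm {z g : G} {E : Subgroup G} [hE : E.Normal] (h : ES z E)
    (hg : ∀ e ∈ E, g * e * g⁻¹ * e⁻¹ ∈ zpowers z → e ∈ zpowers z) {e : G} (he : e ∈ E) :
    ∃ x ∈ E, x * g * x⁻¹ * g⁻¹ * e⁻¹ ∈ zpowers z := by
  have : (zpowers z).Normal := PGrp.normal_of_le_center h.zp_center
  let E' := E.map (QuotientGroup.mk' (zpowers z))
  have : E'.Normal := hE.map _ (QuotientGroup.mk'_surjective _)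
  let Φ : E' → E' := fun x => ⟨x * (g : G ⧸ zpowers z) * (x : G ⧸ zpowers z)⁻¹ *
      (g : G ⧸ zpowers z)⁻¹, by
    simpa only [mul_assoc] using mul_mem x.2 (this.conj_mem _ (inv_mem x.2) g)⟩
  have hinj : Function.Injective Φ := by
    rintro ⟨_, x, hx, rfl⟩ ⟨_, y, hy, rfl⟩ hxy
    have h1 : (x : G ⧸ zpowers z) * g * (x : G ⧸ zpowers z)⁻¹ * (g : G ⧸ zpowers z)⁻¹ =
      y * g * (y : G ⧸ zpowers z)⁻¹ * (g : G ⧸ zpowers z)⁻¹ := congrArg Subtype.val hxy
    refine Subtype.ext (QuotientGroup.eq.mpr (hg _ (mul_mem (inv_mem hx) hy) ?_))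
    rw [← QuotientGroup.eq_one_iff]
    simp only [QuotientGroup.mk_mul, QuotientGroup.mk_inv]
    rw [mul_left_inj] at h1
    calc _ = (x : G ⧸ zpowers z)⁻¹ * (x * g * (x : G ⧸ zpowers z)⁻¹) * y * (g : G ⧸ zpowers z)⁻¹ *
        ((x : G ⧸ zpowers z)⁻¹ * y)⁻¹ := by group
      _ = 1 := by rw [h1]; group
  obtain ⟨⟨_, x, hx, rfl⟩, hxe⟩ := Finite.injective_iff_surjective.mp hinj ⟨_, e, he, rfl⟩
  refine ⟨x, hx, ?_⟩
  have h1 : (x : G ⧸ zpowers z) * g * (x : G ⧸ zpowers z)⁻¹ * (g : G ⧸ zpowers z)⁻¹ = e :=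
    congrArg Subtype.val hxe
  rw [← QuotientGroup.eq_one_iff]
  simp only [QuotientGroup.mk_mul, QuotientGroup.mk_inv]
  rw [h1, mul_inv_cancel]

theorem base {z : G} {E K S : Subgroup G} [hE : E.Normal] (h : ES z E)
    (hSK : S ≤ normalizer (K : Set G)) {q : ℕ} (hq : q.Prime) (hq2 : q ≠ 2)
    (hK : Nat.card K = q) (hS : IsPGroup 2 S) (hES : ∀ g ∈ S, g ∈ E → g = 1)
    (hi : ¬ 2 ∣ (E ⊔ S).index)
    (hfix : ∀ k ∈ K, k ≠ 1 → ∀ e ∈ E, k * e = e * k → e ∈ zpowers z) (U : Subgroup G) :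
    ∃ f, Ok z E U f := by
  classical
  obtain ⟨f, hf⟩ := h.exists_ok
  have hθ := hf.irr h le_rfl
  obtain ⟨Γ, _, _, ⟨C⟩⟩ := Triple.exists_cover E hθ (hf.inertia h)
  have := C.normal
  have := Fintype.ofFinite Γ
  have := Fintype.ofFinite C.ι.range
  obtain ⟨τ, hτ⟩ := exists_lin_sylow C.π C.surj C.central C.lam C.isChar C.scalar K S hSK hq hq2
    hK hS (by
      intro γ t ht k hk hk1 hγ
      have hg : ∀ e ∈ E, C.π γ * e * (C.π γ)⁻¹ * e⁻¹ ∈ zpowers z → e ∈ zpowers z := by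
        intro e he hc
        obtain ⟨a, ha⟩ := hS ⟨t, ht.1⟩
        have ha : t ^ 2 ^ a = 1 := congrArg Subtype.val ha
        have htk : Commute t k := (ht.2 k hk).symm
        have h1 : Commute ((t * k) ^ 2) e := by
          rw [hγ] at hc
          have h2 : t * k * e = (t * k * e * (t * k)⁻¹ * e⁻¹) * e * (t * k) := by group
          rcases (mem_zp h.z2).mp hc with h3 | h3
          · rw [h3, one_mul] at h2
            exact Commute.pow_left h2 2
          · rw [h3] at h2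
            have h4 := mem_center_iff.mp h.zc (t * k)
            generalize t * k = g at h2 h4
            calc g ^ 2 * e = g * (g * e) := by rw [pow_two, mul_assoc]
              _ = (g * z) * e * g := by rw [h2]; simp only [mul_assoc]
              _ = z * (g * e) * g := by rw [h4]; simp only [mul_assoc]
              _ = (z * z) * e * (g * g) := by rw [h2]; simp only [mul_assoc]
              _ = e * g ^ 2 := by rw [h.z2, one_mul, pow_two]
        have h2 := h1.pow_left (2 ^ a)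
        rw [← pow_mul, htk.mul_pow, mul_comm 2, pow_mul t, ha, one_pow, one_mul] at h2
        refine hfix _ (pow_mem hk _) (fun h3 => hk1 ?_) e he h2
        have h4 : k ^ q = 1 := by
          rw [← hK]
          exact congrArg Subtype.val (pow_card_eq_one' (x := (⟨k, hk⟩ : K)))
        have h5 := pow_gcd_eq_one.mpr ⟨h3, h4⟩
        rwa [← pow_succ, Nat.Coprime.pow_left _ ((Nat.coprime_primes Nat.prime_two hq).mpr hq2.symm),
          pow_one] at h5
      have h1 : ∀ n : C.ι.range, ‖C.ext (n * γ)‖ = ‖C.ext γ‖ := by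
        rintro ⟨_, e, rfl⟩
        obtain ⟨x, hx, hxe⟩ := exists_comm h hg e.2
        have h2 : C.ι ⟨x, hx⟩ * γ * (C.ι ⟨x, hx⟩)⁻¹ * γ⁻¹ * (C.ι e)⁻¹ ∈ C.ι.range := by
          refine mul_mem ?_ (inv_mem ⟨e, rfl⟩)
          simpa only [mul_assoc] using mul_mem (⟨⟨x, hx⟩, rfl⟩ : C.ι ⟨x, hx⟩ ∈ C.ι.range)
            (C.normal.conj_mem _ (inv_mem (⟨⟨x, hx⟩, rfl⟩ : C.ι ⟨x, hx⟩ ∈ C.ι.range)) γ)
        obtain ⟨c, hc⟩ := h2
        have h3 := congrArg C.π hc
        simp only [map_mul, map_inv, C.sect] at h3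
        rw [← h3] at hxe
        have h4 : C.ι ⟨x, hx⟩ * γ * (C.ι ⟨x, hx⟩)⁻¹ = C.ι c * (C.ι e * γ) := by rw [hc]; group
        rw [← isChar_classFun C.isChar γ (C.ι ⟨x, hx⟩), h4]
        rcases (mem_zp h.z2).mp hxe with h5 | h5
        · rw [show c = 1 from Subtype.ext h5, map_one, one_mul]
        · rw [mul_z C.isChar (z := C.ι c) (by rw [C.res, Extend.ext_one, h5]; exact hf.2.1),
            norm_neg]
      have h2 := congrFun ((S0868.result C.ι.range C.ext (Extend.isIrr_ext C hθ)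
        (Extend.isIrr_res_range C hθ C.res) C.ext (Extend.isIrr_ext C hθ) _ rfl).2.2 rfl) γ
      simp only [Complex.mul_conj, Complex.normSq_eq_norm_sq, h1, Finset.sum_const,
        Finset.card_univ, ← Nat.card_eq_fintype_card, nsmul_eq_mul] at h2
      rw [← mul_assoc, inv_mul_cancel₀ (card_ne_zero (G := C.ι.range)), one_mul] at h2
      exact (pow_eq_one_iff_of_nonneg (norm_nonneg _) two_ne_zero).mp (by exact_mod_cast h2))
  let j : S.comap C.π →* Γ ⧸ C.ι.range := (QuotientGroup.mk' _).comp (S.comap C.π).subtype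
  have hj : Function.Injective j := by
    rw [injective_iff_map_eq_one]
    rintro ⟨x, hx⟩ h1
    obtain ⟨n, rfl⟩ : x ∈ C.ι.range := (QuotientGroup.eq_one_iff _).mp h1
    rw [mem_comap, C.sect] at hx
    have : n = 1 := Subtype.ext (hES _ hx n.2)
    subst this
    exact Subtype.ext (map_one _)
  let σ : j.range →* ℂˣ := τ.comp (MonoidHom.ofInjective hj).symm.toMonoidHom
  have hgood : Extend.Good C j.range.index := by
    refine ⟨(MonoidHom.transfer σ).comp (QuotientGroup.mk' _), fun n => ?_, fun a => ?_⟩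
    · rw [MonoidHom.comp_apply, QuotientGroup.mk'_apply,
        (QuotientGroup.eq_one_iff _).mpr (MonoidHom.mem_range.mpr ⟨n, rfl⟩), map_one]
    · have hc : QuotientGroup.mk' C.ι.range a ∈ center _ := mem_center_iff.mpr fun y => by
        obtain ⟨y, rfl⟩ := QuotientGroup.mk'_surjective _ y
        rw [← map_mul, ← map_mul, mem_center_iff.mp (C.central a.2) y]
      rw [MonoidHom.comp_apply, MonoidHom.transfer_eq_pow σ _ (fun k g _ => by
        rw [mul_assoc, ← mem_center_iff.mp ((center _).pow_mem hc k), inv_mul_cancel_left]),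
        zpow_natCast, ← hτ a (Extend.ker_le_comap C S a.2), ← map_pow τ]
      refine congrArg τ ((MulEquiv.symm_apply_eq _).mpr (Subtype.ext ?_))
      rw [MonoidHom.ofInjective_apply, map_pow]
      rfl
  have hodd : ¬ 2 ∣ j.range.index := fun h2 => hi (by
    rw [← index_comap_of_surjective _ (QuotientGroup.mk'_surjective C.ι.range)] at h2
    rw [← index_comap_of_surjective _ C.surj]
    refine h2.trans (index_dvd_of_le fun γ hγ => ?_)
    obtain ⟨e, he, t, ht, h3⟩ := (Core.mem_sup_of_le_normalizer le_normalizer_of_normal).mp hγ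
    refine ⟨⟨(C.ι ⟨e, he⟩)⁻¹ * γ, by simpa [mem_comap, C.sect, h3] using ht⟩, ?_⟩
    change QuotientGroup.mk' C.ι.range ((C.ι ⟨e, he⟩)⁻¹ * γ) = _
    rw [map_mul, map_inv, QuotientGroup.mk'_apply,
      (QuotientGroup.eq_one_iff _).mpr (MonoidHom.mem_range.mpr ⟨_, rfl⟩), inv_one, one_mul])
  obtain ⟨d, -, h1, hd⟩ := isIrr_degree' hθ
  have : Fact (Nat.Prime 2) := ⟨Nat.prime_two⟩
  obtain ⟨m, hm⟩ := IsPGroup.iff_card.mp h.isPGroup
  have h2 : ((2 : ℕ) ^ m).Coprime j.range.index :=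
    Nat.Coprime.pow_left _ ((Nat.Prime.coprime_iff_not_dvd Nat.prime_two).mpr hodd)
  rw [← hm] at h2
  obtain ⟨χ, hχ, eχ⟩ := Extend.exists_ext_of_good C hθ (Extend.good_one_of_coprime C
    (Extend.good_detOrder C hd) hgood (Nat.Coprime.mul_left
      (h2.coprime_dvd_left (Det.detOrder_dvd_card (isIrr_isChar hθ))) (h2.coprime_dvd_left h1)))
  exact ⟨χ, hf.of_top h.zE hχ eχ⟩

end Cfsg.Agent.Part.Dade
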