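import Mathlib
import Cfsg.Agent.Part.Dade3
import Cfsg.Agent.Core.CoprimeGen
import Cfsg.Agent.Core.MinNormal
import Cfsg.Agent.S0205

/-!
Extension of characters of extraspecial 2-groups, part 4: the induction.
-/

set_option autoImplicit false

namespace Cfsg.Agent.Part.Dade

open Cfsg Cfsg.Agent.Char Subgroup

universe u

variable {G : Type u} [Group G]

/-- The hypotheses of the induction. -/
structure Hyp (z : G) (E H K : Subgroup G) : Prop where
  es : ES z E
  HE : H ≤ normalizer (E : Set G)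
  disj : ∀ g ∈ H, g ∈ E → g = 1
  KH : K ≤ H
  HK : H ≤ normalizer (K : Set G)
  odd : Odd (Nat.card K)
  fix : E ⊓ centralizer (K : Set G) ≤ zpowers z

theorem ES.zp_cent {z : G} {E : Subgroup G} (h : ES z E) (T : Set G) :
    zpowers z ≤ centralizer T := h.zp_center.trans (center_le_centralizer T)

theorem ES.comm_le {z : G} {E : Subgroup G} (h : ES z E) (L : Subgroup G) :
    ⁅E, L⁆ ≤ centralizer ((E ⊓ centralizer (L : Set G) : Subgroup G) : Set G) := by
  rw [← commutator_eq_bot_iff_le_centralizer]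
  refine commutator_commutator_eq_bot_of_rotate ?_ ?_
  · rw [commutator_comm L, commutator_eq_bot_iff_le_centralizer.mpr inf_le_right,
      commutator_bot_left]
  · rw [commutator_eq_bot_iff_le_centralizer]
    refine le_trans ?_ (h.zp_cent _)
    exact commutator_le.mpr fun a ha b hb => h.cm ha.1 hb

theorem ES.sub {z : G} {E X Y : Subgroup G} (h : ES z E) (hE : X ⊔ Y = E) (hz : z ∈ X)
    (hc : ∀ x ∈ X, ∀ y ∈ Y, x * y = y * x) : ES z X := by
  refine ⟨hz, h.z1, h.z2, h.zc, fun e he => h.sq e (hE ▸ mem_sup_left he), fun e he hx =>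
    h.nd e (hE ▸ mem_sup_left he) fun x hx' => ?_⟩
  have : E ≤ centralizer {e} := hE ▸ sup_le
    (fun a ha => mem_centralizer_singleton_iff.mpr (hx a ha))
    (fun a ha => mem_centralizer_singleton_iff.mpr (hc e he a ha).symm)
  exact mem_centralizer_singleton_iff.mp (this hx')

theorem Hyp.sub {z : G} {E H K X Y H₁ : Subgroup G} (h : Hyp z E H K) (hE : X ⊔ Y = E)
    (hz : z ∈ X) (hc : ∀ x ∈ X, ∀ y ∈ Y, x * y = y * x) (h1 : H₁ ≤ H) (h2 : K ≤ H₁)
    (h3 : H₁ ≤ normalizer (X : Set G)) : Hyp z X H₁ K :=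
  ⟨h.es.sub hE hz hc, h3, fun g hg hx => h.disj g (h1 hg) (hE ▸ mem_sup_left hx), h2,
    h1.trans h.HK, h.odd, (inf_le_inf_right _ (hE ▸ le_sup_left)).trans h.fix⟩

theorem nd_sup {E X Y : Subgroup G} (hX : X ⊔ (E ⊓ centralizer (X : Set G)) = E)
    (hY : Y ⊔ (E ⊓ centralizer (Y : Set G)) = E) (hc : Y ≤ centralizer (X : Set G)) :
    (X ⊔ Y) ⊔ (E ⊓ centralizer ((X ⊔ Y : Subgroup G) : Set G)) = E := by
  refine le_antisymm (sup_le (sup_le (hX ▸ le_sup_left) (hY ▸ le_sup_left)) inf_le_left) ?_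
  refine hX.symm.le.trans (sup_le (le_sup_left.trans le_sup_left) fun e he => ?_)
  obtain ⟨y, hy, w, hw, rfl⟩ := (Core.mem_sup_of_le_normalizer
    (inf_le_right.trans (centralizer_le_normalizer _))).mp (hY.symm.le he.1)
  refine mul_mem (mem_sup_left (mem_sup_right hy)) (mem_sup_right ⟨hw.1, ?_⟩)
  rw [PGrp.centralizer_sup]
  exact ⟨(mul_mem_cancel_left (hc hy)).mp he.2, hw.2⟩

variable [Finite G]

theorem ES.cop {z : G} {E L : Subgroup G} (h : ES z E) (hL : Odd (Nat.card L)) :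
    (Nat.card L).Coprime (Nat.card E) := by
  obtain ⟨m, hm⟩ := IsPGroup.iff_card.mp h.isPGroup
  rw [hm]
  exact Nat.Coprime.pow_right _ (Nat.coprime_two_right.mpr hL)

theorem ES.nd_cent {z : G} {E L : Subgroup G} (h : ES z E) (hL : Odd (Nat.card L))
    (hn : L ≤ normalizer (E : Set G)) : (E ⊓ centralizer (L : Set G)) ⊔
      (E ⊓ centralizer ((E ⊓ centralizer (L : Set G) : Subgroup G) : Set G)) = E := by
  refine le_antisymm (sup_le inf_le_left inf_le_left) ?_
  refine (Core.commutator_sup_centralizer L E hn (h.cop hL)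
    (Or.inr (Core.solvable_of_isPGroup h.isPGroup))).symm.le.trans (sup_le ?_ le_sup_left)
  exact (le_inf (Core.commutator_le_of_le_normalizer hn) (h.comm_le L)).trans le_sup_right

theorem ES.comm_of {z : G} {E L M : Subgroup G} (h : ES z E) (hL : Odd (Nat.card L))
    (hn : L ≤ normalizer (E : Set G)) (hLM : L ≤ normalizer (M : Set G))
    (hf : E ⊓ centralizer ((L ⊔ M : Subgroup G) : Set G) ≤ zpowers z) :
    E ⊓ centralizer (M : Set G) ≤
      centralizer ((E ⊓ centralizer (L : Set G) : Subgroup G) : Set G) := by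
  refine (Core.commutator_sup_centralizer L _
    (Core.le_normalizer_inf hn (Core.le_normalizer_centralizer hLM))
    (Core.coprime_of_le_right (h.cop hL) inf_le_left)
    (Or.inr (Core.solvable_of_le inf_le_left
      (Core.solvable_of_isPGroup h.isPGroup)))).symm.le.trans (sup_le ?_ ?_)
  · exact (commutator_mono inf_le_left le_rfl).trans (h.comm_le L)
  · refine le_trans ?_ (hf.trans (h.zp_cent _))
    rw [PGrp.centralizer_sup]
    exact fun x hx => ⟨hx.1.1, hx.2, hx.1.2⟩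

theorem Hyp.split {z : G} {E H K X : Subgroup G} (h : Hyp z E H K)
    (IH : ∀ E' H' K' : Subgroup G, Hyp z E' H' K' →
      Nat.card E' + Nat.card H' + Nat.card K' < Nat.card E + Nat.card H + Nat.card K →
      ∃ f, Ok z E' (E' ⊔ H') f)
    (hz : z ∈ X) (hX : H ≤ normalizer (X : Set G)) (hE : X ⊔ (E ⊓ centralizer (X : Set G)) = E)
    (h1 : ¬ X ≤ zpowers z) (h2 : ¬ E ⊓ centralizer (X : Set G) ≤ zpowers z) :
    ∃ f, Ok z E (E ⊔ H) f := by
  set Y := E ⊓ centralizer (X : Set G) with hY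
  have hc : ∀ x ∈ X, ∀ y ∈ Y, x * y = y * x := fun x hx y hy => hy.2 x hx
  have hzY : z ∈ Y := ⟨h.es.zE, h.es.zp_cent _ (mem_zpowers z)⟩
  have hHY : H ≤ normalizer (Y : Set G) :=
    Core.le_normalizer_inf h.HE (Core.le_normalizer_centralizer hX)
  have hXE : X < E := lt_of_le_of_ne (hE ▸ le_sup_left) fun e =>
    h2 fun y hy => h.es.nd y hy.1 fun x hx => hc x (e ▸ hx) y hy
  have hYE : Y < E := lt_of_le_of_ne inf_le_left fun e =>
    h1 fun x hx => h.es.nd x (hXE.le hx) fun y hy => (hc x hx y (e ▸ hy)).symm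
  obtain ⟨f₁, h₁⟩ := IH X H K (h.sub hE hz hc le_rfl h.KH hX)
    (by have := Core.card_lt_of_lt hXE; omega)
  obtain ⟨f₂, h₂⟩ := IH Y H K (h.sub ((sup_comm _ _).trans hE) hzY
    (fun y hy x hx => (hc x hx y hy).symm) le_rfl h.KH hHY)
    (by have := Core.card_lt_of_lt hYE; omega)
  obtain ⟨f, hf, -⟩ := cp (hE.symm ▸ h.es) hz hzY hc hX hHY (fun g hg hx => h.disj g hg (hE ▸ hx))
    h₁ h₂
  exact ⟨f, hE ▸ hf⟩

theorem Hyp.wreath {z : G} {E K S L : Subgroup G} [E.Normal] (h : Hyp z E (K ⊔ S) K)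
    (htop : E ⊔ (K ⊔ S) = ⊤)
    (IH : ∀ E' H' K' : Subgroup G, Hyp z E' H' K' →
      Nat.card E' + Nat.card H' + Nat.card K' <
        Nat.card E + Nat.card ↥(K ⊔ S) + Nat.card K → ∃ f, Ok z E' (E' ⊔ H') f)
    (hS : IsPGroup 2 S) (hK : IsMulCommutative K) (hLK : L ≤ K)
    (hL : ¬ E ⊓ centralizer (L : Set G) ≤ zpowers z)
    (hmax : ∀ M ≤ K, Nat.card L < Nat.card M → E ⊓ centralizer (M : Set G) ≤ zpowers z)
    (hSL : ¬ S ≤ normalizer (L : Set G)) : ∃ f, Ok z E (E ⊔ (K ⊔ S)) f := by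
  classical
  have := Fintype.ofFinite G
  have hSK : S ≤ normalizer (K : Set G) := le_sup_right.trans h.HK
  have hKn : ∀ M ≤ K, K ≤ normalizer (M : Set G) := fun M hM g hg =>
    centralizer_le_normalizer _ fun x hx => Core.comm_of_isMulCommutative hK (hM hx) hg
  obtain ⟨S₁, h1, h2, h3, h4⟩ := PGrp.exists_relIndex_prime_ge hS
    (H := S ⊓ normalizer (L : Set G)) (lt_of_le_of_ne inf_le_left fun e => hSL (e ▸ inf_le_right))
  have h5 : ∀ a ∈ S, ∀ b ∈ S, a ∉ S₁ → b ∉ S₁ → a * b ∈ S₁ := fun a ha b hb h6 h7 =>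
    (mul_mem_iff_of_index_two h3 (a := ⟨a, ha⟩) (b := ⟨b, hb⟩)).mpr (iff_of_false h6 h7)
  obtain ⟨s, hs, hs1⟩ : ∃ s ∈ S, s ∉ S₁ := by
    by_contra hc
    push Not at hc
    rw [relIndex_eq_one.mpr hc] at h3
    omega
  have hH1 : K ⊔ S₁ ≤ K ⊔ S := sup_le_sup_left h2 K
  have hs2 : s ∉ K ⊔ S₁ := fun hc => by
    obtain ⟨k, hk, t, ht, e⟩ := (Core.mem_sup_of_le_normalizer (h2.trans hSK)).mp hc
    obtain ⟨m, hm⟩ := IsPGroup.iff_card.mp hS
    have : k = 1 := Core.eq_one_of_mem_of_coprime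
      (hm ▸ Nat.Coprime.pow_right _ (Nat.coprime_two_right.mpr h.odd)) hk
      (by rw [← mul_inv_eq_iff_eq_mul.mpr e]; exact mul_mem hs (inv_mem (h2 ht)))
    rw [this, one_mul] at e
    exact hs1 (e ▸ ht)
  let Lc : G → Subgroup G := fun g => L.map (MulAut.conj g).toMonoidHom
  let Fc : G → Subgroup G := fun g => E ⊓ centralizer (Lc g : Set G)
  have hLc : ∀ g ∈ K ⊔ S, Lc g ≤ K := by
    rintro g hg _ ⟨l, hl, rfl⟩
    exact Core.conj_mem_of_le_normalizer h.HK hg (hLK hl)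
  have hcard : ∀ g, Nat.card (Lc g) = Nat.card L := fun g =>
    card_map_of_injective (MulAut.conj g).injective
  have hodd : ∀ g ∈ K ⊔ S, Odd (Nat.card (Lc g)) := fun g hg =>
    Odd.of_dvd_nat h.odd (card_dvd_of_le (hLc g hg))
  have hcomm : ∀ g ∈ K ⊔ S, ∀ g' ∈ K ⊔ S, Lc g ≠ Lc g' → Fc g' ≤ centralizer (Fc g : Set G) := by
    intro g hg g' hg' hne
    refine h.es.comm_of (hodd g hg) le_normalizer_of_normal ((hLc g hg).trans (hKn _ (hLc g' hg')))
      (hmax _ (sup_le (hLc g hg) (hLc g' hg')) ?_)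
    rw [← hcard g]
    refine Core.card_lt_of_lt (left_lt_sup.mpr fun hc => hne ?_)
    exact (Core.eq_of_le_of_card_le hc (by rw [hcard, hcard])).symm
  have hnd : ∀ I : Finset G, (∀ g ∈ I, g ∈ K ⊔ S) →
      I.sup Fc ⊔ (E ⊓ centralizer ((I.sup Fc : Subgroup G) : Set G)) = E := by
    intro I
    induction I using Finset.induction_on with
    | empty =>
      intro _
      rw [Finset.sup_empty, bot_sup_eq, inf_eq_left]
      intro x _ y hy
      rw [show y = 1 from hy, one_mul, mul_one]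
    | insert g I hg ih =>
      intro hI
      have ih := ih fun a ha => hI a (Finset.mem_insert_of_mem ha)
      have hg := hI g (Finset.mem_insert_self _ _)
      rw [Finset.sup_insert]
      by_cases hc : ∃ a ∈ I, Lc g = Lc a
      · obtain ⟨a, ha, e⟩ := hc
        have : Fc g ≤ I.sup Fc := by
          have : Fc g = Fc a := by simp only [Fc, e]
          exact this ▸ Finset.le_sup ha
        rwa [sup_eq_right.mpr this]
      · push Not at hc
        exact nd_sup (h.es.nd_cent (hodd g hg) le_normalizer_of_normal) ih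
          (Finset.sup_le fun a ha => hcomm g hg a (hI a (Finset.mem_insert_of_mem ha)) (hc a ha))
  have hconj : ∀ g a x, x ∈ Fc a → g * x * g⁻¹ ∈ Fc (g * a) := by
    intro g a x hx
    refine ⟨Normal.conj_mem inferInstance x hx.1 g, ?_⟩
    rintro _ ⟨l, hl, rfl⟩
    have := hx.2 _ ⟨l, hl, rfl⟩
    change a * l * a⁻¹ * x = x * (a * l * a⁻¹) at this
    change g * a * l * (g * a)⁻¹ * (g * x * g⁻¹) = g * x * g⁻¹ * (g * a * l * (g * a)⁻¹)
    calc _ = g * (a * l * a⁻¹ * x) * g⁻¹ := by group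
      _ = _ := by rw [this]; group
  let J : Subgroup G → Subgroup G := fun B => (Finset.univ.filter (· ∈ B)).sup Fc
  have hJ1 : ∀ B : Subgroup G, ∀ g ∈ B, Fc g ≤ J B := fun B g hg =>
    Finset.le_sup (f := Fc) (by simpa using hg)
  have hJ2 : ∀ B T : Subgroup G, (∀ g ∈ B, Fc g ≤ T) → J B ≤ T := fun B T hB =>
    Finset.sup_le fun g hg => hB g (by simpa using hg)
  have hJn : ∀ B : Subgroup G, B ≤ normalizer (J B : Set G) := fun B g hg =>
    PGrp.mem_normalizer_of_conj_mem fun x hx =>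
      hJ2 B ((J B).comap (MulAut.conj g).toMonoidHom)
        (fun a ha y hy => hJ1 B _ (mul_mem hg ha) (hconj g a y hy)) hx
  have hJz : ∀ B : Subgroup G, z ∈ J B := fun B =>
    hJ1 B 1 (one_mem B) ⟨h.es.zE, h.es.zp_cent _ (mem_zpowers z)⟩
  have hA := hnd (Finset.univ.filter (· ∈ K ⊔ S)) (by simp)
  by_cases hR : E ⊓ centralizer (J (K ⊔ S) : Set G) ≤ zpowers z
  swap
  · refine h.split IH (hJz _) (hJn _) hA (fun hc => hL (le_trans ?_ ((hJ1 _ 1 (one_mem _)).trans hc)))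
      hR
    have : Lc 1 = L := by
      simp only [Lc, map_one]
      exact map_id L
    simp only [Fc, this, le_refl]
  have hAE : E ≤ J (K ⊔ S) := hA.symm.le.trans (sup_le le_rfl (hR.trans (zpowers_le.mpr (hJz _))))
  have hXE : J (K ⊔ S₁) ⊔ (J (K ⊔ S₁)).comap (MulAut.conj s).toMonoidHom = E := by
    have hX : J (K ⊔ S₁) ≤ E := hJ2 _ _ fun _ _ => inf_le_left
    refine le_antisymm (sup_le hX fun y hy => ?_) (hAE.trans (hJ2 _ _ fun g hg => ?_))
    · simpa [mul_assoc] using Normal.conj_mem inferInstance _ (hX hy) s⁻¹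
    obtain ⟨k, hk, t, ht, rfl⟩ := (Core.mem_sup_of_le_normalizer hSK).mp hg
    by_cases ht1 : t ∈ S₁
    · exact (hJ1 _ _ (mul_mem (mem_sup_left hk) (mem_sup_right ht1))).trans le_sup_left
    · have h6 : s * (k * t) ∈ K ⊔ S₁ := by
        convert mul_mem (mem_sup_left (T := S₁) (Core.conj_mem_of_le_normalizer hSK hs hk))
          (mem_sup_right (S := K) (h5 s hs t ht hs1 ht1)) using 1
        group
      intro x hx
      have h7 : s * x * s⁻¹ ∈ J (K ⊔ S₁) := hJ1 _ _ h6 (hconj s _ x hx)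
      exact mem_sup_right h7
  have hXY : ∀ x ∈ J (K ⊔ S₁), ∀ y, s * y * s⁻¹ ∈ J (K ⊔ S₁) → x * y = y * x := by
    intro x hx y hy
    have := hJ2 (K ⊔ S₁) ((centralizer (J (K ⊔ S₁) : Set G)).comap (MulAut.conj s⁻¹).toMonoidHom)
      (fun a ha w hw => ?_) hy
    · have := this x hx
      simpa [mul_assoc] using this
    have hsa : s⁻¹ * a ∈ K ⊔ S := mul_mem (inv_mem (mem_sup_right hs)) (hH1 ha)
    refine le_centralizer_iff.mp (hJ2 _ _ fun b hb => hcomm _ hsa b (hH1 hb) fun e => hs2 ?_)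
      (hconj s⁻¹ a w hw)
    have hn : b⁻¹ * (s⁻¹ * a) ∈ normalizer (L : Set G) := PGrp.mem_normalizer_of_conj_mem
      fun l hl => by
        have : s⁻¹ * a * l * (s⁻¹ * a)⁻¹ ∈ Lc b := e ▸ ⟨l, hl, rfl⟩
        convert Core.mem_map_conj_iff.mp this using 1
        group
    obtain ⟨k, hk, t, ht, e'⟩ :=
      (Core.mem_sup_of_le_normalizer hSK).mp (mul_mem (inv_mem (hH1 hb)) hsa)
    rw [e'] at hn
    have ht1 : t ∈ S₁ := h1 ⟨ht, (mul_mem_cancel_left (hKn L hLK hk)).mp hn⟩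
    have : s = a * (k * t)⁻¹ * b⁻¹ := by rw [← e']; group
    rw [this]
    exact mul_mem (mul_mem ha (inv_mem (mul_mem (mem_sup_left hk) (mem_sup_right ht1))))
      (inv_mem hb)
  obtain ⟨f₁, h₁⟩ := IH (J (K ⊔ S₁)) (K ⊔ S₁) K
    (h.sub hXE (hJz _) (fun x hx y hy => hXY x hx y hy) hH1 le_sup_left (hJn _)) (by
      have := Core.card_lt_of_lt (lt_of_le_of_ne hH1 fun e => hs2 (e ▸ mem_sup_right hs))
      have := card_le_of_le (hXE ▸ le_sup_left : J (K ⊔ S₁) ≤ E)
      omega)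
  refine swap h.es (hJz _) hXE hXY (hJn _) (Core.le_normalizer_sup hSK h4 hs)
    (mem_sup_right (h5 s hs s hs hs1 hs1)) (fun g => ?_) (fun g hg => h.disj g (hH1 hg)) h₁ _
  obtain ⟨e, he, w, hw, rfl⟩ :=
    (Core.mem_sup_of_le_normalizer h.HE).mp (htop ▸ mem_top g : g ∈ E ⊔ (K ⊔ S))
  obtain ⟨k, hk, t, ht, rfl⟩ := (Core.mem_sup_of_le_normalizer hSK).mp hw
  by_cases ht1 : t ∈ S₁
  · exact Or.inl (mul_mem (mem_sup_left he)
      (mem_sup_right (mul_mem (mem_sup_left hk) (mem_sup_right ht1))))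
  · right
    rw [mul_assoc, mul_assoc]
    exact mul_mem (mem_sup_left he) (mem_sup_right (mul_mem (mem_sup_left hk)
      (mem_sup_right (h5 t ht _ (inv_mem hs) ht1 (by simpa using hs1)))))

end Cfsg.Agent.Part.Dade
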