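import Mathlib
import Cfsg.Agent.Part.Dade4
import Cfsg.Agent.PGrp.Special

/-!
Extension of characters of extraspecial 2-groups, part 5: Dade's theorem.
-/

set_option autoImplicit false

namespace Cfsg.Agent.Part.Dade

open Cfsg Cfsg.Agent.Char Subgroup

universe u

variable {G : Type u} [Group G] [Finite G]

theorem Hyp.core {z : G} {E H K : Subgroup G} (h : Hyp z E H K) (htop : E ⊔ H = ⊤)
    (hf : ∀ g ∈ H, g ∈ centralizer (E : Set G) → g = 1)
    (IH : ∀ E' H' K' : Subgroup G, Hyp z E' H' K' →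
      Nat.card E' + Nat.card H' + Nat.card K' < Nat.card E + Nat.card H + Nat.card K →
      ∃ f, Ok z E' (E' ⊔ H') f) : ∃ f, Ok z E (E ⊔ H) f := by
  have hE : E.Normal := Core.normal_of_le_normalizer (htop ▸ sup_le le_normalizer h.HE)
  by_cases hH : H = ⊥
  · rw [hH, sup_bot_eq]
    exact h.es.exists_ok
  have hEZ : ¬ E ≤ zpowers z := fun hc => hH (eq_bot_iff.mpr fun g hg => hf g hg fun e he =>
    (mem_center_iff.mp (h.es.zp_center (hc he)) g).symm)
  have hbot : ¬ E ⊓ centralizer ((⊥ : Subgroup G) : Set G) ≤ zpowers z := fun hc =>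
    hEZ fun e he => hc ⟨he, fun y hy => by rw [show y = 1 from hy, one_mul, mul_one]⟩
  have hK0 : K ≠ ⊥ := fun e => hbot (e ▸ h.fix)
  by_cases hmin : ∀ M : Subgroup G, H ≤ normalizer (M : Set G) → M ≤ K → M = ⊥ ∨ M = K
  swap
  · push Not at hmin
    obtain ⟨M, hM, hMK, hM0, hMK'⟩ := hmin
    have hodd : Odd (Nat.card M) := Odd.of_dvd_nat h.odd (card_dvd_of_le hMK)
    by_cases hF : E ⊓ centralizer (M : Set G) ≤ zpowers z
    · exact IH E H M ⟨h.es, h.HE, h.disj, hMK.trans h.KH, hM, hodd, hF⟩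
        (by have := Core.card_lt_of_lt (lt_of_le_of_ne hMK hMK'); omega)
    have hnd := h.es.nd_cent hodd le_normalizer_of_normal
    have hz : z ∈ E ⊓ centralizer (M : Set G) := ⟨h.es.zE, h.es.zp_cent _ (mem_zpowers z)⟩
    refine h.split IH hz (Core.le_normalizer_inf h.HE (Core.le_normalizer_centralizer hM)) hnd hF
      fun hc => hM0 (eq_bot_iff.mpr fun g hg => hf g (h.KH (hMK hg)) ?_)
    have : E ≤ centralizer (M : Set G) :=
      hnd.symm.le.trans (sup_le inf_le_right (hc.trans (h.es.zp_cent _)))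
    exact le_centralizer_iff.mp this hg
  obtain ⟨q, hq, hKc, hKq⟩ :=
    Core.minimal_invariant_elementary H K (S0205.result h.odd) h.HK hK0 hmin
  obtain ⟨P, hP⟩ := h.es.isPGroup.exists_le_sylow
  set S := (P : Subgroup G) ⊓ H with hSd
  have hS : IsPGroup 2 S := P.isPGroup'.to_inf_left
  have hES : E ⊔ S = P := by
    refine le_antisymm (sup_le hP inf_le_left) fun g hg => ?_
    obtain ⟨e, he, w, hw, rfl⟩ :=
      (Core.mem_sup_of_le_normalizer h.HE).mp (htop ▸ mem_top g : g ∈ E ⊔ H)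
    exact mul_mem (mem_sup_left he) (mem_sup_right ⟨(mul_mem_cancel_left (hP he)).mp hg, hw⟩)
  have hi : ¬ 2 ∣ (E ⊔ S).index := hES ▸ P.not_dvd_index
  have hKS : K ⊔ S ≤ H := sup_le h.KH inf_le_right
  rcases hKS.lt_or_eq with hlt | heq
  · obtain ⟨f, hf⟩ := IH E (K ⊔ S) K ⟨h.es, hKS.trans h.HE, fun g hg => h.disj g (hKS hg),
      le_sup_left, hKS.trans h.HK, h.odd, h.fix⟩ (by have := Core.card_lt_of_lt hlt; omega)
    have hθ := hf.irr h.es le_sup_left
    obtain ⟨d, -, h1, hd⟩ := isIrr_degree' hθ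
    obtain ⟨m, hm⟩ := IsPGroup.iff_card.mp h.es.isPGroup
    obtain ⟨χ, hχ, eχ⟩ := Extend.exists_ext_of_forall_prime hθ
      ((hf.res le_sup_left).inertia h.es) hd fun p hp h2 _ => by
        have h3 : p ∣ 2 ^ m := by
          rw [← hm]
          rcases (Nat.Prime.dvd_mul hp).mp h2 with h3 | h3
          · exact h3.trans (Det.detOrder_dvd_card (isIrr_isChar hθ))
          · exact h3.trans h1
        have h4 : p = 2 := (Nat.prime_dvd_prime_iff_eq hp Nat.prime_two).mp (hp.dvd_of_dvd_pow h3)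
        subst h4
        exact ⟨E ⊔ (K ⊔ S), le_sup_left, fun u => f u,
          fun h5 => hi (h5.trans (index_dvd_of_le (sup_le_sup_left le_sup_right E))), hf.1,
          fun _ => rfl⟩
    exact ⟨χ, (hf.res le_sup_left).of_top h.es.zE hχ eχ⟩
  obtain ⟨L, ⟨hLK, hL⟩, hmax⟩ := Set.exists_max_image
    {L : Subgroup G | L ≤ K ∧ ¬ E ⊓ centralizer (L : Set G) ≤ zpowers z} (fun L => Nat.card L)
    (Set.toFinite _) ⟨⊥, bot_le, hbot⟩
  have hmax' : ∀ M ≤ K, Nat.card L < Nat.card M → E ⊓ centralizer (M : Set G) ≤ zpowers z := by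
    intro M hM hlt
    by_contra hc
    exact absurd (hmax M ⟨hM, hc⟩) (not_le.mpr hlt)
  by_cases hSL : S ≤ normalizer (L : Set G)
  swap
  · clear_value S
    subst heq
    exact h.wreath htop IH hS hKc hLK hL hmax' hSL
  have hL0 : L = ⊥ := by
    refine (hmin L (heq ▸ sup_le (fun g hg => centralizer_le_normalizer _ fun x hx =>
      Core.comm_of_isMulCommutative hKc (hLK hx) hg) hSL) hLK).resolve_right ?_
    rintro rfl
    exact hL h.fix
  have hfix : ∀ k ∈ K, k ≠ 1 → E ⊓ centralizer {k} ≤ zpowers z := by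
    intro k hk hk1
    rw [← PGrp.centralizer_zpowers]
    refine hmax' _ (zpowers_le.mpr hk) ?_
    rw [hL0]
    exact Core.card_lt_of_lt (bot_lt_iff_ne_bot.mpr (by simpa using hk1))
  have hcyc : IsCyclic K := by
    by_contra hc
    exact hEZ (Core.le_of_centralizers hKc hc le_normalizer_of_normal (h.es.cop h.odd) hfix)
  have hcard : Nat.card K = q := by
    obtain ⟨k, hk⟩ := hcyc.exists_generator
    have : Fact q.Prime := ⟨hq⟩
    rw [← orderOf_eq_card_of_forall_mem_zpowers hk]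
    refine orderOf_eq_prime (Subtype.ext (hKq k k.2)) ?_
    rintro rfl
    exact hK0 (eq_bot_iff.mpr fun x hx => by simpa using hk ⟨x, hx⟩)
  refine base h.es (inf_le_right.trans h.HK) hq ?_ hcard hS (fun g hg => h.disj g hg.2) hi
    (fun k hk hk1 e he hc => hfix k hk hk1 ⟨he, mem_centralizer_singleton_iff.mpr hc.symm⟩) _
  rintro rfl
  have := h.odd
  rw [hcard] at this
  exact absurd this (by decide)

omit [Finite G] in
theorem Hyp.inj {z : G} {E H K : Subgroup G} (h : Hyp z E H K) {G' : Type u} [Group G']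
    (φ : ↥(E ⊔ H) →* G') (hk : ∀ u, φ u = 1 → (u : G) ∈ H) {u : ↥(E ⊔ H)} (hu : (u : G) ∈ E)
    (h1 : φ u = 1) : u = 1 := Subtype.ext (h.disj _ (hk u h1) hu)

omit [Finite G] in
theorem Hyp.comm {z : G} {E H K : Subgroup G} (h : Hyp z E H K) {G' : Type u} [Group G']
    (φ : ↥(E ⊔ H) →* G') (hk : ∀ u, φ u = 1 → (u : G) ∈ H) {e g : ↥(E ⊔ H)} (he : (e : G) ∈ E)
    (h1 : φ g * φ e = φ e * φ g) : (g : G) * e = e * g := by
  have := h.inj φ hk (u := g * e * g⁻¹ * e⁻¹) (mul_mem (Core.conj_mem_of_le_normalizer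
    (sup_le le_normalizer h.HE) g.2 he) (inv_mem he)) (by
      rw [map_mul, map_mul, map_mul, map_inv, map_inv, h1]; group)
  have h2 : (g : G) * e * (g : G)⁻¹ * (e : G)⁻¹ = 1 := congrArg Subtype.val this
  rw [← mul_inv_eq_iff_eq_mul, ← mul_inv_eq_one, h2]

omit [Finite G] in
theorem Hyp.push {z : G} {E H K : Subgroup G} (h : Hyp z E H K) {G' : Type u} [Group G']
    (φ : ↥(E ⊔ H) →* G') (hφ : Function.Surjective φ) (hk : ∀ u, φ u = 1 → (u : G) ∈ H) :
    Hyp (φ ⟨z, mem_sup_left h.es.zE⟩) ((E.subgroupOf _).map φ) ((H.subgroupOf _).map φ)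
      ((K.subgroupOf _).map φ) := by
  have hz : ∀ u : ↥(E ⊔ H), (u : G) ∈ zpowers z → φ u ∈ zpowers (φ ⟨z, mem_sup_left h.es.zE⟩) := by
    rintro ⟨_, hu⟩ ⟨k, rfl⟩
    exact ⟨k, (map_zpow φ _ k).symm⟩
  refine ⟨⟨⟨_, h.es.zE, rfl⟩, fun e => h.es.z1 (congrArg Subtype.val (h.inj φ hk h.es.zE e)),
    ?_, ?_, ?_, ?_⟩,
    Core.map_le_normalizer_map (Core.subgroupOf_le_normalizer_subgroupOf h.HE _) φ, ?_,
    map_mono (subgroupOf_mono _ h.KH),
    Core.map_le_normalizer_map (Core.subgroupOf_le_normalizer_subgroupOf h.HK _) φ, ?_, ?_⟩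
  · rw [← map_mul, ← φ.map_one]
    exact congrArg φ (Subtype.ext h.es.z2)
  · refine mem_center_iff.mpr fun g => ?_
    obtain ⟨g, rfl⟩ := hφ g
    rw [← map_mul, ← map_mul]
    exact congrArg φ (Subtype.ext (mem_center_iff.mp h.es.zc g))
  · rintro _ ⟨e, he, rfl⟩
    rw [← map_mul]
    exact hz _ (h.es.sq e he)
  · rintro _ ⟨e, he, rfl⟩ hc
    exact hz _ (h.es.nd e he fun x hx =>
      h.comm φ hk (g := ⟨x, mem_sup_left hx⟩) he (hc _ ⟨_, hx, rfl⟩))
  · rintro _ ⟨g, hg, rfl⟩ ⟨e, he, h1⟩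
    have h2 := hk (e * g⁻¹) (by rw [map_mul, map_inv, h1, mul_inv_cancel])
    have h3 : (e : G) ∈ H := by simpa using mul_mem h2 (show (g : G) ∈ H from hg)
    rw [← h1, show e = 1 from Subtype.ext (h.disj _ h3 he), map_one]
  · refine Odd.of_dvd_nat h.odd ((Core.card_map_dvd _ _).trans ?_)
    rw [Core.card_subgroupOf_of_le (h.KH.trans le_sup_right)]
  · rintro _ ⟨⟨e, he, rfl⟩, hc⟩
    exact hz _ (h.fix ⟨he, fun x hx =>
      h.comm φ hk (g := ⟨x, mem_sup_right (h.KH hx)⟩) he (hc _ ⟨_, hx, rfl⟩)⟩)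

theorem main (n : ℕ) : ∀ (G : Type u) [Group G] [Finite G] (z : G) (E H K : Subgroup G),
    Hyp z E H K → Nat.card E + Nat.card H + Nat.card K < n → ∃ f, Ok z E (E ⊔ H) f := by
  induction n with
  | zero => intro G _ _ z E H K _ hn; omega
  | succ n ih =>
    intro G _ _ z E H K h hn
    let N := (H ⊓ centralizer (E : Set G)).subgroupOf (E ⊔ H)
    have hN : N.Normal := normal_subgroupOf_of_le_normalizer (sup_le
      ((le_centralizer_iff.mp inf_le_right).trans (centralizer_le_normalizer _))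
      (Core.le_normalizer_inf le_normalizer (Core.le_normalizer_centralizer h.HE)))
    let φ := QuotientGroup.mk' N
    have hk' : ∀ u, φ u = 1 ↔ (u : G) ∈ H ⊓ centralizer (E : Set G) := fun u =>
      QuotientGroup.eq_one_iff u
    have hk : ∀ u, φ u = 1 → (u : G) ∈ H := fun u hu => ((hk' u).mp hu).1
    have h' := h.push φ (QuotientGroup.mk'_surjective N) hk
    have htop : (E.subgroupOf (E ⊔ H)).map φ ⊔ (H.subgroupOf (E ⊔ H)).map φ = ⊤ := by
      rw [← Subgroup.map_sup, ← subgroupOf_sup le_sup_left le_sup_right, subgroupOf_self,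
        map_top_of_surjective _ (QuotientGroup.mk'_surjective N)]
    have hc : ∀ T ≤ E ⊔ H, Nat.card ((T.subgroupOf (E ⊔ H)).map φ) ≤ Nat.card T := fun T hT => by
      rw [← Core.card_subgroupOf_of_le hT]
      exact Nat.le_of_dvd Nat.card_pos (Core.card_map_dvd _ _)
    have hcE : Nat.card ((E.subgroupOf (E ⊔ H)).map φ) = Nat.card E := by
      rw [← Core.card_subgroupOf_of_le (le_sup_left : E ≤ E ⊔ H)]
      refine (Nat.card_eq_of_bijective (φ.subgroupMap _) ⟨?_, φ.subgroupMap_surjective _⟩).symm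
      rw [injective_iff_map_eq_one]
      intro a ha
      exact Subtype.ext (h.inj φ hk a.2 (congrArg Subtype.val ha))
    obtain ⟨f, hf⟩ := h'.core htop (by
      rintro _ ⟨g, hg, rfl⟩ hg'
      exact (hk' g).mpr ⟨hg, fun e he =>
        (h.comm φ hk (e := ⟨e, mem_sup_left he⟩) he (hg' _ ⟨_, he, rfl⟩).symm).symm⟩)
      fun E' H' K' h1 h2 => ih _ _ E' H' K' h1 (by
        have := hc H le_sup_right
        have := hc K (h.KH.trans le_sup_right)
        omega)
    refine (ok_of_char (χ := fun u => f (φ u)) (mem_sup_left h.es.zE)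
      (isChar_comp (φ.codRestrict _ fun u => htop ▸ mem_top _) hf.1) ?_ ?_).imp fun _ h => h.1
    · rw [map_one]
      exact hf.2.1
    · rw [map_one, ← hcE]
      exact hf.2.2

theorem dade (E H : Subgroup G) [E.Normal] (hE : IsExtraspecial 2 E) (hEH : E ⊓ H = ⊥)
    (hEHtop : E ⊔ H = ⊤) (K : Subgroup G) (hKH : K ≤ H)
    (hKn : ∀ h ∈ H, ∀ k ∈ K, h * k * h⁻¹ ∈ K) (hKodd : Odd (Nat.card K)) (hEK : ⁅E, K⁆ = E)
    (θ : IrrCharacter E) (hθ : ∀ e : E, (θ : E → ℂ) e = (θ : E → ℂ) 1 → e = 1) :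
    ∃ χ : IrrCharacter G, ∀ e : E, (χ : G → ℂ) e = (θ : E → ℂ) e := by
  obtain ⟨-, h2, -, h4⟩ := PGrp.isExtraspecial_iff.mp hE
  have : Nontrivial ↥(E ⊓ centralizer (E : Set G)) :=
    Finite.one_lt_card_iff_nontrivial.mp (by rw [h2]; exact one_lt_two)
  obtain ⟨⟨z, hz⟩, hz1⟩ := exists_ne (1 : ↥(E ⊓ centralizer (E : Set G)))
  have hz1 : z ≠ 1 := fun e => hz1 (Subtype.ext e)
  have hz2 : z ^ 2 = 1 := by
    rw [← h2]
    exact congrArg Subtype.val (pow_card_eq_one' (x := (⟨z, hz⟩ : ↥(E ⊓ centralizer (E : Set G)))))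
  have hZ : zpowers z = E ⊓ centralizer (E : Set G) :=
    Core.eq_of_le_of_card_le (zpowers_le.mpr hz)
      (by rw [h2, Nat.card_zpowers, orderOf_eq_prime hz2 hz1])
  have hes : ES z E := by
    refine ⟨hz.1, hz1, by rw [← pow_two, hz2], mem_center_iff.mpr fun g => ?_,
      fun e he => hZ ▸ ⟨mul_mem he he, by rw [← pow_two]; exact h4 e he⟩,
      fun e he hc => hZ ▸ ⟨he, hc⟩⟩
    exact (PGrp.normalizer_le_centralizer_of_card_eq_two h2
      (le_normalizer_of_normal (mem_top g)) z hz).symm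
  have h : Hyp z E H K := by
    refine ⟨hes, le_normalizer_of_normal, fun g hg he => mem_bot.mp (hEH ▸ ⟨he, hg⟩), hKH,
      fun g hg => PGrp.mem_normalizer_of_conj_mem (hKn g hg), hKodd, ?_⟩
    rw [hZ]
    exact le_inf inf_le_left (le_centralizer_iff.mp (hEK.symm.le.trans (hes.comm_le K)))
  obtain ⟨f, hf⟩ := main _ G z E H K h (Nat.lt_succ_self _)
  obtain ⟨f₀, hf₀, e₀⟩ := hes.ok_of_irr θ.2 fun e => hz1 (congrArg Subtype.val (hθ _ e))
  have hχ : IsCharacter G f :=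
    isChar_comp ((MonoidHom.id G).codRestrict (E ⊔ H) fun g => hEHtop ▸ mem_top g) hf.1
  exact ⟨⟨f, isIrr_of_isIrr_res E hχ (hf.irr hes le_sup_left)⟩, fun e =>
    ((hf.res le_sup_left).eq hes hf₀ e.2).trans (e₀ e)⟩

end Cfsg.Agent.Part.Dade
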