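import Mathlib
import Cfsg.Agent.PGrp.Extra2
import Cfsg.Agent.Classical.Dickson
import Cfsg.Agent.LocalEven.SylowIn

/-! Extraspecial Sylow subgroups of order `p ^ 3`: radical planes give diagonal elements of the
normaliser of the Sylow subgroup. -/

set_option autoImplicit false
set_option linter.unusedSectionVars false

namespace Cfsg.Agent.Part.EX

open Subgroup PGrp LocalEven
open scoped commutatorElement

variable {G : Type*} [Group G] {p : ℕ} [hp : Fact p.Prime] {P : Subgroup G}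
  {V : Type*} [AddCommGroup V] [Module (ZMod p) V] (D : CExt p P V)

/-- Coordinates on the plane through `a`. -/
def e (a : P) (v : ZMod p × ZMod p) : P := a ^ v.1.val * D.ι v.2

variable {D} {a : P} (ha : a ^ p = 1)

include ha in
theorem e_add (v w : ZMod p × ZMod p) : e D a (v + w) = e D a v * e D a w := by
  have h1 : a ^ (v.1 + w.1).val = a ^ v.1.val * a ^ w.1.val := by
    rw [ZMod.val_add, ← pow_eq_pow_mod _ ha, pow_add]
  simp only [e, Prod.fst_add, Prod.snd_add, h1, D.ι_add, mul_assoc]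
  rw [← mul_assoc (D.ι v.2), ← D.central v.2 (a ^ w.1.val), mul_assoc]

theorem e_zero : e D a 0 = 1 := by simp [e, D.ι_zero]

include ha in
theorem e_nsmul (n : ℕ) (v : ZMod p × ZMod p) : e D a (n • v) = e D a v ^ n := by
  induction n with
  | zero => simp [e_zero]
  | succ n ih => rw [succ_nsmul, e_add ha, ih, pow_succ]

theorem e_fst : e D a (1, 0) = a := by simp [e, D.ι_zero, ZMod.val_one]

theorem e_snd (c : ZMod p) : e D a (0, c) = D.ι c := by simp [e]

theorem χ_e (v : ZMod p × ZMod p) : D.χ (e D a v) = v.1 • D.χ a := by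
  rw [e, D.χ_mul, D.χ_ι, add_zero, D.χ_pow, ← Nat.cast_smul_eq_nsmul (ZMod p), ZMod.natCast_zmod_val]

include ha in
theorem e_eq (v : ZMod p × ZMod p) :
    e D a v = e D a (1, 0) ^ v.1.val * e D a (0, 1) ^ v.2.val := by
  rw [← e_nsmul ha, ← e_nsmul ha, ← e_add ha]
  congr 1
  ext <;> simp

variable (D a) in
/-- `g` acts on the plane by the map `M`. -/
def Act (g : G) (M : ZMod p × ZMod p → ZMod p × ZMod p) : Prop :=
  ∀ v, g * (e D a v : G) * g⁻¹ = e D a (M v)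

theorem Act.mul {g h : G} {M N : ZMod p × ZMod p → ZMod p × ZMod p} (h1 : Act D a g M)
    (h2 : Act D a h N) : Act D a (g * h) (fun v => M (N v)) := fun v => by
  rw [← h1, ← h2]; group

theorem Act.inv {g : G} {M N : ZMod p × ZMod p → ZMod p × ZMod p} (h1 : Act D a g M)
    (h2 : ∀ v, M (N v) = v) : Act D a g⁻¹ N := fun v => by
  conv_lhs => rw [← h2 v, ← h1]
  group

theorem Act.congr {g : G} {M N : ZMod p × ZMod p → ZMod p × ZMod p} (h1 : Act D a g M)
    (h2 : ∀ v, M v = N v) : Act D a g N := fun v => h2 v ▸ h1 v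

include ha in
theorem act_of {g : G} {α β γ δ : ZMod p} (h1 : g * (a : G) * g⁻¹ = e D a (α, β))
    (h2 : g * (D.ι 1 : G) * g⁻¹ = e D a (γ, δ)) :
    Act D a g (fun v => (α * v.1 + γ * v.2, β * v.1 + δ * v.2)) := fun v => by
  have h3 : ∀ x y : G, g * (x * y) * g⁻¹ = g * x * g⁻¹ * (g * y * g⁻¹) := fun x y => by group
  rw [e_eq ha v, e_fst, e_snd, coe_mul, coe_pow, coe_pow, h3, ← conj_pow, ← conj_pow, h1, h2,
    ← coe_pow, ← coe_pow, ← coe_mul, ← e_nsmul ha, ← e_nsmul ha, ← e_add ha]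
  congr 2
  ext <;> simp [mul_comm]

include ha in
theorem act_P (x : P) :
    Act D a x (fun v => (v.1, D.B (D.χ x) (D.χ a) * v.1 + v.2)) := by
  refine (act_of ha (α := 1) (β := D.B (D.χ x) (D.χ a)) (γ := 0) (δ := 1) ?_ ?_).congr
    fun v => by simp
  · rw [← coe_inv, ← coe_mul, ← coe_mul, e, D.ι_B, ZMod.val_one, pow_one, ← (D.commute_commutator a x a).eq.symm,
      commutatorElement_def]
    congr 1
    group
  · rw [e_snd, ← coe_inv, ← coe_mul, ← coe_mul, D.central, mul_inv_cancel_right]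

theorem exists_B [Finite V] (hB : D.B.Nondegenerate) {v : V} (hv : v ≠ 0) (t : ZMod p) :
    ∃ x : P, D.B (D.χ x) v = t := by
  obtain ⟨u, hu⟩ : ∃ u, D.B u v ≠ 0 := by
    by_contra! h
    exact hv (hB.2 v h)
  obtain ⟨x, hx⟩ := D.χ_surj ((t / D.B u v) • u)
  exact ⟨x, by rw [hx, map_smul, LinearMap.smul_apply, smul_eq_mul, div_mul_cancel₀ _ hu]⟩

variable (D a) in
/-- The plane through `a` is radical. -/
def Rad : Prop := ∃ g : G, g * (a : G) * g⁻¹ = a ∧ g * (D.ι 1 : G) * g⁻¹ = D.ι 1 * a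

include ha in
theorem Rad.act (h : Rad D a) (s : ZMod p) : ∃ g, Act D a g (fun v => (v.1 + s * v.2, v.2)) := by
  obtain ⟨g, h1, h2⟩ := h
  have h3 := act_of (D := D) ha (g := g) (α := 1) (β := 0) (γ := 1) (δ := 1) (by rw [e_fst, h1])
    (by rw [h2, e, ZMod.val_one, pow_one, D.central, coe_mul])
  have h4 : ∀ n : ℕ, Act D a (g ^ n) (fun v => (v.1 + n * v.2, v.2)) := fun n => by
    induction n with
    | zero => intro v; simp
    | succ n ih =>
      rw [pow_succ]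
      exact (ih.mul h3).congr fun v => by ext <;> simp; ring
  exact ⟨_, (h4 s.val).congr fun v => by rw [ZMod.natCast_zmod_val]⟩

include ha in
theorem Rad.exists_norm [Finite G] [Finite V] (hP : IsSylowIn p P ⊤) (hB : D.B.Nondegenerate)
    (h0 : D.χ a ≠ 0) (h : Rad D a) (l : (ZMod p)ˣ) :
    ∃ n ∈ normalizer (P : Set G), ∃ t : ZMod p,
      Act D a n (fun v => ((l⁻¹ : (ZMod p)ˣ) * v.1, t * v.1 + l * v.2)) := by
  obtain ⟨g1, h1⟩ := h.act ha ((l : ZMod p) - 1)
  obtain ⟨g3, h3⟩ := h.act ha (((l⁻¹ : (ZMod p)ˣ) : ZMod p) - 1)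
  obtain ⟨x, hx⟩ := exists_B (D := D) hB h0 1
  have h2 := act_P (D := D) ha x
  rw [hx] at h2
  have hl : (l : ZMod p) * (l⁻¹ : (ZMod p)ˣ) = 1 := l.mul_inv
  have h4 : Act D a (g3 * (x * g1)) (fun v => ((l⁻¹ : (ZMod p)ˣ) * v.1, v.1 + l * v.2)) :=
    (h3.mul (h2.mul h1)).congr fun v => by
      ext
      · simp only; linear_combination v.2 * hl
      · simp only; ring
  set g := g3 * (x * g1)
  let K : Subgroup G :=
    { carrier := {k | ∃ t : ZMod p, Act D a k (fun v => (v.1, t * v.1 + v.2))}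
      one_mem' := ⟨0, fun v => by simp⟩
      mul_mem' := fun ⟨s, hs⟩ ⟨t, ht⟩ => ⟨s + t, (hs.mul ht).congr fun v => by ext <;> simp; ring⟩
      inv_mem' := fun ⟨s, hs⟩ => ⟨-s, hs.inv fun v => by ext <;> simp⟩ }
  have h5 : P ≤ K := fun y hy => ⟨_, act_P ha ⟨y, hy⟩⟩
  have h6 : Act D a g⁻¹ (fun v => (l * v.1, (l⁻¹ : (ZMod p)ˣ) * v.2 - v.1)) :=
    h4.inv fun v => by
      ext
      · simp only; linear_combination v.1 * hl
      · simp only; linear_combination v.2 * hl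
  have h7 : cj g P ≤ K := by
    intro y hy
    obtain ⟨y, hy', rfl⟩ := mem_cj'.1 hy
    obtain ⟨t, ht⟩ := h5 hy'
    refine ⟨l * l * t, ((h4.mul ht).mul h6).congr fun v => ?_⟩
    ext
    · simp only; linear_combination v.1 * hl
    · simp only; linear_combination v.2 * hl
  obtain ⟨k, ⟨t, ht⟩, hk⟩ := ((hP.cj_of_mem (mem_top g)).mono h7 le_top).conj (hP.mono h5 le_top)
  refine ⟨k * g, ?_, t * (l⁻¹ : (ZMod p)ˣ) + 1, (ht.mul h4).congr fun v => ?_⟩
  · rw [← cj_eq_self_iff, cj_mul, hk]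
  · ext
    · rfl
    · simp only; ring

section Rep

open Matrix Classical Classical.P1
open scoped MatrixGroups

variable (E : CExt p P (Fin 2 → ZMod p)) (hZ : center P = E.Z)

/-- The action of the normaliser on the central quotient. -/
noncomputable def lin : normalizer (P : Set G) →* ((Fin 2 → ZMod p) ≃ₗ[ZMod p] (Fin 2 → ZMod p)) :=
  (E.autLin hZ).comp P.normalizerMonoidHom

theorem lin_χ (n : normalizer (P : Set G)) (x y : P) (h : n * (x : G) * (n : G)⁻¹ = y) :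
    lin E hZ n (E.χ x) = E.χ y := by
  rw [lin, MonoidHom.comp_apply, E.autLin_χ]
  exact congrArg _ (Subtype.ext h)

/-- The same action by matrices. -/
noncomputable def mat : normalizer (P : Set G) →* GL (Fin 2) (ZMod p) :=
  (GeneralLinearGroup.toLin.symm.toMonoidHom.comp
    (LinearMap.GeneralLinearGroup.generalLinearEquiv (ZMod p) _).symm.toMonoidHom).comp (lin E hZ)

theorem mat_mulVec (n : normalizer (P : Set G)) (v : Fin 2 → ZMod p) :
    (mat E hZ n : Matrix (Fin 2) (Fin 2) (ZMod p)) *ᵥ v = lin E hZ n v := by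
  have h1 := GeneralLinearGroup.toLin_apply (mat E hZ n) v
  rw [Matrix.mulVecLin_apply] at h1
  rw [← h1]
  simp [mat]
  rfl

/-- The projective action. -/
noncomputable def prj : normalizer (P : Set G) →* PGL(2, ZMod p) :=
  ProjGenLinGroup.mk.comp (mat E hZ)

theorem not_dvd_range [Finite G] (hP : IsSylowIn p P ⊤) : ¬ p ∣ Nat.card (prj E hZ).range := by
  refine fun h => (hP.mono le_normalizer le_top).not_dvd (h.trans ?_)
  rw [← index_ker]
  refine index_dvd_of_le fun n hn => ?_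
  have h1 : lin E hZ n = 1 := by
    ext1 v
    obtain ⟨x, rfl⟩ := E.χ_surj v
    rw [lin_χ E hZ n x (⟨n, hn⟩ * x * ⟨n, hn⟩⁻¹) rfl, E.χ_mul, E.χ_mul, E.χ_inv]
    simp
  rw [MonoidHom.mem_ker, prj, MonoidHom.comp_apply, mat, MonoidHom.comp_apply, h1, map_one, map_one]

include ha in
theorem Rad.exists_prj [Finite G] (hP : IsSylowIn p P ⊤) (hB : E.B.Nondegenerate)
    (h0 : E.χ a ≠ 0) (h : Rad E a) : ∃ g ∈ (prj E hZ).range,
      g • Projectivization.mk (ZMod p) _ h0 = Projectivization.mk (ZMod p) _ h0 ∧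
      ∀ k, g ^ k = 1 → p - 1 ∣ 3 * k := by
  obtain ⟨l, hl⟩ := IsCyclic.exists_ofOrder_eq_natCard (α := (ZMod p)ˣ)
  obtain ⟨n, hn, t, ht⟩ := h.exists_norm ha hP hB h0 l
  have h1 : lin E hZ ⟨n, hn⟩ (E.χ a) = ((l⁻¹ : (ZMod p)ˣ) : ZMod p) • E.χ a := by
    have := ht (1, 0)
    rw [e_fst] at this
    rw [lin_χ E hZ ⟨n, hn⟩ a _ this, χ_e]
    simp only [mul_one]
  have h2 : ∀ u v, E.B (lin E hZ ⟨n, hn⟩ u) (lin E hZ ⟨n, hn⟩ v) = l * E.B u v := fun u v => by
    obtain ⟨x, rfl⟩ := E.χ_surj u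
    obtain ⟨y, rfl⟩ := E.χ_surj v
    rw [lin_χ E hZ ⟨n, hn⟩ x ⟨_, LocalEven.conj_mem_of_mem_normalizer hn x.2⟩ rfl,
      lin_χ E hZ ⟨n, hn⟩ y ⟨_, LocalEven.conj_mem_of_mem_normalizer hn y.2⟩ rfl]
    refine E.ι_inj (Subtype.ext ?_)
    have := ht (0, E.B (E.χ x) (E.χ y))
    simp only [mul_zero, zero_add, e_snd] at this
    rw [← this, E.ι_B, E.ι_B]
    simp only [commutatorElement_def, coe_mul, coe_inv]
    group
  refine ⟨prj E hZ ⟨n, hn⟩, ⟨_, rfl⟩, ?_, fun k hk => ?_⟩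
  · rw [prj, MonoidHom.comp_apply, P1.mk_smul, Projectivization.smul_mk, Projectivization.mk_eq_mk_iff']
    exact ⟨_, (h1.symm.trans (mat_mulVec E hZ _ _).symm :)⟩
  · rw [← map_pow, prj, MonoidHom.comp_apply, mk_eq_one_iff] at hk
    obtain ⟨c, hc⟩ : ∃ c : ZMod p, ∀ v, lin E hZ (⟨n, hn⟩ ^ k) v = c • v :=
      ⟨(mat E hZ (⟨n, hn⟩ ^ k)) 0 0, fun v => by
        rw [← mat_mulVec]
        generalize mat E hZ (⟨n, hn⟩ ^ k) = M at hk
        ext i
        fin_cases i <;> simp [Matrix.mulVec, dotProduct, Fin.sum_univ_two, hk.1, hk.2.1, hk.2.2]⟩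
    have h3 : ∀ m : ℕ, lin E hZ (⟨n, hn⟩ ^ m) (E.χ a) =
        ((l⁻¹ : (ZMod p)ˣ) : ZMod p) ^ m • E.χ a := fun m => by
      induction m with
      | zero => rw [pow_zero, pow_zero, map_one, one_smul]; rfl
      | succ m ih => rw [pow_succ, map_mul, LinearEquiv.mul_apply, h1, map_smul, ih, smul_smul, pow_succ']
    have h4 : ∀ (m : ℕ) u v, E.B (lin E hZ (⟨n, hn⟩ ^ m) u) (lin E hZ (⟨n, hn⟩ ^ m) v) =
        l ^ m * E.B u v := fun m => by
      induction m with
      | zero => simp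
      | succ m ih =>
        intro u v
        rw [pow_succ, map_mul, LinearEquiv.mul_apply, LinearEquiv.mul_apply, ih, h2, pow_succ, mul_assoc]
    have h5 : c = ((l⁻¹ : (ZMod p)ˣ) : ZMod p) ^ k :=
      smul_left_injective _ h0 ((hc _).symm.trans (h3 k))
    obtain ⟨x, hx⟩ := exists_B (D := E) hB h0 1
    have h6 := h4 k (E.χ x) (E.χ a)
    rw [hc, hc, map_smul, map_smul, LinearMap.smul_apply, hx, h5] at h6
    rw [← ZMod.card_units p, ← Nat.card_eq_fintype_card, ← hl, orderOf_dvd_iff_pow_eq_one]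
    ext
    have h7 : ((l⁻¹ : (ZMod p)ˣ) : ZMod p) ^ k * l ^ k = 1 := by
      rw [← mul_pow, l.inv_mul, one_pow]
    simp only [smul_eq_mul, mul_one] at h6
    rw [Units.val_pow_eq_pow_val, Units.val_one, mul_comm 3, pow_mul]
    linear_combination (-(l : ZMod p) ^ k * l ^ k) * h6 +
      (((l⁻¹ : (ZMod p)ˣ) : ZMod p) ^ k * l ^ k + 1) * h7

theorem lines {F : Type*} [Field F] [Finite F] [CharP F p] (H : Subgroup PGL(2, F))
    (hH : ¬ p ∣ Nat.card H) (S : Set (PL F)) {m : ℕ} (hm : 6 < m) (hS : 2 < S.ncard)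
    (h : ∀ x ∈ S, ∃ g ∈ H, g • x = x ∧ ∀ k, g ^ k = 1 → m ∣ 3 * k) :
    m = 9 ∨ m = 15 ∨ (m = 12 ∧ S.ncard ≤ 12) := by
  classical
  choose! g hg1 hg2 hg3 using h
  have h2 : ∀ x ∈ S, g x * g x ≠ 1 := fun x hx h => by
    have := Nat.le_of_dvd (by norm_num) (hg3 x hx 2 (by rw [pow_two, h]))
    omega
  obtain ⟨x, hx, y, hy, z, hz, a1, a2, a3⟩ := (Set.two_lt_ncard (Set.toFinite _)).1 hS
  have hc : ∀ D : Subgroup H, IsCyclic D → (∀ u, u ∉ D → u * u = 1) → False := fun D hD hD' => by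
    have h3 : ∀ w (hw : w ∈ S), (⟨g w, hg1 w hw⟩ : H) ∈ D := fun w hw =>
      by_contra fun h => h2 w hw (congrArg Subtype.val (hD' _ h))
    have h4 : ∀ w ∈ S, (g x * g x) • w = w := fun w hw => by
      have h5 : g w * g x = g x * g w := congrArg (fun u : D => ((u : H) : PGL(2, F)))
        (hD.commGroup.mul_comm ⟨_, h3 w hw⟩ ⟨_, h3 x hx⟩)
      have h6 : ∀ u : PL F, g w • u = u → g w • g x • u = g x • u := fun u hu => by
        rw [← mul_smul, h5, mul_smul, hu]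
      by_contra h7
      rw [mul_smul] at h7
      have h8 : g x • w ≠ w := fun h => h7 (by rw [h, h])
      refine h2 w hw ?_
      rw [fix_three (g w) _ _ _ (hg2 w hw) (h6 _ (hg2 w hw)) (h6 _ (h6 _ (hg2 w hw))) h8.symm
        (Ne.symm h7) fun h => h8 (smul_left_cancel _ h).symm, one_mul]
    exact h2 x hx (fix_three _ x y z (h4 x hx) (h4 y hy) (h4 z hz) a1 a2 a3)
  have hd : ∀ k, m ∣ 3 * k → k = 2 ∨ k = 3 ∨ k = 5 → m = 9 ∨ m = 15 := fun k h1 h3 => by
    rcases h3 with rfl | rfl | rfl <;> have := Nat.le_of_dvd (by norm_num) h1 <;>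
      interval_cases m <;> simp_all
  have he : ∀ {K : Type} [Group K] (e : H ≃* K) (w : PL F) (hw : w ∈ S) (k : ℕ),
      e ⟨g w, hg1 w hw⟩ ^ k = 1 → m ∣ 3 * k := fun e w hw k hk => hg3 w hw k (by
    rw [← map_pow, e.map_eq_one_iff] at hk
    exact congrArg Subtype.val hk)
  rcases Dickson.dickson_tame H hH with h | ⟨D, h3, -, -, h4⟩ | ⟨⟨e⟩⟩ | ⟨⟨e⟩⟩ | ⟨⟨e⟩⟩
  · exact (hc ⊤ inferInstance fun u hu => absurd (mem_top u) hu).elim
  · exact (hc D h3 h4).elim
  · have : ∀ u : alternatingGroup (Fin 4), u ^ 2 = 1 ∨ u ^ 3 = 1 := by decide +kernel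
    rcases this (e ⟨g x, hg1 x hx⟩) with h | h <;>
      exact (hd _ (he e x hx _ h) (by norm_num)).imp_right Or.inl
  · by_cases h3 : ∃ w, ∃ hw : w ∈ S, e ⟨g w, hg1 w hw⟩ ^ 2 = 1 ∨ e ⟨g w, hg1 w hw⟩ ^ 3 = 1
    · obtain ⟨w, hw, h | h⟩ := h3 <;> exact (hd _ (he e w hw _ h) (by norm_num)).imp_right Or.inl
    push Not at h3
    have h4 : ∀ u : Equiv.Perm (Fin 4), u ^ 3 = 1 ∨ u ^ 4 = 1 := by decide +kernel
    have h5 := he e x hx 4 ((h4 _).resolve_left (h3 x hx).2)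
    refine Or.inr (Or.inr ⟨by have := Nat.le_of_dvd (by norm_num) h5; interval_cases m <;> simp_all, ?_⟩)
    have h6 : (Finset.univ.filter fun u : Equiv.Perm (Fin 4) => u ^ 2 ≠ 1 ∧ u ^ 3 ≠ 1).card = 6 := by
      decide +kernel
    have h7 := Finset.card_le_mul_card_image_of_maps_to (s := S.toFinite.toFinset)
      (t := Finset.univ.filter fun u : Equiv.Perm (Fin 4) => u ^ 2 ≠ 1 ∧ u ^ 3 ≠ 1)
      (f := fun w => if hw : w ∈ S then e ⟨g w, hg1 w hw⟩ else 1)
      (fun w hw => by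
        have hw := S.toFinite.mem_toFinset.1 hw
        simpa [hw] using h3 w hw) 2
      (fun u _ => by
        by_contra! h8
        obtain ⟨b, c, d, hb, hc, hd, b1, b2, b3⟩ := Finset.two_lt_card_iff.1 h8
        simp only [Finset.mem_filter, Set.Finite.mem_toFinset] at hb hc hd
        rw [dif_pos hb.1] at hb
        rw [dif_pos hc.1] at hc
        rw [dif_pos hd.1] at hd
        have c1 : g c = g b := congrArg Subtype.val (e.injective (hc.2.trans hb.2.symm))
        have c2 : g d = g b := congrArg Subtype.val (e.injective (hd.2.trans hb.2.symm))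
        refine h2 b hb.1 ?_
        rw [fix_three (g b) b c d (hg2 b hb.1) (c1 ▸ hg2 c hc.1) (c2 ▸ hg2 d hd.1) b1 b2 b3, one_mul])
    rwa [h6, ← Set.ncard_eq_toFinset_card] at h7
  · have : ∀ u : alternatingGroup (Fin 5), u ^ 2 = 1 ∨ u ^ 3 = 1 ∨ u ^ 5 = 1 := by decide +kernel
    rcases this (e ⟨g x, hg1 x hx⟩) with h | h | h <;>
      exact (hd _ (he e x hx _ h) (by norm_num)).imp_right Or.inl

theorem main [Finite G] (hP : IsSylowIn p P ⊤) (hB : E.B.Nondegenerate) (ha : ∀ a : P, a ^ p = 1)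
    (S : Set (PL (ZMod p))) (hS : 2 < S.ncard)
    (h : ∀ x ∈ S, ∃ (a : P) (h0 : E.χ a ≠ 0), Rad E a ∧ Projectivization.mk (ZMod p) _ h0 = x) :
    p ≤ 7 ∨ (p = 13 ∧ S.ncard ≤ 12) := by
  by_cases h1 : p ≤ 7
  · exact Or.inl h1
  have h2 := lines _ (not_dvd_range E (E.nondegenerate_iff.1 hB) hP) S (m := p - 1) (by omega) hS
    fun x hx => by
      obtain ⟨a, h0, h3, rfl⟩ := h x hx
      exact h3.exists_prj (ha a) E _ hP hB h0
  have h3 := hp.out
  rcases h2 with h2 | h2 | h2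
  · exact absurd h3 (by rw [show p = 10 by omega]; norm_num)
  · exact absurd h3 (by rw [show p = 16 by omega]; norm_num)
  · exact Or.inr ⟨by omega, h2.2⟩

end Rep

theorem exists_model {E : Type*} [Group E] [Finite E] (hE : IsExtraspecial p E)
    (hc : Nat.card E = p ^ 3) : ∃ D : CExt p E (Fin 2 → ZMod p), D.B.Nondegenerate := by
  obtain ⟨m, D, -, h1, h2⟩ := exists_cext_of_isExtraspecial hE
  have : m = 1 := by
    have := Nat.pow_right_injective hp.out.two_le (hc.symm.trans h2)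
    omega
  subst this
  exact ⟨D, h1⟩

end Cfsg.Agent.Part.EX
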