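import Mathlib
import Cfsg.Agent.Chev.StBN

/-! Iterated cores of a maximal parabolic subgroup and its neighbour: general part. -/

set_option autoImplicit false
set_option linter.unusedSectionVars false
set_option maxHeartbeats 400000

namespace Cfsg.Agent.Part.IC
open Cfsg.Lie Cfsg.Agent.Chev Cfsg.Agent.Chev.StSys

section Core
variable {G : Type*} [Group G]

/-- the core of `X` in `M` -/
def core (M X : Subgroup G) : Subgroup G := (X.subgroupOf M).normalCore.map M.subtype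

theorem mem_core {M X : Subgroup G} {x : G} :
    x ∈ core M X ↔ x ∈ M ∧ ∀ m ∈ M, m * x * m⁻¹ ∈ X := by
  constructor
  · rintro ⟨y, hy, rfl⟩
    exact ⟨y.2, fun m hm => hy ⟨m, hm⟩⟩
  · rintro ⟨h1, h2⟩
    exact ⟨⟨x, h1⟩, fun m => h2 m m.2, rfl⟩

theorem mem_map_conj {X : Subgroup G} {n x : G} :
    x ∈ X.map (MulAut.conj n).toMonoidHom ↔ n⁻¹ * x * n ∈ X := by
  constructor
  · rintro ⟨y, hy, rfl⟩
    simpa [mul_assoc] using hy
  · intro h
    exact ⟨_, h, by simp [mul_assoc]⟩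

/-- the sequence of iterated cores -/
def seqA (M : Subgroup G) (n : G) : ℕ → Subgroup G
  | 0 => M
  | i + 1 => core M (seqA M n i ⊓ (seqA M n i).map (MulAut.conj n).toMonoidHom)

theorem mem_seqA {M : Subgroup G} {n x : G} {i : ℕ} : x ∈ seqA M n (i + 1) ↔
    x ∈ M ∧ ∀ m ∈ M, m * x * m⁻¹ ∈ seqA M n i ∧ n⁻¹ * (m * x * m⁻¹) * n ∈ seqA M n i := by
  rw [seqA, mem_core]
  simp only [Subgroup.mem_inf, mem_map_conj]

theorem seqB_succ {M : Subgroup G} {n : G} (hn : n * n = 1) (i : ℕ) :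
    (seqA M n (i + 1)).map (MulAut.conj n).toMonoidHom =
      core (M.map (MulAut.conj n).toMonoidHom)
        (seqA M n i ⊓ (seqA M n i).map (MulAut.conj n).toMonoidHom) := by
  have hi : n⁻¹ = n := inv_eq_of_mul_eq_one_right hn
  have hc : ∀ y : G, n * (n * y) = y := fun y => by rw [← mul_assoc, hn, one_mul]
  ext x
  rw [mem_map_conj, mem_seqA, mem_core, mem_map_conj]
  simp only [Subgroup.mem_inf, mem_map_conj, hi]
  refine and_congr_right fun _ => ⟨fun h m hm => ?_, fun h m hm => ?_⟩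
  · obtain ⟨h1, h2⟩ := h _ hm
    constructor
    · convert h2 using 1
      simp only [mul_inv_rev, hi, mul_assoc, hc, hn, mul_one]
    · convert h1 using 1
      simp only [mul_inv_rev, hi, mul_assoc, hc, hn, mul_one]
  · obtain ⟨h1, h2⟩ := h (n * m * n) (by simpa only [mul_assoc, hc, hn, mul_one] using hm)
    constructor
    · convert h2 using 1
      simp only [mul_inv_rev, hi, mul_assoc, hc, hn, mul_one]
    · convert h1 using 1
      simp only [mul_inv_rev, hi, mul_assoc, hc, hn, mul_one]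

theorem normal_le_seqA {M N : Subgroup G} [hN : N.Normal] (h : N ≤ M) (n : G) (i : ℕ) :
    N ≤ seqA M n i := by
  induction i with
  | zero => exact h
  | succ i ih =>
    intro x hx
    refine mem_seqA.mpr ⟨h hx, fun m _ => ⟨ih (hN.conj_mem _ hx _), ih ?_⟩⟩
    simpa using hN.conj_mem _ (hN.conj_mem _ hx m) n⁻¹

theorem seqA_eq_of {M : Subgroup G} {n : G} (h : M = M.map (MulAut.conj n).toMonoidHom) (i : ℕ) :
    seqA M n i = M := by
  induction i with
  | zero => rfl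
  | succ i ih =>
    ext x
    rw [mem_seqA, ih]
    refine ⟨fun h => h.1, fun hx => ⟨hx, fun m hm => ?_⟩⟩
    have h1 : m * x * m⁻¹ ∈ M := mul_mem (mul_mem hm hx) (inv_mem hm)
    exact ⟨h1, mem_map_conj.mp (h ▸ h1)⟩

theorem conj_mem_seqA {M : Subgroup G} {n x m : G} {i : ℕ} (hx : x ∈ seqA M n i) (hm : m ∈ M) :
    m * x * m⁻¹ ∈ seqA M n i := by
  cases i with
  | zero => exact mul_mem (mul_mem hm hx) (inv_mem hm)
  | succ i =>
    rw [mem_seqA] at hx ⊢
    refine ⟨mul_mem (mul_mem hm hx.1) (inv_mem hm), fun m' hm' => ?_⟩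
    have := hx.2 (m' * m) (mul_mem hm' hm)
    simpa only [mul_inv_rev, mul_assoc] using this

end Core

variable {D : ChevalleyDatum} [g : Good2 D] {F : Type*} [Field F] {G : Type*} [Group G]
variable {S : StSys D F G}

theorem ca_nonpos {i j : Ix D} (h : i ≠ j) : ca i (sim j) ≤ 0 := by
  have h1 : Pos (rf i (sim j)) := pos_rf (pos_sim j) fun e => h (sim_injective e).symm
  have h2 := (pos_iff _).mp h1 i
  rw [co_rf] at h2
  simpa [Pi.single_apply, h] using h2

theorem mem_WK_of_cell {K : Subgroup G} (hB : S.B ≤ K) {w : W D} :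
    ∀ {y : G}, y ∈ K → y ∈ S.cell w → w ∈ WK {i | S.ns i ∈ K} := by
  induction w using W_ind_left with
  | h1 => intro _ _ _; exact one_mem _
  | hs i w hp ih =>
    intro y hy hc
    have hcell : ∀ z ∈ S.cell (sW i * w), z ∈ K := by
      obtain ⟨a, ha, hm, b, hb, b', hb', e⟩ := hc
      have haK : a ∈ K := by
        have : a = b⁻¹ * y * b'⁻¹ := by rw [e]; group
        rw [this]; exact mul_mem (mul_mem (inv_mem (hB hb)) hy) (inv_mem (hB hb'))
      intro z hz
      obtain ⟨c, hc, c', hc', rfl⟩ := (mem_cell_iff ha hm).mp hz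
      exact mul_mem (mul_mem (hB hc) haK) (hB hc')
    obtain ⟨a, ha, hm⟩ := S.exists_N (sW i * w)
    have hnp : ¬ Pos ((sW i * w)⁻¹ • sim i) := by
      rw [mul_inv_rev, mul_smul]; simp [pos_smul_ng, hp]
    have h1 := hcell _ ((ns_mul_x_mul ha hm (1 : F)).2 hnp one_ne_zero)
    have haK := hcell _ (self_mem_cell ha hm)
    have hx : S.x (sim i) 1 ∈ K := hB (S.U_le_B (S.x_mem (pos_sim i) _))
    have hn : S.ns i ∈ K := by
      have : S.ns i = (S.ns i * S.x (sim i) 1 * a) * a⁻¹ * (S.x (sim i) 1)⁻¹ := by group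
      rw [this]; exact mul_mem (mul_mem h1 (inv_mem haK)) (inv_mem hx)
    have hm' : S.Mono (S.ns i * a) w := by simpa using (S.mono_ns i).mul hm
    exact mul_mem (sW_mem_WK hn)
      (ih (mul_mem hn haK) (self_mem_cell (mul_mem (S.ns_mem i) ha) hm'))

theorem eq_top_of_lt (hS : S.grp = ⊤) (a : Ix D) {K : Subgroup G} (h : S.P {a}ᶜ < K) : K = ⊤ := by
  have hB : S.B ≤ K := (B_le_P _).trans h.le
  by_cases ha : S.ns a ∈ K
  · rw [eq_top_iff, ← hS, ← P_univ]
    refine P_le hB fun i _ => ?_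
    by_cases e : i = a
    · exact e ▸ ha
    · exact h.le (ns_mem_P e)
  · refine absurd (fun y hy => ?_) (not_le_of_gt h)
    obtain ⟨w, hw⟩ := exists_cell (S := S) (y := y) (hS ▸ Subgroup.mem_top y)
    refine mem_P.mpr ⟨w, WK_mono ?_ (mem_WK_of_cell hB hy hw), hw⟩
    rintro i hi rfl
    exact ha hi

theorem step {I : Set (Ix D)} {j : Ix D} (hj : j ∉ I) {x : G} (hx : x ∈ S.P I)
    (hx' : S.ns j * x * (S.ns j)⁻¹ ∈ S.P I) : x ∈ S.P {i | i ∈ I ∧ ca i (sim j) = 0} := by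
  obtain ⟨w, hw, hc⟩ := mem_P.mp hx
  have hnj : ¬ PhiK I (sim j) := by simpa using hj
  have hpos : ∀ u ∈ WK I, Pos (u • sim j) := fun u hu =>
    (pos_smul_iff_of_not_phiK hu hnj).mpr (pos_sim j)
  have h1 := (ns_mul_cell (i := j) hc).1 (hpos _ (inv_mem hw))
  have h2 : ¬ Pos ((sW j * w) • sim j) := by
    intro hp
    have h3 := (ns_mul_cell (i := j) (inv_mem_cell h1)).1 (by simpa using hp)
    obtain ⟨u, hu, hcu⟩ := mem_P.mp (inv_mem hx')
    have e : S.ns j * (S.ns j * x)⁻¹ = (S.ns j * x * (S.ns j)⁻¹)⁻¹ := by group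
    rw [e] at h3
    have e2 := cell_unique h3 hcu
    have h4 := hpos _ (inv_mem hu)
    rw [← e2, mul_inv_rev, inv_inv, mul_smul] at h4
    simp only [sW_inv, sW_smul, rf_sim, pos_smul_ng] at h4
    exact h4 hp
  rw [mul_smul, sW_smul] at h2
  have h3 := eq_sim_of_not_pos_rf (hpos w hw) h2
  have h4 := mem_WK_of_smul_eq (K := I) (μ := ng (sim j)) (fun i hi => by
    rw [ca_ng]; exact neg_nonneg.mpr (ca_nonpos fun e => hj (e ▸ hi))) hw (by rw [smul_ng, h3])
  refine mem_P.mpr ⟨w, WK_mono ?_ h4, hc⟩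
  rintro i ⟨h5, h6⟩
  exact ⟨h5, by simpa using h6⟩

theorem le_B_of {a : Ix D} {K : Subgroup G} (hK : ∀ x ∈ K, ∀ m ∈ S.P {a}ᶜ, m * x * m⁻¹ ∈ K)
    (n : ℕ) : ∀ I : Set (Ix D), I.ncard = n → (∀ i ∈ I, i ≠ a ∧ ca i (sim a) = 0) →
      K ≤ S.P I → K ≤ S.B := by
  induction n using Nat.strong_induction_on with
  | _ n ih =>
    intro I hn hI hle
    rcases I.eq_empty_or_nonempty with rfl | hne
    · rwa [P_empty] at hle
    · obtain ⟨i, hi, j, hj, hij⟩ := g.conn I hne ⟨a, fun h => (hI a h).1 rfl⟩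
      have hja : j ≠ a := by rintro rfl; exact hij (hI i hi).2
      refine ih _ ?_ {i | i ∈ I ∧ ca i (sim j) = 0} rfl (fun k hk => hI k hk.1) fun x hx =>
        step hj (hle hx) (hle (hK x hx _ (ns_mem_P hja)))
      rw [← hn]
      exact Set.ncard_lt_ncard ⟨fun _ h => h.1, fun h => hij (h hi).2⟩

/-- roots of level at least `k` -/
def T (a : Ix D) (k : ℕ) : Set (Rt D) := {r | (k : ℤ) ≤ co r a}

theorem T_pos {a : Ix D} {k : ℕ} (hk : 1 ≤ k) {r : Rt D} (h : r ∈ T a k) : Pos r :=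
  pos_of_co_pos (i := a) (lt_of_lt_of_le (by exact_mod_cast hk) h)

theorem uni_T (a : Ix D) {k : ℕ} (hk : 1 ≤ k) : Uni owt (T a k) := by
  refine ⟨fun r hr => uni_pos.pos r (T_pos hk hr), fun r hr s hs v i j hi hj e => ?_⟩
  have h1 : (k : ℤ) ≤ co r a := hr
  have h2 : (k : ℤ) ≤ co s a := hs
  have h3 : (1 : ℤ) ≤ k := by exact_mod_cast hk
  change (k : ℤ) ≤ co v a
  rw [e]
  simp only [Pi.add_apply, Pi.smul_apply, smul_eq_mul]
  nlinarith

theorem conj_mem_T (a : Ix D) {k : ℕ} (hk : 1 ≤ k) {m x : G} (hm : m ∈ S.P {a}ᶜ)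
    (hx : x ∈ S.XS (T a k)) : m * x * m⁻¹ ∈ S.XS (T a k) := by
  have : S.P {a}ᶜ ≤ Subgroup.normalizer (S.XS (T a k) : Set G) := by
    rw [P_eq]
    refine sup_le (S.H_le_normalizer _) (S.le_normalizer_of_cl fun r hr s hs => ?_)
    have h1 : 0 ≤ co r a := hr.elim (fun h => (pos_iff r).mp h a) fun h => (h a (by simp)).ge
    have h2 : (k : ℤ) ≤ co s a := hs
    have h3 : (1 : ℤ) ≤ k := by exact_mod_cast hk
    refine ⟨?_, fun v i j hi hj e => ?_⟩
    · rintro rfl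
      simp only [co_ng, Pi.neg_apply] at h2
      omega
    · change (k : ℤ) ≤ co v a
      rw [e]
      simp only [Pi.add_apply, Pi.smul_apply, smul_eq_mul]
      nlinarith
  exact (Subgroup.mem_normalizer_iff.mp (this hm) x).mp hx

theorem conj_prd {m : G} {w : W D} (hm : S.Mono m w) : ∃ c : Rt D → F, (∀ r, c r ≠ 0) ∧
    ∀ (L : List (Rt D)) (t : Rt D → F), m * S.prd L t * m⁻¹ =
      S.prd (L.map (w • ·)) fun s => c (w⁻¹ • s) * t (w⁻¹ • s) := by
  choose c hc h1 _ using hm.exists_conj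
  refine ⟨c, hc, fun L t => ?_⟩
  induction L with
  | nil => simp
  | cons r L ih =>
    rw [List.map_cons, prd_cons, prd_cons, ← ih, inv_smul_smul, ← h1]
    group

theorem level {a : Ix D} {k : ℕ} (hk : 1 ≤ k) {R : Set (Rt D)} (hR : Uni owt R)
    (hRp : ∀ r ∈ R, Pos r) (hbad : ∀ r, co r a = k → ∃ w ∈ WK {a}ᶜ, w • r ∉ R) {x : G}
    (hx : x ∈ S.XS (T a k)) (h : ∀ m ∈ S.P {a}ᶜ, m * x * m⁻¹ ∈ S.XS R) :
    x ∈ S.XS (T a (k + 1)) := by
  obtain ⟨L, hL, hLR⟩ := exists_list (T a k)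
  obtain ⟨t, rfl⟩ := S.exists_prd (uni_T a hk) hL hLR hx
  refine S.prd_mem fun r hr hr' => ?_
  have h1 : co r a = k := by
    have h2 : (k : ℤ) ≤ co r a := (hLR r).mp hr
    have h3 : ¬ ((k + 1 : ℕ) : ℤ) ≤ co r a := hr'
    push_cast at h3
    omega
  obtain ⟨w, hw, hwr⟩ := hbad r h1
  obtain ⟨m, hmN, hm⟩ := S.exists_N w
  have hmP := mem_P_of_mono hmN hm hw
  obtain ⟨c, hc, hcj⟩ := conj_prd hm
  have hy : m * S.prd L t * m⁻¹ ∈ S.XS (T a k ∩ R) := by
    rw [← S.XS_inf uni_pos (uni_T a hk) hR (fun _ h => T_pos hk h) hRp]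
    exact ⟨conj_mem_T a hk hmP hx, h m hmP⟩
  have hL' : (L.map (w • ·)).Nodup := hL.map (MulAction.injective w)
  have hco : ∀ s, co (w • s) a = co s a := fun s => co_smul_of_mem hw (by simp) s
  have hL'R : ∀ s, s ∈ L.map (w • ·) ↔ s ∈ T a k := by
    intro s
    rw [List.mem_map]
    constructor
    · rintro ⟨s', hs', rfl⟩
      change _ ≤ co (w • s') a
      rw [hco]; exact (hLR _).mp hs'
    · intro hs
      refine ⟨w⁻¹ • s, (hLR _).mpr ?_, smul_inv_smul _ _⟩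
      change _ ≤ co (w⁻¹ • s) a
      rw [← hco, smul_inv_smul]; exact hs
  obtain ⟨t', ht', e⟩ := S.exists_prd_of_subset ((uni_T a hk).inter hR) hL'
    (fun s hs => (hL'R s).mpr hs.1) hy
  rw [hcj] at e
  have h4 := S.prd_inj (uni_T a hk) hL' (fun s hs => (hL'R s).mp hs) e (w • r)
    (List.mem_map.mpr ⟨r, hr, rfl⟩)
  rw [ht' _ fun h => hwr h.2] at h4
  simp only [inv_smul_smul] at h4
  exact (mul_eq_zero.mp h4).resolve_left (hc r)

theorem exists_low {a : Ix D} (r : Rt D) :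
    ∃ w ∈ WK {a}ᶜ, ∀ i, i ≠ a → ca i (w • r) ≤ 0 := by
  induction r using WellFoundedLT.induction with
  | ind r ih =>
    by_cases h : ∀ i, i ≠ a → ca i r ≤ 0
    · exact ⟨1, one_mem _, by simpa using h⟩
    · push Not at h
      obtain ⟨i, hi, hc⟩ := h
      have : rf i r < r := by
        rw [← ord_strictMono.lt_iff_lt, ord_rf]
        have := mul_pos hc (owt_pos i)
        linarith
      obtain ⟨w, hw, h2⟩ := ih _ this
      exact ⟨w * sW i, mul_mem hw (sW_mem_WK hi), by simpa [mul_smul] using h2⟩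

end Cfsg.Agent.Part.IC
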