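import Mathlib
import Cfsg.Agent.Part.Ic1
import Cfsg.Agent.Chev.All2
import Cfsg.Agent.Chev.Mor

/-! Iterated cores of a maximal parabolic subgroup and its neighbour: the bounds, and `E₈(2)`. -/

set_option autoImplicit false
set_option linter.unusedSectionVars false
set_option maxHeartbeats 400000
set_option maxRecDepth 100000

namespace Cfsg.Agent.Part.IC
open Cfsg.Lie Cfsg.Agent.Chev Cfsg.Agent.Chev.StSys

section
variable {D : ChevalleyDatum} [g : Good2 D] {F : Type*} [Field F] {G : Type*} [Group G]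
variable {S : StSys D F G}

theorem ns_sq (hH : S.H = ⊥) (a : Ix D) : S.ns a * S.ns a = 1 := by
  have := S.n_mul_self_mem (sim a)
  rwa [hH, Subgroup.mem_bot] at this

theorem T_mono (a : Ix D) (k : ℕ) : T a (k + 1) ⊆ T a k := fun r hr => by
  have : ((k + 1 : ℕ) : ℤ) ≤ co r a := hr
  change (k : ℤ) ≤ co r a
  push_cast at this
  omega

theorem lower {a : Ix D} (h1 : ∀ r, r ≠ sim a → ca a r ≤ 1) (i : ℕ) :
    S.XS (T a (i + 1)) ≤ seqA (S.P {a}ᶜ) (S.ns a) i := by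
  have hP : ∀ k, 1 ≤ k → S.XS (T a k) ≤ S.P {a}ᶜ := fun k hk =>
    ((S.XS_mono fun _ h => T_pos hk h).trans S.U_le_B).trans (B_le_P _)
  induction i with
  | zero => exact hP _ le_rfl
  | succ i ih =>
    intro x hx
    refine mem_seqA.mpr ⟨hP _ (by omega) hx, fun m hm => ?_⟩
    have hy := conj_mem_T a (by omega) hm hx
    refine ⟨ih (S.XS_mono (T_mono a _) hy), ih ((S.mono_ns a).conj_mem' (fun r hr => ?_) hy)⟩
    have h2 : ((i + 1 + 1 : ℕ) : ℤ) ≤ co r a := hr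
    have h3 : r ≠ sim a := by
      rintro rfl
      simp only [co_sim, Pi.single_eq_same] at h2
      omega
    have h4 := h1 r h3
    change ((i + 1 : ℕ) : ℤ) ≤ co ((sW a)⁻¹ • r) a
    rw [sW_inv, sW_smul, co_rf]
    simp only [Pi.sub_apply, Pi.smul_apply, Pi.single_eq_same, smul_eq_mul, mul_one]
    push_cast at h2 ⊢
    omega

theorem upper_one (hH : S.H = ⊥) {a : Ix D}
    (h2 : ∀ r, co r a = 1 → (∀ i, i ≠ a → ca i r ≤ 0) → r = sim a) :
    seqA (S.P {a}ᶜ) (S.ns a) 1 ≤ S.XS (T a 2) := by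
  have hi : (S.ns a)⁻¹ = S.ns a := inv_eq_of_mul_eq_one_right (ns_sq hH a)
  have hconj : ∀ x ∈ seqA (S.P {a}ᶜ) (S.ns a) 1, S.ns a * x * (S.ns a)⁻¹ ∈ S.P {a}ᶜ := by
    intro x hx
    have := ((mem_seqA.mp hx).2 1 (one_mem _)).2
    simp only [hi, one_mul, inv_one, mul_one] at this ⊢
    exact this
  have hB : seqA (S.P {a}ᶜ) (S.ns a) 1 ≤ S.B :=
    le_B_of (a := a) (fun x hx m hm => conj_mem_seqA hx hm) _
      {i | i ∈ ({a}ᶜ : Set (Ix D)) ∧ ca i (sim a) = 0} rfl (fun i h => h) fun x hx =>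
        step (by simp) (mem_seqA.mp hx).1 (hconj x hx)
  have hU : seqA (S.P {a}ᶜ) (S.ns a) 1 ≤ S.U := by
    rwa [StSys.B, hH, sup_bot_eq] at hB
  intro x hx
  have hx1 : x ∈ S.XS (T a 1) := by
    obtain ⟨m, hmN, hm⟩ := S.exists_N (w0 ({a}ᶜ : Set (Ix D)))
    have hmP := mem_P_of_mono hmN hm (w0_mem _)
    obtain ⟨y, hy, z, hz, e⟩ := exists_U_split (w0 ({a}ᶜ : Set (Ix D))) (hU hx)
    have h3 : m * y * m⁻¹ ∈ S.U := hm.conj_mem (fun r hr => hr.2) hy
    have h4 : m * z * m⁻¹ ∈ S.U := by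
      have h5 := hU (conj_mem_seqA hx hmP)
      have : m * z * m⁻¹ = (m * y * m⁻¹)⁻¹ * (m * x * m⁻¹) := by rw [e]; group
      rw [this]; exact mul_mem (inv_mem h3) h5
    have h5 := one_of_mem_B_V (S.U_le_B h4) (hm.conj_Uw hz)
    have h6 : z = 1 := by
      have : z = m⁻¹ * (m * z * m⁻¹) * m := by group
      rw [this, h5]; group
    rw [e, h6, mul_one]
    refine S.XS_mono (fun r hr => ?_) hy
    have h7 := (pos_iff r).mp hr.1 a
    have h8 : co r a ≠ 0 := fun h0 => not_pos_w0 hr.1 (fun i hi => by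
      have : i = a := by simpa using hi
      rw [this, h0]) hr.2
    change ((1 : ℕ) : ℤ) ≤ co r a
    push_cast
    omega
  refine level (k := 1) le_rfl (uni_ninvs (sW a)) (fun r h => h.1) (fun r hr => ?_) hx1
    fun m hm => ?_
  · obtain ⟨w, hw, hl⟩ := exists_low (a := a) r
    refine ⟨w, hw, ?_⟩
    rw [h2 (w • r) (by rw [co_smul_of_mem hw (by simp)]; exact_mod_cast hr) hl]
    simp [pos_sim]
  · have hy := conj_mem_seqA hx hm
    obtain ⟨y, hy1, z, hz, e⟩ := exists_U_split (sW a) (hU hy)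
    have h3 : S.ns a * y * (S.ns a)⁻¹ ∈ S.U := (S.mono_ns a).conj_mem (fun r hr => hr.2) hy1
    have h4 : S.ns a * z * (S.ns a)⁻¹ ∈ S.P {a}ᶜ := by
      have : S.ns a * z * (S.ns a)⁻¹ =
          (S.ns a * y * (S.ns a)⁻¹)⁻¹ * (S.ns a * (m * x * m⁻¹) * (S.ns a)⁻¹) := by
        rw [e]; group
      rw [this]; exact mul_mem (inv_mem (B_le_P _ (S.U_le_B h3))) (hconj _ hy)
    obtain ⟨t, rfl⟩ := S.mem_XS_singleton.mp (S.XS_mono (T' := {sim a}) (fun r hr => by
      obtain ⟨h5, h6⟩ := mem_invs.mp hr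
      exact eq_sim_of_not_pos_rf h5 h6) hz)
    have ht : t = 0 := by
      by_contra ht
      have h5 := (ns_mul_x_mul (i := a) (inv_mem (S.ns_mem a)) (S.mono_ns a).inv t).2
        (by simp [pos_sim]) ht
      obtain ⟨w, hw, hc⟩ := mem_P.mp h4
      have h6 := cell_unique h5 hc
      have h7 := mem_of_not_pos hw (i := a) (by rw [← h6]; simp [pos_sim])
      simp at h7
    rw [e, ht, S.x_zero, mul_one]
    exact hy1

theorem upper (hH : S.H = ⊥) {a : Ix D}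
    (h2 : ∀ r, co r a = 1 → (∀ i, i ≠ a → ca i r ≤ 0) → r = sim a) (i : ℕ) :
    seqA (S.P {a}ᶜ) (S.ns a) (i + 1) ≤ S.XS (T a (i + 2)) := by
  induction i with
  | zero => exact upper_one hH h2
  | succ i ih =>
    intro x hx
    obtain ⟨-, hx2⟩ := mem_seqA.mp hx
    have hpos : ∀ r ∈ {r | sW a • r ∈ T a (i + 2)}, Pos r := by
      intro r hr
      have h3 : ((i + 2 : ℕ) : ℤ) ≤ co (rf a r) a := hr
      have h4 : rf a r ≠ sim a := by
        intro e
        rw [e] at h3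
        simp only [co_sim, Pi.single_eq_same] at h3
        omega
      simpa using pos_rf (T_pos (by omega) hr) h4
    have hR : Uni owt {r | sW a • r ∈ T a (i + 2)} :=
      ⟨fun r hr => uni_pos.pos r (hpos r hr), (Uni.smul (uni_T a (by omega)) (sW a)).cl⟩
    refine level (k := i + 2) (by omega) hR hpos (fun r hr => ?_)
      (ih (by simpa using (hx2 1 (one_mem _)).1)) fun m hm => ?_
    · obtain ⟨w, hw, hl⟩ := exists_low (a := a) r
      refine ⟨w, hw, fun h => ?_⟩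
      have h3 : co (w • r) a = (i + 2 : ℕ) := by rw [co_smul_of_mem hw (by simp)]; exact hr
      obtain ⟨j, hj⟩ := exists_ca_pos (pos_of_co_pos (r := w • r) (i := a) (by rw [h3]; omega))
      have h4 : j = a := by by_contra e; exact absurd (hl j e) (not_le.mpr hj)
      subst h4
      have h5 : ((i + 2 : ℕ) : ℤ) ≤ co (rf j (w • r)) j := h
      rw [co_rf] at h5
      simp only [Pi.sub_apply, Pi.smul_apply, Pi.single_eq_same, smul_eq_mul, mul_one] at h5
      omega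
    · have h3 := (S.mono_ns a).conj_mem (T' := {r | sW a • r ∈ T a (i + 2)})
        (fun r hr => by simpa using hr) (ih (hx2 m hm).2)
      simpa only [mul_assoc, mul_inv_cancel_left, mul_inv_cancel, mul_one] using h3

theorem example_of (hS : S.grp = ⊤) (hH : S.H = ⊥) {a : Ix D} (h1 : ∀ r, r ≠ sim a → ca a r ≤ 1)
    (h2 : ∀ r, co r a = 1 → (∀ i, i ≠ a → ca i r ≤ 0) → r = sim a) (h3 : ∀ r, co r a ≤ 6)
    (h4 : ∃ r, co r a = 6) :
    ∃ (M₁ M₂ : Subgroup G) (n : G) (A B : ℕ → Subgroup G),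
      IsCoatom M₁ ∧ M₂ = M₁.map (MulAut.conj n).toMonoidHom ∧ M₁ ≠ M₂ ∧ M₁.normalCore = ⊥ ∧
      A 0 = M₁ ∧ B 0 = M₂ ∧
      (∀ i, A (i + 1) = ((A i ⊓ B i).subgroupOf M₁).normalCore.map M₁.subtype) ∧
      (∀ i, B (i + 1) = ((A i ⊓ B i).subgroupOf M₂).normalCore.map M₂.subtype) ∧
      A 6 = ⊥ ∧ A 5 ≠ ⊥ := by
  have h6 : seqA (S.P {a}ᶜ) (S.ns a) 6 = ⊥ := by
    refine eq_bot_iff.mpr ((upper hH h2 5).trans (S.XS_le.mpr fun r hr => ?_))
    have h7 : ((5 + 2 : ℕ) : ℤ) ≤ co r a := hr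
    have := h3 r
    omega
  have h5 : seqA (S.P {a}ᶜ) (S.ns a) 5 ≠ ⊥ := by
    obtain ⟨r, hr⟩ := h4
    intro e
    have h7 := lower (S := S) h1 5 (S.x_mem (r := r) (show ((5 + 1 : ℕ) : ℤ) ≤ co r a by
      rw [hr]; rfl) 1)
    rw [e, Subgroup.mem_bot, ← S.x_zero r] at h7
    exact one_ne_zero (S.x_inj h7)
  have hne : S.P {a}ᶜ ≠ (S.P {a}ᶜ).map (MulAut.conj (S.ns a)).toMonoidHom := fun e =>
    h5 (by rw [seqA_eq_of e, ← seqA_eq_of e 6, h6])
  refine ⟨S.P {a}ᶜ, _, S.ns a, seqA (S.P {a}ᶜ) (S.ns a),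
    fun i => (seqA (S.P {a}ᶜ) (S.ns a) i).map (MulAut.conj (S.ns a)).toMonoidHom,
    ⟨fun e => hne ?_, fun K hK => eq_top_of_lt hS a hK⟩, rfl, hne, ?_, rfl, rfl, fun _ => rfl,
    fun i => seqB_succ (ns_sq hH a) i, h6, h5⟩
  · rw [e]
    exact (Subgroup.map_top_of_surjective _ (MulAut.conj (S.ns a)).surjective).symm
  · exact eq_bot_iff.mpr (h6 ▸ normal_le_seqA (Subgroup.normalCore_le _) _ 6)

end

theorem e8_chk : allN 240 (fun r => (Nat.beq r (chevE8.simple 3) ||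
    decide (certE8.ca chevE8 3 r ≤ 1)) && decide (certE8.co chevE8 r 3 ≤ 6) &&
    (Nat.beq r (chevE8.simple 3) || !(ieq (certE8.co chevE8 r 3) 1) ||
      anyN 8 fun i => !(Nat.beq i 3) && decide (0 < certE8.ca chevE8 i r))) = true ∧
    certE8.co chevE8 239 3 = 6 := by decide +kernel

theorem e8_example :
    ∃ (G : Type) (_ : Group G) (_ : Finite G) (M₁ M₂ : Subgroup G) (g : G) (A B : ℕ → Subgroup G),
      IsCoatom M₁ ∧ M₂ = M₁.map (MulAut.conj g).toMonoidHom ∧ M₁ ≠ M₂ ∧ M₁.normalCore = ⊥ ∧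
      A 0 = M₁ ∧ B 0 = M₂ ∧
      (∀ i, A (i + 1) = ((A i ⊓ B i).subgroupOf M₁).normalCore.map M₁.subtype) ∧
      (∀ i, B (i + 1) = ((A i ⊓ B i).subgroupOf M₂).normalCore.map M₂.subtype) ∧
      A 6 = ⊥ ∧ A 5 ≠ ⊥ := by
  letI g : Good2 chevE8 := good2E8
  obtain ⟨h, h'⟩ := e8_chk
  simp only [allN_iff, Bool.and_eq_true, Bool.or_eq_true, Nat.beq_eq, decide_eq_true_eq,
    Bool.not_eq_true', ieq_false_iff, anyN_iff] at h
  let a : Ix chevE8 := ⟨3, by decide⟩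
  have hca : ∀ (i : Ix chevE8) (r : Rt chevE8), ca i r = certE8.ca chevE8 i r :=
    fun i r => ca_eq' i r
  refine ⟨chevE8.group (ZMod 2), inferInstance, inferInstance,
    example_of (S := chSys chevE8 (ZMod 2)) (a := a) ch_grp ?_ (fun r hr => ?_)
      (fun r h1 h2 => ?_) (fun r => (h r r.2).1.2) ⟨⟨239, by decide⟩, h'⟩⟩
  · refine eq_bot_iff.mpr ((chSys chevE8 (ZMod 2)).H_le.mpr fun r t ht => ?_)
    have : t = 1 := by revert t; decide
    rw [this, h_one]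
    exact one_mem _
  · rw [hca]
    exact (h r r.2).1.1.resolve_left fun e => hr (Fin.ext e)
  · rcases (h r r.2).2 with (e | e) | ⟨i, hi, e1, e2⟩
    · exact Fin.ext e
    · exact absurd h1 e
    · have := h2 ⟨i, hi⟩ fun e => by
        have : i = 3 := congrArg Fin.val e
        simp [this] at e1
      rw [hca] at this
      exact absurd e2 (not_lt.mpr this)

end Cfsg.Agent.Part.IC
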