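import Mathlib
import Cfsg.Agent.Part.Rk1
import Cfsg.Agent.Char.RepEquiv
import Cfsg.Agent.Char.IndRep
import Cfsg.Agent.Char.Inner
import Cfsg.Agent.Char.Values

/-!
# Rank 3 groups with a Frobenius suborbit: the eigenspace character
-/

set_option autoImplicit false

namespace Cfsg.Agent.Part.Rk

open MulAction Finset Matrix

variable {G X : Type*} [Group G] [Fintype G] [Fintype X] [MulAction G X]

theorem int_dvd_of_isIntegral {z d : ℤ} (hd : d ≠ 0) (h : IsIntegral ℤ ((z : ℂ) / d)) : d ∣ z := by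
  have e : (z : ℂ) / d = algebraMap ℚ ℂ ((z : ℚ) / d) := by simp
  rw [e, isIntegral_algebraMap_iff (algebraMap ℚ ℂ).injective,
    IsIntegrallyClosed.isIntegral_iff] at h
  obtain ⟨y, hy⟩ := h
  refine ⟨y, ?_⟩
  have h2 : (d : ℚ) ≠ 0 := by exact_mod_cast hd
  have : (z : ℚ) = d * y := by
    have : (y : ℚ) = z / d := by simpa using hy
    rw [this]; field_simp
  exact_mod_cast this

namespace St

variable (s : St G X)

open Classical in
/-- Number of points mapped to a neighbour. -/
noncomputable def a1 (g : G) : ℕ := (univ.filter fun v => s.adj v (g • v)).card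

open Classical in
noncomputable def Am : Matrix X X ℂ := fun x y => if s.adj x y then 1 else 0

open Classical in
noncomputable def Pm (X : Type*) [MulAction G X] (g : G) : Matrix X X ℂ :=
  fun x y => if x = g • y then 1 else 0

def Jm (X : Type*) : Matrix X X ℂ := fun _ _ => 1

variable {s}

open Classical in
theorem mul_Pm (M : Matrix X X ℂ) (g : G) (x y : X) : (M * Pm X g) x y = M x (g • y) := by
  simp [Matrix.mul_apply, Pm]

open Classical in
theorem Pm_mul (M : Matrix X X ℂ) (g : G) (x y : X) : (Pm X g * M) x y = M (g⁻¹ • x) y := by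
  simp only [Matrix.mul_apply, Pm, ← inv_smul_eq_iff]
  simp

open Classical in
theorem AJ : s.Am * Jm X = (s.k : ℂ) • Jm X := by
  ext x y
  simp only [Matrix.mul_apply, Am, Jm, mul_one, Matrix.smul_apply, smul_eq_mul, sum_boole]
  rw [← card_N x]; rfl

open Classical in
theorem JA : Jm X * s.Am = (s.k : ℂ) • Jm X := by
  ext x y
  simp only [Matrix.mul_apply, Am, Jm, one_mul, mul_one, Matrix.smul_apply, smul_eq_mul, sum_boole]
  rw [← card_N y]
  congr 2; ext z; simp only [mem_filter, mem_univ, true_and, mem_N]; exact ⟨s.symm, s.symm⟩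

theorem JJ : Jm X * Jm X = (Fintype.card X : ℂ) • Jm X := by
  ext x y; simp [Matrix.mul_apply, Jm]

open Classical in
theorem AA : s.Am * s.Am = (s.k : ℂ) • (1 : Matrix X X ℂ) + (s.lam : ℂ) • s.Am +
    (s.mu : ℂ) • (Jm X - 1 - s.Am) := by
  ext x y
  have e : (s.Am * s.Am) x y = ((s.N x ∩ s.N y).card : ℂ) := by
    simp only [Matrix.mul_apply, Am, ite_mul, one_mul, zero_mul, ← ite_and, sum_boole]
    congr 2; ext z; simp only [mem_filter, mem_univ, true_and, mem_N, mem_inter]
    exact and_congr_right fun _ => ⟨s.symm, s.symm⟩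
  rw [e]
  rcases tri (s := s) x y with rfl | h | h
  · simp [Am, Jm, s.irr, card_N]
  · simp [Am, Jm, h, card_lam h, adj_ne h]
  · simp [Am, Jm, h.1, h.2, card_mu h]

theorem srgC : (s.mu : ℂ) * Fintype.card X =
    s.k ^ 2 - s.k * (s.lam - s.mu) - (s.k - s.mu) := by
  classical
  have h1 := srg (s := s)
  have h2 := card_NΓ s.AB
  have h3 : s.k - 1 - s.lam + s.lam + 1 = s.k := by omega
  have h4 : ((s.k - 1 - s.lam : ℕ) : ℂ) = s.k - 1 - s.lam := by
    have : ((s.k - 1 - s.lam + s.lam + 1 : ℕ) : ℂ) = s.k := by rw [h3]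
    push_cast at this; linear_combination this
  have h5 : ((s.k * (s.k - 1 - s.lam) : ℕ) : ℂ) = (s.l * s.mu : ℕ) := by rw [h1]
  push_cast at h5
  rw [h4] at h5
  rw [card_X (s := s)]; push_cast
  linear_combination -h5

theorem isChar {θ d : ℂ} (hd : d ≠ 0) (h1 : 2 * θ = s.lam - s.mu + d)
    (h2 : d ^ 2 = (s.lam - s.mu) ^ 2 + 4 * (s.k - s.mu)) :
    IsCharacter G fun g => (θ * (fx (X := X) g).card - s.a1 g + s.k - θ) / d := by
  classical
  have hn : (Fintype.card X : ℂ) ≠ 0 := by
    have := card_X (s := s); exact_mod_cast (by omega : Fintype.card X ≠ 0)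
  set c : ℂ := (s.k - θ) / Fintype.card X with hc
  have hc' : c * Fintype.card X = s.k - θ := by rw [hc]; field_simp
  let E : Matrix X X ℂ := d⁻¹ • (θ • 1 - s.Am + c • Jm X)
  have hE : E * E = E := by
    have e1 : θ * θ + s.k - s.mu = d * θ := by
      linear_combination (θ / 2 + (s.lam - s.mu - d) / 4) * h1 - (1 / 4) * h2
    have e2 : s.lam - s.mu - 2 * θ = -d := by linear_combination -h1
    have e3 : s.mu + 2 * c * (θ - s.k) + c * c * Fintype.card X = d * c := by
      apply mul_right_cancel₀ hn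
      have := srgC (s := s)
      linear_combination this + (2 * (θ - s.k) + c * Fintype.card X + (s.k - θ) - d) * hc'
        - e1 + s.k * h1
    have : (θ • 1 - s.Am + c • Jm X) * (θ • 1 - s.Am + c • Jm X) =
        d • (θ • (1 : Matrix X X ℂ) - s.Am + c • Jm X) := by
      have : (θ • 1 - s.Am + c • Jm X) * (θ • 1 - s.Am + c • Jm X) =
          (θ * θ + s.k - s.mu) • (1 : Matrix X X ℂ) + ((s.lam : ℂ) - s.mu - 2 * θ) • s.Am +
            (s.mu + 2 * c * (θ - s.k) + c * c * Fintype.card X) • Jm X := by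
        simp only [add_mul, mul_add, sub_mul, mul_sub, smul_mul_assoc, mul_smul_comm, one_mul,
          mul_one, AA, AJ, JA, JJ]
        module
      rw [this, e1, e2, e3]; module
    simp only [E, smul_mul_assoc, mul_smul_comm, this, smul_smul]
    congr 1; field_simp
  let ρ : Representation ℂ G (X → ℂ) :=
    { toFun := fun g => Matrix.toLin' (Pm X g)
      map_one' := by
        rw [show Pm X (1 : G) = 1 by ext x y; simp [Pm, Matrix.one_apply]]
        exact Matrix.toLin'_one
      map_mul' := fun g h => by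
        rw [show Pm X (g * h) = Pm X g * Pm X h by ext x y; rw [mul_Pm]; simp [Pm, mul_smul]]
        exact Matrix.toLin'_mul _ _ }
  have hcomm : ∀ g : G, E * Pm X g = Pm X g * E := fun g => by
    ext x y
    rw [mul_Pm, Pm_mul]
    have e1 : s.adj x (g • y) ↔ s.adj (g⁻¹ • x) y := by
      rw [← adj_smul g (g⁻¹ • x) y]; simp
    simp [E, Am, Jm, Matrix.one_apply, e1, inv_smul_eq_iff]
  have := Cfsg.Agent.Char.isChar_trace_idem ρ (Matrix.toLin' E)
    (by rw [Module.End.mul_eq_comp, ← Matrix.toLin'_mul, hE])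
    (fun g => by
      change Matrix.toLin' E * Matrix.toLin' (Pm X g) = Matrix.toLin' (Pm X g) * Matrix.toLin' E
      rw [Module.End.mul_eq_comp, Module.End.mul_eq_comp, ← Matrix.toLin'_mul, ← Matrix.toLin'_mul,
        hcomm])
  convert this using 2 with g
  change _ = LinearMap.trace ℂ _ (Matrix.toLin' E * Matrix.toLin' (Pm X g))
  rw [Module.End.mul_eq_comp, ← Matrix.toLin'_mul, Matrix.trace_toLin'_eq]
  simp only [Matrix.trace, Matrix.diag_apply, mul_Pm, E, Matrix.smul_apply, Matrix.add_apply,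
    Matrix.sub_apply, smul_eq_mul, Am, Jm, Matrix.one_apply, mul_one, ← mul_sum, sum_add_distrib,
    sum_sub_distrib, sum_boole, sum_const, card_univ, nsmul_eq_mul]
  have e : (univ.filter fun x : X => x = g • x) = fx g := by ext x; simp [eq_comm]
  rw [e, mul_comm (Fintype.card X : ℂ), hc', div_eq_inv_mul]
  unfold a1; ring

theorem a1_one : s.a1 1 = 0 := by simp [a1, s.irr]

theorem fx_one : (fx (X := X) (1 : G)).card = Fintype.card X := by simp [fx]

open Classical in
theorem eig (h : ((s.lam : ℤ) - s.mu) * (s.k + s.l) + 2 * s.k ≠ 0) : ∃ θ d : ℤ, 0 < d ∧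
    2 * θ = s.lam - s.mu + d ∧ d ^ 2 = (s.lam - s.mu) ^ 2 + 4 * (s.k - s.mu) ∧
    (∀ g : G, d ∣ θ * (fx (X := X) g).card - s.a1 g + s.k - θ) ∧
    ∀ Q : Subgroup G, ∃ c : ℕ, d * c * Nat.card Q =
      ∑ g ∈ univ.filter (· ∈ Q), (θ * (fx (X := X) g).card - s.a1 g + s.k - θ) := by
  set D : ℤ := (s.lam - s.mu) ^ 2 + 4 * (s.k - s.mu) with hD
  have hDpos : 0 < D := by
    have : (s.mu : ℤ) < s.k := by exact_mod_cast mu_lt_k
    nlinarith [sq_nonneg ((s.lam : ℤ) - s.mu)]
  have hsq : IsSquare D := by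
    by_contra hns
    have hirr := (irrational_sqrt_intCast_iff_of_nonneg hDpos.le).mpr hns
    set r : ℝ := √(D : ℝ) with hr
    have hr0 : 0 < r := Real.sqrt_pos.mpr (by exact_mod_cast hDpos)
    have hr2 : r ^ 2 = D := Real.sq_sqrt (by exact_mod_cast hDpos.le)
    have hc := isChar (s := s) (θ := (s.lam - s.mu + r) / 2) (d := r)
      (by exact_mod_cast hr0.ne') (by ring) (by
        have : ((r ^ 2 : ℝ) : ℂ) = ((D : ℝ) : ℂ) := by rw [hr2]
        rw [hD] at this; push_cast at this; exact this)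
    obtain ⟨g0, hg0⟩ := Cfsg.Agent.Char.isChar_degree hc
    simp only [a1_one, fx_one, card_X (s := s)] at hg0
    have hr0' : (r : ℂ) ≠ 0 := by exact_mod_cast hr0.ne'
    rw [div_eq_iff hr0'] at hg0
    have e : r * ((2 * g0 - (s.k + s.l) : ℤ) : ℝ) =
        ((((s.lam : ℤ) - s.mu) * (s.k + s.l) + 2 * s.k : ℤ) : ℝ) := by
      apply Complex.ofReal_injective
      push_cast at hg0 ⊢
      linear_combination -2 * hg0
    have hz : (2 * g0 - (s.k + s.l) : ℤ) ≠ 0 := by
      intro hz; rw [hz] at e; simp only [Int.cast_zero, mul_zero] at e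
      exact h (by exact_mod_cast e.symm)
    exact (hirr.mul_intCast hz).ne_int _ e
  obtain ⟨r, hr⟩ := hsq
  have hr0 : r ≠ 0 := by rintro rfl; omega
  have hd2 : |r| ^ 2 = D := by rw [sq_abs, hr]; ring
  have hpar : Even ((s.lam : ℤ) - s.mu + |r|) := by
    have : Even ((|r| - (s.lam - s.mu)) * (s.lam - s.mu + |r|)) :=
      ⟨2 * (s.k - s.mu), by linear_combination hd2 + hD⟩
    rcases Int.even_mul.mp this with ⟨a, ha⟩ | h'
    · exact ⟨a + (s.lam - s.mu), by linear_combination ha⟩
    · exact h'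
  obtain ⟨θ, hθ⟩ := hpar
  have hd0 : 0 < |r| := abs_pos.mpr hr0
  have hdc : ((|r| : ℤ) : ℂ) ≠ 0 := by exact_mod_cast hd0.ne'
  have hc := isChar (s := s) (θ := θ) (d := (|r| : ℤ)) hdc
    (by have : (((s.lam : ℤ) - s.mu + |r| : ℤ) : ℂ) = (θ + θ : ℤ) := by rw [hθ]
        push_cast at this ⊢; linear_combination -this)
    (by have : ((|r| ^ 2 : ℤ) : ℂ) = (D : ℤ) := by rw [hd2]
        rw [hD] at this; push_cast at this ⊢; exact this)
  refine ⟨θ, |r|, hd0, by linear_combination -hθ, hd2, fun g => ?_, fun Q => ?_⟩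
  · refine int_dvd_of_isIntegral hd0.ne' ?_
    have := Cfsg.Agent.Char.isChar_isIntegral hc g
    push_cast at this ⊢; exact this
  · obtain ⟨c, hc'⟩ := Cfsg.Agent.Char.classInner_isChar_nat
      (Cfsg.Agent.Char.IndRep.isChar_comp' hc Q.subtype) Cfsg.Agent.Char.isChar_one
    refine ⟨c, ?_⟩
    have hQ : (Nat.card Q : ℂ) ≠ 0 := by exact_mod_cast (Nat.card_pos (α := Q)).ne'
    simp only [classInner, map_one, mul_one, Subgroup.coe_subtype] at hc'
    rw [← Finset.sum_subtype (univ.filter (· ∈ Q)) (by simp) (fun g : G =>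
      ((θ : ℂ) * (fx (X := X) g).card - s.a1 g + s.k - θ) / ((|r| : ℤ) : ℂ)), ← Finset.sum_div]
      at hc'
    apply Int.cast_injective (α := ℂ)
    rw [inv_mul_eq_iff_eq_mul₀ hQ, div_eq_iff hdc] at hc'
    push_cast at hc' ⊢
    rw [hc']; ring

end St

end Cfsg.Agent.Part.Rk
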