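import Mathlib
import Cfsg.Agent.Part.Rk1

/-!
# Rank 3 groups with a Frobenius suborbit: the generalized quadrangle case
-/

set_option autoImplicit false

namespace Cfsg.Agent.Part.Rk

open MulAction Finset Subgroup

variable {G X : Type*} [Group G] [Fintype G] [Fintype X] [MulAction G X]

namespace St

variable {s : St G X}

open Classical in
noncomputable def lam' (s : St G X) : ℕ := (s.Γ s.A ∩ s.Γ s.C).card
open Classical in
noncomputable def mu' (s : St G X) : ℕ := (s.Γ s.A ∩ s.Γ s.B).card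

open Classical in
theorem card_lam' {x y : X} (h : s.na x y) : (s.Γ x ∩ s.Γ y).card = s.lam' := by
  obtain ⟨g, rfl, rfl⟩ := trn naAC h
  exact (card_inter_smul g _ _ _ _ (fun x => (na_smul g _ _).symm)
    (fun x => (na_smul g _ _).symm)).symm

open Classical in
theorem card_mu' {x y : X} (h : s.adj x y) : (s.Γ x ∩ s.Γ y).card = s.mu' := by
  obtain ⟨g, rfl, rfl⟩ := s.tr1 s.AB h
  exact (card_inter_smul g _ _ _ _ (fun x => (na_smul g _ _).symm)
    (fun x => (na_smul g _ _).symm)).symm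

open Classical in
theorem card_NΓ' {x y : X} (h : s.na x y) : (s.N x ∩ s.Γ y).card + s.mu = s.k := by
  rw [← card_N x, ← card_mu h, ← card_union_of_disjoint
    (by rw [disjoint_left]; intro a h1 h2; simp [na] at h1 h2; tauto)]
  congr 1; ext z
  have := tri (s := s) y z
  simp only [mem_N, mem_union, mem_inter, mem_Γ]
  refine ⟨by tauto, fun h1 => ?_⟩
  rcases this with rfl | h2 | h2
  · exact absurd h1 h.2
  · tauto
  · tauto

theorem l_eq : s.l + s.mu = s.lam' + 1 + s.k := by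
  classical
  have h := naAC (s := s)
  have : s.Γ s.C = insert s.A ((s.Γ s.A ∩ s.Γ s.C) ∪ (s.N s.A ∩ s.Γ s.C)) := by
    ext z; have := tri (s := s) s.A z
    have := h.symm
    simp only [mem_N, mem_insert, mem_union, mem_inter, mem_Γ]
    constructor
    · tauto
    · rintro (rfl | h | h) <;> tauto
  have e := card_NΓ' h
  rw [← card_Γ s.C, this, card_insert_of_notMem (by simp [s.irr, na]), card_union_of_disjoint
    (by rw [disjoint_left]; intro a h1 h2; simp [na] at h1 h2; tauto), card_lam' h]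
  omega

theorem srg' : s.k * s.mu' = s.l * (s.k - s.mu) := by
  classical
  have := Finset.sum_card_bipartiteAbove_eq_sum_card_bipartiteBelow (s := s.N s.A) (t := s.Γ s.A)
    (r := s.na)
  rw [sum_congr rfl (g := fun _ => s.mu'), sum_congr (s₂ := s.Γ s.A) rfl
    (g := fun _ => s.k - s.mu)] at this
  · simpa [k, l] using this
  · intro c hc
    have := card_NΓ' (mem_Γ.mp hc)
    have e : bipartiteBelow s.na (s.N s.A) c = s.N s.A ∩ s.Γ c := by
      ext z; simp only [bipartiteBelow, mem_filter, mem_N, mem_inter, mem_Γ]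
      exact and_congr_right fun _ => ⟨na.symm, na.symm⟩
    rw [e]; omega
  · intro b hb
    rw [← card_mu' (mem_N.mp hb)]
    congr 1; ext z; simp [bipartiteAbove]

/-- An equivariant family of abelian subgroups giving lines. -/
structure GQ (s : St G X) (Z : X → Subgroup G) : Prop where
  le : ∀ v, Z v ≤ s.K v
  comm : ∀ v, ∀ a ∈ Z v, ∀ b ∈ Z v, a * b = b * a
  conj : ∀ (g : G) v a, g * a * g⁻¹ ∈ Z (g • v) ↔ a ∈ Z v
  sym : ∀ {x y}, s.na x y → ∀ a ∈ Z x, a • y = y → a ∈ Z y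
  ne : ∀ {x y}, s.na x y → ∃ a ∈ Z x, a ≠ 1 ∧ a • y = y

/-- The subgroup attached to a pair. -/
def W (Z : X → Subgroup G) (x y : X) : Subgroup G := Z x ⊓ stabilizer G y

open Classical in
noncomputable def cl (s : St G X) (Z : X → Subgroup G) (x y : X) : Finset X :=
  (s.Γ x).filter fun z => W Z x z = W Z x y

namespace GQ

variable {Z : X → Subgroup G} (q : GQ s Z)
include q

theorem card_W {x y : X} (h : s.na x y) : Nat.card (W Z x y) = Nat.card (W Z s.A s.C) := by
  obtain ⟨g, rfl, rfl⟩ := trn naAC h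
  exact (card_conj_eq _ _ g fun a => by
    simp only [W, Subgroup.mem_inf, mem_stabilizer_iff, conj_fix, q.conj]).symm

theorem W_symm {x y : X} (h : s.na x y) : W Z x y = W Z y x := by
  ext a
  exact ⟨fun ha => ⟨q.sym h a ha.1 ha.2, K_fix (q.le _ ha.1)⟩,
    fun ha => ⟨q.sym h.symm a ha.1 ha.2, K_fix (q.le _ ha.1)⟩⟩

theorem eqW {x y z : X} (h : s.na x y) (h' : s.na x z) (hz : ∀ a ∈ W Z x y, a • z = z) :
    W Z x y = W Z x z :=
  eq_of_le_of_card_ge (fun a ha => ⟨ha.1, hz a ha⟩) (by rw [q.card_W h, q.card_W h'])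

theorem not_adj {x y z z' : X} (h : s.na x y) (hz : ∀ a ∈ W Z x y, a • z = z)
    (hz' : ∀ a ∈ W Z x y, a • z' = z') : ¬ s.adj z z' := fun h' => by
  obtain ⟨a, h1, h2, h3⟩ := q.ne h
  exact h2 (K_free (K_of_K (q.le _ h1) (hz a ⟨h1, h3⟩)) h' (hz' a ⟨h1, h3⟩))

theorem fixl {x y : X} : ∀ a ∈ W Z x y, a • x = x := fun _ ha => K_fix (q.le _ ha.1)

theorem triW {x y z : X} (h1 : s.na x y) (h2 : s.na x z) (h3 : s.na y z) :
    W Z x y = W Z x z := by
  by_contra hne
  have key : ∀ w ∈ W Z y z, w • x = x := fun w hw => by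
    by_contra hx
    have f1 : ∀ a ∈ W Z x y, a • w • x = w • x := fun a ha => by
      rw [← mul_smul, q.comm y a (q.sym h1 a ha.1 ha.2) w hw.1, mul_smul, q.fixl a ha]
    have f2 : ∀ a ∈ W Z x z, a • w • x = w • x := fun a ha => by
      rw [← mul_smul, q.comm z a (q.sym h2 a ha.1 ha.2) w (q.sym h3 w hw.1 hw.2), mul_smul,
        q.fixl a ha]
    have h4 : s.na x (w • x) := ⟨Ne.symm hx, q.not_adj h1 q.fixl f1⟩
    exact hne ((q.eqW h1 h4 f1).trans (q.eqW h2 h4 f2).symm)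
  have e1 := q.eqW h3 h1.symm key
  have e2 := q.eqW h3.symm h2.symm (by rw [← q.W_symm h3]; exact key)
  exact hne (by rw [q.W_symm h1, q.W_symm h2, ← e1, ← e2, q.W_symm h3])

theorem card_cl {x y : X} (h : s.na x y) : (cl s Z x y).card = s.lam' + 1 := by
  classical
  have : cl s Z x y = insert y (s.Γ x ∩ s.Γ y) := by
    ext z
    simp only [cl, mem_filter, mem_Γ, mem_insert, mem_inter]
    refine ⟨fun ⟨h1, h2⟩ => or_iff_not_imp_left.mpr fun h3 => ⟨h1, Ne.symm h3,
      q.not_adj h (fun a ha => ha.2) (fun a ha => (h2 ▸ ha : a ∈ W Z x z).2)⟩, ?_⟩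
    rintro (rfl | ⟨h1, h2⟩)
    · exact ⟨h, rfl⟩
    · exact ⟨h1, (q.triW h h1 h2).symm⟩
  rw [this, card_insert_of_notMem (by simp [na]), card_lam' h]

theorem mul_le (T : Finset X) (hT : ∀ y ∈ T, s.na s.A y)
    (hd : ∀ y ∈ T, ∀ z ∈ T, W Z s.A y = W Z s.A z → y = z) : T.card * (s.lam' + 1) ≤ s.l := by
  classical
  rw [← card_Γ s.A, ← smul_eq_mul, ← sum_const,
    ← sum_congr rfl fun y hy => q.card_cl (hT y hy), ← card_biUnion]
  · exact card_le_card (biUnion_subset.mpr fun y _ => filter_subset _ _)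
  · intro y hy z hz hne
    rw [Function.onFun, disjoint_left]
    intro a h1 h2
    simp only [cl, mem_filter] at h1 h2
    exact hne (hd y hy z hz (h1.2.symm.trans h2.2))

theorem mu'_le : s.mu' * (s.lam' + 1) ≤ s.l := by
  classical
  refine q.mul_le _ (fun y hy => mem_Γ.mp (mem_inter.mp hy).1) fun y hy z hz he => ?_
  simp only [mem_inter, mem_Γ] at hy hz
  by_contra hne
  have f1 : ∀ a ∈ W Z s.A y, a • z = z := fun a ha => (he ▸ ha : a ∈ W Z s.A z).2
  have h3 : s.na y z := ⟨hne, q.not_adj hy.1 (fun a ha => ha.2) f1⟩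
  have e1 := q.triW hy.2.symm h3 hz.2
  have e2 := q.triW hy.1.symm h3 hz.1
  refine q.not_adj hy.1 q.fixl (fun a ha => ?_) s.AB
  rw [q.W_symm hy.1, e2, ← e1] at ha
  exact ha.2

theorem two_le : 2 * (s.lam' + 1) ≤ s.l := by
  classical
  obtain ⟨C', h1, h2, h3⟩ := s.ex1
  have := q.mul_le {s.C, C'} (by simpa using ⟨naAC, h1, h2⟩) (by
    have : W Z s.A s.C ≠ W Z s.A C' := fun he => q.not_adj naAC (fun a ha => ha.2)
      (fun a ha => (he ▸ ha : a ∈ W Z s.A C').2) h3
    simp only [mem_insert, mem_singleton]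
    rintro y (rfl | rfl) z (rfl | rfl) h
    · rfl
    · exact absurd h this
    · exact absurd h.symm this
    · rfl)
  rwa [card_pair (adj_ne h3)] at this

theorem ineq : (s.lam' + 1) * (s.l - (s.lam' + 1)) ≤ s.k := by
  have h1 := q.mu'_le
  have h2 := q.two_le
  have h3 := srg' (s := s)
  have h4 := l_eq (s := s)
  have h5 := mu_lt_k (s := s)
  have e : s.k - s.mu = s.l - (s.lam' + 1) := by omega
  rw [e] at h3
  refine Nat.le_of_mul_le_mul_left (c := s.l) ?_ (by omega)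
  calc s.l * ((s.lam' + 1) * (s.l - (s.lam' + 1))) = s.k * (s.mu' * (s.lam' + 1)) := by
        rw [← mul_assoc s.k, h3]; ring
    _ ≤ s.k * s.l := Nat.mul_le_mul_left _ h1
    _ = _ := mul_comm _ _

end GQ

/-- Two commuting-closed subgroups meeting trivially inside an abelian one. -/
theorem card_mul_le {P Q R : Subgroup G} (hP : P ≤ R) (hQ : Q ≤ R)
    (h : ∀ a ∈ P, a ∈ Q → a = 1) : Nat.card P * Nat.card Q ≤ Nat.card R := by
  rw [← Nat.card_prod]
  refine Nat.card_le_card_of_injective (fun x : P × Q => (⟨x.1 * x.2, mul_mem (hP x.1.2) (hQ x.2.2)⟩ : R))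
    fun x y hxy => ?_
  have e : (x.1 : G) * x.2 = y.1 * y.2 := congrArg Subtype.val hxy
  have e2 : (y.1 : G)⁻¹ * x.1 = y.2 * (x.2 : G)⁻¹ := by
    rw [inv_mul_eq_iff_eq_mul, ← mul_assoc, ← e]; group
  have := h _ (mul_mem (inv_mem y.1.2) x.1.2) (e2 ▸ mul_mem y.2.2 (inv_mem x.2.2))
  have e3 : (y.1 : G) = x.1 := inv_mul_eq_one.mp this
  rw [e3] at e
  exact Prod.ext (Subtype.ext e3.symm) (Subtype.ext (mul_left_cancel e))

/-- The dihedral argument. -/
theorem dih {a b : G} (ha : a * a = 1) (hb : b * b = 1) {x y : X} (F : Set X) (hx : x ∈ F)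
    (haF : ∀ v ∈ F, a • v ∈ F) (hbF : ∀ v ∈ F, b • v ∈ F) (hax : a • x = x) (hby : b • y = y)
    (ha1 : ∀ v ∈ F, a • v = v → v = x) (hb1 : ∀ v ∈ F, b • v = v → v = y) :
    ∃ j : ℕ, ((a * b) ^ j * a) * ((a * b) ^ j * a) = 1 ∧ ((a * b) ^ j * a) • x = y ∧
      (a * b) ^ (2 * j + 1) • x = x ∧ (a * b) ^ (2 * j + 1) • y = y := by
  have hai : a⁻¹ = a := inv_eq_of_mul_eq_one_right ha
  have hbi : b⁻¹ = b := inv_eq_of_mul_eq_one_right hb
  have c1 : ∀ j : ℕ, a * (a * b) ^ j * a = ((a * b) ^ j)⁻¹ := fun j => by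
    have : a * (a * b) * a⁻¹ = (a * b)⁻¹ := by
      rw [mul_inv_rev, hai, hbi, ← mul_assoc, ha, one_mul]
    rw [← inv_pow, ← this, conj_pow, hai]
  have hF : ∀ j : ℕ, (a * b) ^ j • x ∈ F := fun j => by
    induction j with
    | zero => simpa using hx
    | succ j ih => rw [pow_succ', mul_smul, mul_smul]; exact haF _ (hbF _ ih)
  have c2 : ∀ j : ℕ, a • (a * b) ^ j • x = ((a * b) ^ j)⁻¹ • x := fun j => by
    rw [← c1, mul_smul, mul_smul, hax]
  have hex : ∃ o : ℕ, 0 < o ∧ (a * b) ^ o • x = x :=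
    ⟨orderOf (a * b), orderOf_pos _, by rw [pow_orderOf_eq_one, one_smul]⟩
  classical
  obtain ⟨ho, hox⟩ := Nat.find_spec hex
  have hmin := fun j (hj : j < Nat.find hex) => Nat.find_min hex hj
  obtain ⟨j, hj | hj⟩ := Nat.even_or_odd' (Nat.find hex)
  · exfalso
    rw [hj] at ho hox hmin
    refine hmin j (by omega) ⟨by omega, ha1 _ (hF j) ?_⟩
    rw [c2, inv_smul_eq_iff, ← mul_smul, ← pow_add, ← two_mul, hox]
  · rw [hj] at hox
    have e : (a * b) ^ j • x = y := hb1 _ (hF j) (by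
      have : b = a * (a * b) := by rw [← mul_assoc, ha, one_mul]
      conv_lhs => rw [this]
      rw [mul_smul, ← this, ← mul_smul (a * b), ← pow_succ', c2, inv_smul_eq_iff, ← mul_smul,
        ← pow_add, show j + 1 + j = 2 * j + 1 by ring, hox])
    refine ⟨j, ?_, by rw [mul_smul, hax, e], hox, ?_⟩
    · rw [mul_assoc, ← mul_assoc a, c1, mul_inv_cancel]
    · rw [← e, ← mul_smul, ← pow_add, add_comm, pow_add, mul_smul, hox]

end St

end Cfsg.Agent.Part.Rk
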