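import Mathlib
import Cfsg.Agent.Part.Rk3
import Cfsg.Agent.RankOne.Nilp

/-!
# Rank 3 groups with a Frobenius suborbit: complement of odd order
-/

set_option autoImplicit false

namespace Cfsg.Agent.Part.Rk

open MulAction Finset Subgroup

theorem exists_central_inv {Q : Type*} [Group Q] [Finite Q] [Group.IsNilpotent Q]
    (h : Even (Nat.card Q)) : ∃ z : Q, z ≠ 1 ∧ z * z = 1 ∧ ∀ y, z * y = y * z := by
  obtain ⟨P⟩ : Nonempty (Sylow 2 Q) := inferInstance
  have hP1 : (P : Subgroup Q) ≠ ⊥ := fun e => by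
    have h1 := P.not_dvd_index
    rw [e, Subgroup.index_bot] at h1
    exact h1 (even_iff_two_dvd.mp h)
  have hne := Cfsg.Agent.RankOne.inf_center_ne_bot (N := (P : Subgroup Q)) inferInstance hP1
  have hp : IsPGroup 2 ↥((P : Subgroup Q) ⊓ center Q) := P.isPGroup'.to_le inf_le_left
  obtain ⟨n, hn⟩ := IsPGroup.iff_card.mp hp
  have : 2 ∣ Nat.card ↥((P : Subgroup Q) ⊓ center Q) := by
    rw [hn]
    rcases n with _ | n
    · exact absurd (Subgroup.eq_bot_of_card_eq _ (by simpa using hn)) hne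
    · exact ⟨2 ^ n, by ring⟩
  obtain ⟨z, hz⟩ := exists_prime_orderOf_dvd_card' 2 this
  rw [← Subgroup.orderOf_coe] at hz
  refine ⟨z, by rintro e; rw [e] at hz; simp at hz, by
    have := pow_orderOf_eq_one (z : Q); rwa [hz, sq] at this,
    fun y => (mem_center_iff.mp z.2.2 y).symm⟩

variable {G X : Type*} [Group G] [Fintype G] [Fintype X] [MulAction G X]

namespace St

variable {s : St G X}

/-- Central involutions of the kernel. -/
def Z2 (s : St G X) (v : X) : Subgroup G where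
  carrier := {z | z ∈ s.K v ∧ (∀ y ∈ s.K v, z * y = y * z) ∧ z * z = 1}
  one_mem' := ⟨one_mem _, by simp, by simp⟩
  mul_mem' := fun {a b} ha hb => ⟨mul_mem ha.1 hb.1, fun y hy => by
    rw [mul_assoc, hb.2.1 y hy, ← mul_assoc, ha.2.1 y hy, mul_assoc], by
    rw [mul_assoc, ← mul_assoc b, ← ha.2.1 b hb.1, mul_assoc, hb.2.2, mul_one, ha.2.2]⟩
  inv_mem' := fun {a} ha => by rwa [inv_eq_of_mul_eq_one_right ha.2.2]

theorem Z2_conj (g : G) (v : X) (a : G) : g * a * g⁻¹ ∈ s.Z2 (g • v) ↔ a ∈ s.Z2 v := by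
  have key : ∀ (g : G) (v : X) (a : G), a ∈ s.Z2 v → g * a * g⁻¹ ∈ s.Z2 (g • v) := by
    intro g v a ha
    refine ⟨(K_conj g v a).mpr ha.1, fun y hy => ?_, ?_⟩
    · have := ha.2.1 (g⁻¹ * y * g) ((K_conj g v _).mp (by simpa [mul_assoc] using hy))
      calc g * a * g⁻¹ * y = g * (a * (g⁻¹ * y * g)) * g⁻¹ := by group
        _ = _ := by rw [this]; group
    · calc g * a * g⁻¹ * (g * a * g⁻¹) = g * (a * a) * g⁻¹ := by group
        _ = _ := by rw [ha.2.2]; group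
  exact ⟨fun h => by simpa [mul_assoc] using key g⁻¹ _ _ h, key g v a⟩

theorem card_L0 {x y : X} (h : s.na x y) : Nat.card ↥(s.K x ⊓ stabilizer G y) =
    Nat.card ↥(s.K s.A ⊓ stabilizer G s.C) := by
  obtain ⟨g, rfl, rfl⟩ := trn naAC h
  exact (card_conj_eq _ _ g fun a => by
    simp only [Subgroup.mem_inf, mem_stabilizer_iff, conj_fix, K_conj]).symm

theorem L0_symm (x y : X) : s.K x ⊓ stabilizer G y = s.K y ⊓ stabilizer G x := by
  ext a
  exact ⟨fun h => ⟨K_of_K h.1 h.2, K_fix h.1⟩, fun h => ⟨K_of_K h.1 h.2, K_fix h.1⟩⟩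

theorem na_of_K {x y : X} {a : G} (ha : a ∈ s.K x) (h1 : a ≠ 1) (h2 : a • y = y) (h : x ≠ y) :
    s.na x y := ⟨h, fun h' => h1 (K_free ha h' h2)⟩

theorem fix_uniq {x y v : X} (h : s.na x y) {a : G} (ha : a ∈ s.K x) (hy : a • y ≠ y)
    (hv : ∀ c ∈ s.K x ⊓ stabilizer G y, c • v = v) (hav : a • v = v) : v = x := by
  by_contra hne
  have h1 := na_of_K ha (by rintro rfl; simp at hy) hav (Ne.symm hne)
  have : s.K x ⊓ stabilizer G y = s.K x ⊓ stabilizer G v :=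
    eq_of_le_of_card_ge (fun c hc => ⟨hc.1, hv c hc⟩) (by rw [card_L0 h, card_L0 h1])
  exact hy (this.symm ▸ (⟨ha, hav⟩ : a ∈ s.K x ⊓ stabilizer G v) : a ∈ s.K x ⊓ stabilizer G y).2

theorem swap {x y : X} (h : s.na x y) {a b : G} (ha : a ∈ s.Z2 x) (hb : b ∈ s.Z2 y)
    (hy : a • y ≠ y) (hx : b • x ≠ x) : ∃ t : G, t * t = 1 ∧ t • x = y ∧
      (∀ c ∈ s.K x ⊓ stabilizer G y, t * c = c * t) ∧
      ∃ r ∈ s.Z2 y, r • x = x ∧ t * a * t⁻¹ = r * b := by
  have ca : ∀ c ∈ s.K x ⊓ stabilizer G y, a * c = c * a := fun c hc => ha.2.1 c hc.1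
  have cb : ∀ c ∈ s.K x ⊓ stabilizer G y, b * c = c * b := fun c hc =>
    hb.2.1 c (K_of_K hc.1 hc.2)
  obtain ⟨j, h1, h2, h3, -⟩ := dih ha.2.2 hb.2.2 (x := x) (y := y)
    {v | ∀ c ∈ s.K x ⊓ stabilizer G y, c • v = v} (fun c hc => K_fix hc.1)
    (fun v hv c hc => by rw [← mul_smul, ← ca c hc, mul_smul, hv c hc])
    (fun v hv c hc => by rw [← mul_smul, ← cb c hc, mul_smul, hv c hc])
    (K_fix ha.1) (K_fix hb.1) (fun v hv => fix_uniq h ha.1 hy hv)
    (fun v hv => fix_uniq h.symm hb.1 hx (by rw [← L0_symm]; exact hv))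
  have e : (a * b) ^ j * a * a * ((a * b) ^ j * a)⁻¹ = (a * b) ^ (2 * j + 1) * b := by
    rw [inv_eq_of_mul_eq_one_right h1, mul_assoc _ a a, ha.2.2, mul_one, pow_succ,
      mul_assoc _ _ b, mul_assoc a b b, hb.2.2, mul_one, two_mul, pow_add, mul_assoc]
  refine ⟨_, h1, h2, fun c hc => ?_, _, ?_, h3, e⟩
  · exact (((Commute.mul_left (ca c hc) (cb c hc)).pow_left j).mul_left (ca c hc))
  · have := (Z2_conj ((a * b) ^ j * a) x a).mpr ha
    rw [h2, e] at this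
    exact (mul_mem_cancel_right hb).mp this

theorem exists_Z2 (hk : Even s.k) (v : X) : ∃ a ∈ s.Z2 v, a ≠ 1 := by
  haveI := s.nil v
  obtain ⟨z, h1, h2, h3⟩ := exists_central_inv (Q := s.K v) (by rwa [card_K])
  exact ⟨z, ⟨z.2, fun y hy => congrArg Subtype.val (h3 ⟨y, hy⟩), congrArg Subtype.val h2⟩,
    fun e => h1 (Subtype.ext e)⟩

theorem exists_move (hk : Even s.k) {x y : X} (h : s.na x y) : ∃ a ∈ s.Z2 x, a • y ≠ y := by
  by_contra hc
  push Not at hc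
  obtain ⟨C', h1, h2, h3⟩ := s.ex1
  obtain ⟨a, ha, ha1⟩ := exists_Z2 hk s.A
  have key : ∀ z, s.na s.A z → a • z = z := fun z hz => by
    obtain ⟨g, rfl, rfl⟩ := trn hz h
    exact (conj_fix g a z).mp (hc _ ((Z2_conj g _ a).mpr ha))
  exact ha1 (K_free (K_of_K ha.1 (key _ naAC)) h3 (key _ ⟨h1, h2⟩))

theorem m_dvd_Z2 : s.m ∣ Nat.card (s.Z2 s.A) - 1 := by
  classical
  have := dvd_card_of_free (S2 G s.A s.B) ((univ.filter (· ∈ s.Z2 s.A)).erase 1)
    (fun g a => g * a * g⁻¹) (by simp) (by simp [mul_assoc]) (fun g hg y hy => by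
      simp only [mem_erase, mem_filter, mem_univ, true_and] at hy ⊢
      refine ⟨by simpa [mul_inv_eq_one] using hy.1, ?_⟩
      have := (Z2_conj g _ y).mpr hy.2
      rwa [hg.1] at this)
    (fun g hg y hy h => by
      simp only [mem_erase, mem_filter, mem_univ, true_and] at hy
      exact K_free (mem_K_of_comm hg.1 hy.2.1 hy.1 (mul_inv_eq_iff_eq_mul.mp h)) s.AB hg.2)
  rwa [card_erase_of_mem (by simpa using one_mem _), card_sub_eq] at this

theorem card_Z2 (v : X) : Nat.card (s.Z2 v) = Nat.card (s.Z2 s.A) := by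
  obtain ⟨g, rfl⟩ := s.tr0 s.A v
  exact (card_conj_eq _ _ g fun a => (Z2_conj g _ a).symm).symm

theorem m_lt_Z2 (hk : Even s.k) : s.m < Nat.card (s.Z2 s.A) := by
  obtain ⟨a, ha, ha1⟩ := exists_Z2 hk s.A
  have : 1 < Nat.card (s.Z2 s.A) := (one_lt_card_iff_ne_bot _).mpr fun e => ha1 (by rwa [e] at ha)
  have := Nat.le_of_dvd (by omega) (m_dvd_Z2 (s := s))
  omega

theorem cop_el (h : s.K s.A ⊓ stabilizer G s.C = ⊥) : Nat.Coprime s.el s.k := by
  refine Nat.coprime_of_dvd fun p hp h1 h2 => ?_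
  haveI := Fact.mk hp
  obtain ⟨g, hg⟩ := exists_prime_orderOf_dvd_card' (G := S2 G s.A s.C) p h1
  rw [← Subgroup.orderOf_coe] at hg
  have : (g : G) ∈ s.K s.A ⊓ stabilizer G s.C := ⟨mem_K_of_pow g.2.1 (j := p)
    (hg ▸ pow_orderOf_eq_one _) (cop.coprime_dvd_left h2), g.2.2⟩
  rw [h, mem_bot] at this
  rw [this, orderOf_one] at hg
  exact hp.one_lt.ne hg

theorem L0_ne (hk : Even s.k) : s.K s.A ⊓ stabilizer G s.C ≠ ⊥ := by
  classical
  intro h0
  have h := naAC (s := s)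
  obtain ⟨a, ha, hy⟩ := exists_move hk h
  have triv : ∀ b ∈ s.K s.C, b • s.A = s.A → b = 1 := fun b hb h1 => by
    have : b ∈ s.K s.C ⊓ stabilizer G s.A := ⟨hb, h1⟩
    rwa [L0_symm, h0] at this
  have ex : ∀ b ∈ (univ.filter (· ∈ s.Z2 s.C)).erase 1,
      ∃ t : G, t * t = 1 ∧ t • s.A = s.C ∧ t * a * t⁻¹ = b := fun b hb => by
    simp only [mem_erase, mem_filter, mem_univ, true_and] at hb
    obtain ⟨t, h1, h2, -, r, h3, h4, h5⟩ := swap h ha hb.2 hy fun e => hb.1 (triv b hb.2.1 e)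
    exact ⟨t, h1, h2, by rw [h5, triv r h3.1 h4, one_mul]⟩
  choose! f f1 f2 f3 using ex
  obtain ⟨b0, hb0, hb1⟩ := exists_Z2 hk s.C
  have hb0' : b0 ∈ (univ.filter (· ∈ s.Z2 s.C)).erase 1 := by simpa using ⟨hb1, hb0⟩
  have f4 : ∀ b ∈ (univ.filter (· ∈ s.Z2 s.C)).erase 1, f b • s.C = s.A := fun b hb => by
    rw [← f2 b hb, ← mul_smul, f1 b hb, one_smul]
  have hle := card_le_card_of_injOn (s := (univ.filter (· ∈ s.Z2 s.C)).erase 1)
    (t := univ.filter (· ∈ S2 G s.A s.C)) (fun b => f b0 * f b) (fun b hb => by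
      simp only [coe_filter, mem_univ, true_and, Set.mem_setOf_eq, mem_S2, mul_smul]
      rw [f2 b hb, f4 b hb, f4 b0 hb0', f2 b0 hb0']; exact ⟨rfl, rfl⟩)
    (fun b hb b' hb' e => by rw [← f3 b hb, ← f3 b' hb', mul_left_cancel e])
  rw [card_erase_of_mem (by simpa using one_mem _), card_sub_eq, card_sub_eq, card_Z2] at hle
  have h1 := m_lt_Z2 hk
  have h2 : s.el ∣ s.m := (cop_el h0).dvd_of_dvd_mul_left (km_eq (s := s) ▸ Dvd.intro_left _ rfl)
  have h3 : s.el = s.m := le_antisymm (Nat.le_of_dvd (by have := one_lt_m (s := s); omega) h2)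
    (by unfold el; omega)
  have h4 : s.k = s.l := by
    have := km_eq (s := s)
    rw [h3] at this
    exact Nat.eq_of_mul_eq_mul_right (by have := one_lt_m (s := s); omega) this
  obtain ⟨g, hg, hg1⟩ : ∃ g ∈ S2 G s.A s.C, g ≠ 1 := by
    by_contra hc
    push Not at hc
    have : S2 G s.A s.C = ⊥ := eq_bot_iff.mpr hc
    have h5 := one_lt_m (s := s)
    rw [← h3, el, this, card_bot] at h5
    omega
  have hgK : g ∉ s.K s.A := fun hK => hg1 (by
    have : g ∈ s.K s.A ⊓ stabilizer G s.C := ⟨hK, hg.2⟩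
    rwa [h0] at this)
  obtain ⟨b, hb, hgb⟩ := exists_fix hg.1 hgK
  have horb : (univ.filter fun y => ∃ c ∈ s.K s.A, c • s.C = y) = s.Γ s.A := by
    have := orb_card (s.K s.A) s.C (univ.filter fun y => ∃ c ∈ s.K s.A, c • s.C = y) (by simp)
    rw [h0, card_bot, mul_one, card_K, h4] at this
    refine eq_of_subset_of_card_le (fun y hy => ?_) (by rw [this]; rfl)
    obtain ⟨c, hc, rfl⟩ := (mem_filter.mp hy).2
    have := (na_smul c _ _).mpr h
    rwa [K_fix hc, ← mem_Γ] at this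
  have hfx : fx (X := X) g = {s.A, b, s.C} := by
    ext v
    simp only [mem_fx, mem_insert, mem_singleton]
    refine ⟨fun hv => ?_, by rintro (rfl | rfl | rfl); exacts [hg.1, hgb, hg.2]⟩
    rcases tri (s := s) s.A v with h5 | h5 | h5
    · exact Or.inl h5.symm
    · exact Or.inr (Or.inl (by_contra fun e => hg1 (s.frob hg.1 h5 hb e hv hgb)))
    · rw [← mem_Γ, ← horb] at h5
      obtain ⟨c, hc, rfl⟩ := (mem_filter.mp h5).2
      have : c⁻¹ * (g * c * g⁻¹) ∈ s.K s.A ⊓ stabilizer G s.C :=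
        Subgroup.mem_inf.mpr ⟨mul_mem (inv_mem hc) (K_conj' hg.1 hc), by
          rw [mem_stabilizer_iff, mul_smul, mul_smul, mul_smul, inv_smul_eq_iff.mpr hg.2.symm, hv,
            inv_smul_smul]⟩
      rw [h0, mem_bot, inv_mul_eq_one, eq_mul_inv_iff_mul_eq] at this
      have : c = 1 := by_contra fun e => hgK (mem_K_of_comm hg.1 hc e this.symm)
      simp [this]
  have := even_fx (s := s) (g := g) fun e => hgK (mem_K_of_pow hg.1 e cop)
  rw [hfx, card_eq_three.mpr ⟨_, _, _, adj_ne hb, s.ACne, fun e => s.AC (e ▸ hb), rfl⟩] at this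
  exact absurd this (by decide)

theorem Z2_le_two (hk : Even s.k) : Nat.card (s.Z2 s.A) ≤ 2 * Nat.card (W s.Z2 s.A s.C) := by
  classical
  have h := (naAC (s := s)).symm
  obtain ⟨a, ha, hy⟩ := exists_move hk h
  obtain ⟨b, hb, hx⟩ := exists_move hk h.symm
  obtain ⟨c, hc, hc1⟩ : ∃ c ∈ s.K s.C ⊓ stabilizer G s.A, c ≠ 1 := by
    by_contra hc
    push Not at hc
    exact L0_ne hk (by rw [L0_symm]; exact eq_bot_iff.mpr hc)
  obtain ⟨t, t1, t2, t3, r, r1, r2, r3⟩ := swap h ha hb hy hx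
  have key : ∀ b' ∈ s.Z2 s.A, b' • s.C ≠ s.C → b * b' ∈ W s.Z2 s.A s.C := fun b' hb' hx' => by
    obtain ⟨t', t1', t2', t3', r', r1', r2', r3'⟩ := swap h ha hb' hy hx'
    have e1 : (t * t') • s.C = s.C := by rw [mul_smul, t2', ← t2, ← mul_smul, t1, one_smul]
    have e2 := ha.2.1 _ (mem_K_of_comm e1 hc.1 hc1 (Commute.mul_left (t3 c hc) (t3' c hc)))
    have e3 : t' * a * t'⁻¹ = t * a * t⁻¹ := by
      have : t' = t * (t * t') := by rw [← mul_assoc, t1, one_mul]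
      rw [this, mul_assoc t, ← e2]; group
    rw [r3, r3'] at e3
    refine Subgroup.mem_inf.mpr ⟨mul_mem hb hb', ?_⟩
    have e4 : b * b' = r'⁻¹ * r := by
      rw [eq_inv_mul_iff_mul_eq, ← mul_assoc, r1'.2.1 b hb.1, mul_assoc, e3, ← mul_assoc,
        ← r1.2.1 b hb.1, mul_assoc, hb.2.2, mul_one]
    rw [mem_stabilizer_iff, e4, mul_smul, r2, inv_smul_eq_iff, r2']
  rw [← card_sub_eq, ← card_sub_eq, two_mul]
  refine (card_le_card (t := univ.filter (· ∈ W s.Z2 s.A s.C) ∪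
    (univ.filter (· ∈ W s.Z2 s.A s.C)).image (b * ·)) fun z hz => ?_).trans
    ((card_union_le _ _).trans (Nat.add_le_add_left card_image_le _))
  simp only [mem_filter, mem_univ, true_and, mem_union, mem_image] at hz ⊢
  by_cases h1 : z • s.C = s.C
  · exact Or.inl ⟨hz, h1⟩
  · exact Or.inr ⟨_, key z hz h1, by rw [← mul_assoc, hb.2.2, one_mul]⟩

theorem card_WZ {x y : X} (h : s.na x y) :
    Nat.card (W s.Z2 x y) = Nat.card (W s.Z2 s.A s.C) := by
  obtain ⟨g, rfl, rfl⟩ := trn naAC h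
  exact (card_conj_eq _ _ g fun a => by
    simp only [W, Subgroup.mem_inf, mem_stabilizer_iff, conj_fix, Z2_conj]).symm

theorem gq_Z2 (hk : Even s.k) (hm : Odd s.m) : GQ s s.Z2 where
  le := fun _ _ h => h.1
  comm := fun _ _ ha _ hb => ha.2.1 _ hb.1
  conj := Z2_conj
  sym := fun {x y} h w hw hwy => by
    obtain ⟨a, ha, hy⟩ := exists_move hk h
    obtain ⟨b, hb, hx⟩ := exists_move hk h.symm
    obtain ⟨t, -, t2, t3, -⟩ := swap h ha hb hy hx
    have := (Z2_conj t x w).mpr hw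
    rwa [t2, t3 w ⟨hw.1, hwy⟩, mul_inv_cancel_right] at this
  ne := fun {x y} h => by
    have h1 := Z2_le_two hk
    have h2 := m_lt_Z2 hk
    have h3 := one_lt_m (s := s)
    obtain ⟨j, hj⟩ := hm
    rw [← card_WZ h] at h1
    by_contra hc
    push Not at hc
    have : W s.Z2 x y = ⊥ := eq_bot_iff.mpr fun a ha => by_contra fun e => hc a ha.1 e ha.2
    rw [this, card_bot] at h1
    omega

theorem not_odd_m : ¬ Odd s.m := fun hm => by
  classical
  have hk : Even s.k := even_km.resolve_right (Nat.not_even_iff_odd.mpr hm)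
  have q := gq_Z2 hk hm
  obtain ⟨C', h1, h2, h3⟩ := s.ex1
  have hC' : s.na s.A C' := ⟨h1, h2⟩
  have e1 := card_mul_le (P := W s.Z2 s.A s.C) (Q := W s.Z2 s.A C') (R := s.Z2 s.A) inf_le_left
    inf_le_left fun a ha hb => K_free (K_of_K ha.1.1 ha.2) h3 hb.2
  rw [card_WZ hC'] at e1
  have e2 := Z2_le_two hk
  have e3 := m_lt_Z2 hk
  have e4 := one_lt_m (s := s)
  have e5 := m_dvd_Z2 (s := s)
  obtain ⟨j, hj⟩ := hm
  have hw : Nat.card (W s.Z2 s.A s.C) = 2 := by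
    have : Nat.card (W s.Z2 s.A s.C) ≤ 2 := by nlinarith
    omega
  have hZ : Nat.card (s.Z2 s.A) = 4 := by omega
  have hm3 : s.m = 3 := by omega
  have uniq : ∀ {y}, s.na s.A y → ∀ a ∈ W s.Z2 s.A y, ∀ b ∈ W s.Z2 s.A y, a ≠ 1 → b ≠ 1 →
      a = b := fun {y} hy a ha b hb ha1 hb1 => by
    obtain ⟨c, -, hc⟩ := (Nat.card_eq_two_iff' (1 : W s.Z2 s.A y)).mp ((card_WZ hy).trans hw)
    exact congrArg Subtype.val ((hc ⟨a, ha⟩ fun e => ha1 (congrArg Subtype.val e)).trans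
      (hc ⟨b, hb⟩ fun e => hb1 (congrArg Subtype.val e)).symm)
  have hk3 : ¬ 3 ∣ s.k := fun h => by
    have := Nat.dvd_gcd h (hm3 ▸ dvd_rfl : 3 ∣ s.m)
    rw [cop] at this; omega
  have hl3 : ¬ 3 ∣ s.el := fun h => by
    obtain ⟨g, hg⟩ := exists_prime_orderOf_dvd_card' (G := S2 G s.A s.C) 3 h
    rw [← Subgroup.orderOf_coe] at hg
    obtain ⟨w, w1, w2, w3⟩ := q.ne naAC
    have : (g : G) * w * (g : G)⁻¹ = w := uniq naAC _ (Subgroup.mem_inf.mpr ⟨by
      have := (Z2_conj (g : G) _ w).mpr w1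
      rwa [g.2.1] at this, by
      have := (conj_fix (g : G) w s.C).mpr w3
      rwa [g.2.2] at this⟩) _ ⟨w1, w3⟩ (by simpa [mul_inv_eq_one] using w2) w2
    have := pow_k (mem_K_of_comm g.2.1 w1.1 w2 (mul_inv_eq_iff_eq_mul.mp this))
    exact hk3 (hg ▸ orderOf_dvd_of_pow_eq_one this)
  have hl : s.l ≤ 3 * (s.lam' + 1) := by
    have hsub : s.Γ s.A ⊆ ((univ.filter (· ∈ s.Z2 s.A)).erase 1).biUnion
        fun w => (s.Γ s.A).filter fun y => w • y = y := fun y hy => by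
      obtain ⟨w, w1, w2, w3⟩ := q.ne (mem_Γ.mp hy)
      exact mem_biUnion.mpr ⟨w, by simpa using ⟨w2, w1⟩, mem_filter.mpr ⟨hy, w3⟩⟩
    refine (card_le_card hsub).trans ((card_biUnion_le_card_mul _ _ (s.lam' + 1)
      fun w hw => ?_).trans ?_)
    · simp only [mem_erase, mem_filter, mem_univ, true_and] at hw
      rcases ((s.Γ s.A).filter fun y => w • y = y).eq_empty_or_nonempty with e | ⟨y, hy⟩
      · rw [e]; simp
      · simp only [mem_filter, mem_Γ] at hy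
        rw [← q.card_cl hy.1]
        refine card_le_card fun z hz => ?_
        simp only [mem_filter, mem_Γ, cl] at hz ⊢
        refine ⟨hz.1, (q.eqW hy.1 hz.1 fun a ha => ?_).symm⟩
        by_cases ha1 : a = 1
        · simp [ha1]
        · rw [uniq hy.1 a ha w ⟨hw.2, hy.2⟩ ha1 hw.1, hz.2]
    · rw [card_erase_of_mem (by simpa using one_mem _), card_sub_eq, hZ]
  have f1 := km_eq (s := s)
  have f2 : 3 ∣ s.l := (Nat.prime_three.dvd_mul.mp (by rw [← f1, hm3]; simp)).resolve_right hl3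
  have f3 := srg' (s := s)
  have f4 : 3 ∣ s.mu' :=
    (Nat.prime_three.dvd_mul.mp (f3 ▸ f2.mul_right _)).resolve_left hk3
  have f5 := q.mu'_le
  have f6 := q.two_le
  have f7 := l_eq (s := s)
  have f8 := mu_lt_k (s := s)
  have f9 : s.mu' ≠ 0 := fun e => by
    rw [e, mul_zero, eq_comm, mul_eq_zero] at f3; omega
  have g1 : 3 ≤ s.mu' := Nat.le_of_dvd (by omega) f4
  have g2 : s.l = 3 * (s.lam' + 1) := by nlinarith
  have g3 : s.mu' = 3 := by nlinarith
  rw [g3, show s.k - s.mu = 2 * (s.lam' + 1) by omega, g2] at f3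
  have g4 : s.k = 2 * (s.lam' + 1) ^ 2 := by nlinarith
  have g5 := m_dvd (s := s)
  rw [hm3, g4] at g5
  have : (s.lam' + 1) % 3 = 0 ∨ (s.lam' + 1) % 3 = 1 ∨ (s.lam' + 1) % 3 = 2 := by omega
  have g6 : (s.lam' + 1) ^ 2 % 3 = 0 ∨ (s.lam' + 1) ^ 2 % 3 = 1 := by
    rcases this with h | h | h <;> simp [Nat.pow_mod, h]
  have : 0 < (s.lam' + 1) ^ 2 := by positivity
  omega

end St

end Cfsg.Agent.Part.Rk
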