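import Mathlib
import Cfsg.Agent.Part.Rk4

/-!
# Rank 3 groups with a Frobenius suborbit: complement of even order, the grid
-/

set_option autoImplicit false

namespace Cfsg.Agent.Part.Rk

open MulAction Finset Subgroup

variable {G X : Type*} [Group G] [Fintype G] [Fintype X] [MulAction G X]

namespace St

variable {s : St G X}

theorem even_m : Even s.m := Nat.not_odd_iff_even.mp not_odd_m

theorem odd_k : Odd s.k := by
  rw [← Nat.not_even_iff_odd]
  intro h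
  have := Nat.dvd_gcd h.two_dvd (even_m (s := s)).two_dvd
  rw [cop] at this; omega

theorem one_of_sq {v : X} {g : G} (h : g ∈ s.K v) (h2 : g * g = 1) : g = 1 := by
  obtain ⟨j, hj⟩ := odd_k (s := s)
  have := pow_k h
  rwa [hj, pow_succ, pow_mul, sq, h2, one_pow, one_mul] at this

theorem exists_inv_of_even {Q : Subgroup G} (h : Even (Nat.card Q)) :
    ∃ t ∈ Q, t ≠ 1 ∧ t * t = 1 := by
  obtain ⟨z, hz⟩ := exists_prime_orderOf_dvd_card' 2 h.two_dvd
  rw [← Subgroup.orderOf_coe] at hz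
  refine ⟨z, z.2, by rintro e; rw [e] at hz; simp at hz, ?_⟩
  have := pow_orderOf_eq_one (z : G); rwa [hz, sq] at this

theorem exists_inv {x y : X} (h : s.adj x y) : ∃ t : G, t • x = x ∧ t • y = y ∧ t ≠ 1 ∧ t * t = 1 := by
  obtain ⟨t, h1, h2⟩ := exists_inv_of_even (Q := S2 G x y) (by rw [card_S2_adj h]; exact even_m)
  exact ⟨t, h1.1, h1.2, h2⟩

theorem inv_K {v : X} {t : G} (hv : t • v = v) (h1 : t ≠ 1) (h2 : t * t = 1) {y : G}
    (hy : y ∈ s.K v) : t * y * t⁻¹ = y⁻¹ := by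
  have hK : t ∉ s.K v := fun h => h1 (one_of_sq h h2)
  let φ : s.K v → s.K v := fun z => ⟨(z : G)⁻¹ * (t * z * t⁻¹),
    mul_mem (inv_mem z.2) (K_conj' hv z.2)⟩
  have hinj : Function.Injective φ := fun a b hab => by
    have e : (a : G)⁻¹ * (t * a * t⁻¹) = (b : G)⁻¹ * (t * b * t⁻¹) := congrArg Subtype.val hab
    by_contra hne
    refine hK (mem_K_of_comm hv (mul_mem b.2 (inv_mem a.2))
      (fun e => hne (Subtype.ext (mul_inv_eq_one.mp e).symm)) ?_)
    calc t * (b * (a : G)⁻¹) = b * ((b : G)⁻¹ * (t * b * t⁻¹)) * t * (a : G)⁻¹ := by group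
      _ = _ := by rw [← e]; group
  obtain ⟨z, hz⟩ := Finite.surjective_of_injective hinj ⟨y, hy⟩
  have e : (z : G)⁻¹ * (t * z * t⁻¹) = y := congrArg Subtype.val hz
  have ti : t⁻¹ = t := inv_eq_of_mul_eq_one_right h2
  rw [← e]
  calc t * ((z : G)⁻¹ * (t * z * t⁻¹)) * t⁻¹ = t * (z : G)⁻¹ * t * z * (t * t)⁻¹ := by group
    _ = _ := by rw [h2]; nth_rewrite 2 [← ti]; group

theorem exists_inv' (s : St G X) (v : X) : ∃ t : G, t • v = v ∧ t ≠ 1 ∧ t * t = 1 := by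
  obtain ⟨a, ha⟩ := exists_adj (s := s) v
  obtain ⟨t, h1, -, h2⟩ := exists_inv ha
  exact ⟨t, h1, h2⟩

theorem K_comm (v : X) : ∀ a ∈ s.K v, ∀ b ∈ s.K v, a * b = b * a := fun a ha b hb => by
  obtain ⟨t, h0, h1, h2⟩ := exists_inv' s v
  have e := inv_K h0 h1 h2 (mul_mem ha hb)
  rw [show t * (a * b) * t⁻¹ = (t * a * t⁻¹) * (t * b * t⁻¹) by group, inv_K h0 h1 h2 ha,
    inv_K h0 h1 h2 hb, ← mul_inv_rev] at e
  exact (inv_injective e).symm

theorem exists_K (v : X) : ∃ y ∈ s.K v, y ≠ 1 := by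
  by_contra hc
  push Not at hc
  have : s.K v = ⊥ := eq_bot_iff.mpr hc
  have h5 := two_le_k (s := s)
  rw [← card_K v, this, card_bot] at h5
  omega

theorem mul_mem_K {v : X} {t t' : G} (hv : t • v = v) (h1 : t ≠ 1) (h2 : t * t = 1)
    (hv' : t' • v = v) (h1' : t' ≠ 1) (h2' : t' * t' = 1) : t * t' ∈ s.K v := by
  obtain ⟨y, hy, hy1⟩ := exists_K (s := s) v
  refine mem_K_of_comm (by rw [mul_smul, hv', hv]) hy hy1 ?_
  have e1 := inv_K hv' h1' h2' hy
  have e2 := inv_K hv h1 h2 (inv_mem hy)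
  calc t * t' * y = t * (t' * y * t'⁻¹) * t⁻¹ * (t * t') := by group
    _ = _ := by rw [e1, e2, inv_inv]

theorem fix_of_sq {v w : X} {c : G} (hc : c ∈ s.K v) (h : (c * c) • w = w) : c • w = w := by
  obtain ⟨j, hj⟩ := odd_k (s := s)
  have h1 := pow_k hc
  have h2 : ((c * c) ^ j) • w = w := (pow_mem (show c * c ∈ stabilizer G w from h) j :)
  rw [hj, pow_succ', pow_mul, sq] at h1
  conv_lhs => rw [← h2, ← mul_smul, h1, one_smul]

theorem gq_K (h0 : s.K s.A ⊓ stabilizer G s.C ≠ ⊥) : GQ s s.K where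
  le := fun _ => le_rfl
  comm := K_comm
  conj := K_conj
  sym := fun _ _ ha hy => K_of_K ha hy
  ne := fun {x y} h => by
    by_contra hc
    push Not at hc
    have : s.K x ⊓ stabilizer G y = ⊥ :=
      eq_bot_iff.mpr fun a ha => by_contra fun e => hc a ha.1 e ha.2
    have h1 := card_L0 h
    rw [this, card_bot] at h1
    exact h0 (card_eq_one.mp h1.symm)

theorem grid_nums (h0 : s.K s.A ⊓ stabilizer G s.C ≠ ⊥) : s.k = (s.lam' + 1) ^ 2 ∧
    s.l = 2 * (s.lam' + 1) ∧ Nat.card ↥(s.K s.A ⊓ stabilizer G s.C) = s.lam' + 1 := by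
  classical
  have q := gq_K h0
  obtain ⟨C', h1, h2, h3⟩ := s.ex1
  have hC' : s.na s.A C' := ⟨h1, h2⟩
  have e1 := card_mul_le (P := s.K s.A ⊓ stabilizer G s.C) (Q := s.K s.A ⊓ stabilizer G C')
    (R := s.K s.A) inf_le_left inf_le_left fun a ha hb => K_free (K_of_K ha.1 ha.2) h3 hb.2
  rw [card_L0 hC', card_K] at e1
  have e2 := orb_card (s.K s.A) s.C (univ.filter fun y => ∃ c ∈ s.K s.A, c • s.C = y) (by simp)
  have e3 : (univ.filter fun y => ∃ c ∈ s.K s.A, c • s.C = y).card ≤ s.lam' + 1 := by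
    rw [← q.card_cl naAC]
    refine card_le_card fun y hy => ?_
    obtain ⟨c, hc, rfl⟩ := (mem_filter.mp hy).2
    have := (na_smul c _ _).mpr (naAC (s := s))
    rw [K_fix hc] at this
    refine mem_filter.mpr ⟨mem_Γ.mpr this, (q.eqW naAC this fun a ha => ?_).symm⟩
    rw [← mul_smul, K_comm _ a ha.1 c hc, mul_smul, ha.2]
  rw [card_K] at e2
  have e4 := q.ineq
  have e5 := q.two_le
  set σ := s.lam' + 1
  set ω := Nat.card ↥(s.K s.A ⊓ stabilizer G s.C)
  have hω : 0 < ω := Nat.card_pos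
  have e6 : s.k ≤ σ * ω := e2 ▸ Nat.mul_le_mul_right _ e3
  have e7 : ω ≤ σ := by nlinarith
  obtain ⟨r, hr⟩ := Nat.exists_eq_add_of_le e5
  rw [hr, show 2 * σ + r - σ = σ + r by omega] at e4
  have hσ : 0 < σ := by omega
  have e8 : r = 0 := by nlinarith
  have e9 : σ ≤ ω := by nlinarith
  have : ω = σ := le_antisymm e7 e9
  refine ⟨by nlinarith, by omega, this⟩

section line

variable (h0 : s.K s.A ⊓ stabilizer G s.C ≠ ⊥)

open Classical in
/-- The line. -/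
noncomputable def F (s : St G X) : Finset X :=
  univ.filter fun v => ∀ w ∈ s.K s.A ⊓ stabilizer G s.C, w • v = v

/-- Centralizer of the pointwise stabilizer of the line. -/
def M (s : St G X) : Subgroup G := centralizer (s.K s.A ⊓ stabilizer G s.C : Subgroup G)

theorem mem_F {v : X} : v ∈ s.F ↔ ∀ w ∈ s.K s.A ⊓ stabilizer G s.C, w • v = v := by simp [F]

theorem A_mem_F : s.A ∈ s.F := mem_F.mpr fun _ hw => K_fix hw.1

theorem M_F {g : G} (hg : g ∈ s.M) {v : X} (hv : v ∈ s.F) : g • v ∈ s.F :=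
  mem_F.mpr fun w hw => by rw [← mul_smul, hg w hw, mul_smul, mem_F.mp hv w hw]

theorem K_le_M {v : X} (hv : v ∈ s.F) {c : G} (hc : c ∈ s.K v) : c ∈ s.M := fun w hw =>
  K_comm v w (K_of_K hw.1 (mem_F.mp hv w hw)) c hc

include h0

theorem F_na {v v' : X} (hv : v ∈ s.F) (hv' : v' ∈ s.F) (hne : v ≠ v') : s.na v v' :=
  ⟨hne, (gq_K h0).not_adj naAC (mem_F.mp hv) (mem_F.mp hv')⟩

theorem card_F : s.F.card = s.lam' + 2 := by
  classical
  have q := gq_K h0
  have : s.F = insert s.A (cl s s.K s.A s.C) := by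
    ext v
    simp only [mem_insert, cl, mem_filter, mem_Γ]
    refine ⟨fun hv => or_iff_not_imp_left.mpr fun hne => ?_, ?_⟩
    · have := F_na h0 A_mem_F hv (Ne.symm hne)
      exact ⟨this, (q.eqW naAC this (mem_F.mp hv)).symm⟩
    · rintro (rfl | ⟨-, h⟩)
      · exact A_mem_F
      · exact mem_F.mpr fun w hw => (h ▸ hw : w ∈ W s.K s.A v).2
  rw [this, card_insert_of_notMem (by simp [cl, na]), q.card_cl naAC]

theorem M_fix {g : G} (hg : g ∈ s.M) {v : X} (hv : v ∈ s.F) (h : g • v = v) : g ∈ s.K v := by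
  obtain ⟨w, w1, w2, w3⟩ := (gq_K h0).ne naAC
  exact mem_K_of_comm h (K_of_K w1 (mem_F.mp hv w ⟨w1, w3⟩)) w2 (hg w ⟨w1, w3⟩).symm

theorem W_eq {v v' : X} (hv : v ∈ s.F) (hv' : v' ∈ s.F) (hne : v ≠ v') :
    s.K v ⊓ stabilizer G v' = s.K s.A ⊓ stabilizer G s.C :=
  (eq_of_le_of_card_ge (H := s.K s.A ⊓ stabilizer G s.C) (fun w hw => Subgroup.mem_inf.mpr
    ⟨K_of_K hw.1 (mem_F.mp hv w hw), mem_F.mp hv' w hw⟩)
    (by rw [card_L0 (F_na h0 hv hv' hne)])).symm

theorem M_fix2 {g : G} (hg : g ∈ s.M) {v v' : X} (hv : v ∈ s.F) (hv' : v' ∈ s.F) (hne : v ≠ v')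
    (h : g • v = v) (h' : g • v' = v') : g ∈ s.K s.A ⊓ stabilizer G s.C :=
  W_eq h0 hv hv' hne ▸ ⟨M_fix h0 hg hv h, h'⟩

theorem K_trans {v x y : X} (hv : v ∈ s.F) (hx : x ∈ s.F) (hy : y ∈ s.F) (h1 : x ≠ v)
    (h2 : y ≠ v) : ∃ c ∈ s.K v, c • x = y := by
  classical
  obtain ⟨n1, -, n3⟩ := grid_nums h0
  have e2 := orb_card (s.K v) x (univ.filter fun y => ∃ c ∈ s.K v, c • x = y) (by simp)
  rw [W_eq h0 hv hx h1.symm, n3, card_K, n1, sq] at e2
  have e3 := Nat.eq_of_mul_eq_mul_right (by omega) e2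
  have : (univ.filter fun y => ∃ c ∈ s.K v, c • x = y) = s.F.erase v :=
    eq_of_subset_of_card_le (fun z hz => by
      obtain ⟨c, hc, rfl⟩ := (mem_filter.mp hz).2
      exact mem_erase.mpr ⟨fun e => h1 (by rw [← K_fix hc] at e; simpa using e),
        M_F (K_le_M hv hc) hx⟩) (by rw [card_erase_of_mem hv, card_F h0, e3]; omega)
  have h3 : y ∈ s.F.erase v := mem_erase.mpr ⟨h2, hy⟩
  rw [← this] at h3
  exact (mem_filter.mp h3).2

theorem lam'_pos : 2 ≤ s.lam' := by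
  obtain ⟨n1, -, n3⟩ := grid_nums h0
  have h1 := (one_lt_card_iff_ne_bot _).mpr h0
  have h2 := odd_k (s := s)
  rw [n1, Nat.odd_pow_iff (by omega)] at h2
  obtain ⟨j, hj⟩ := h2
  omega

theorem ex_swap {v v' : X} (hv : v ∈ s.F) (hv' : v' ∈ s.F) (hne : v ≠ v') :
    ∃ g ∈ s.M, g * g = 1 ∧ g • v = v' := by
  classical
  obtain ⟨u, hu⟩ : ((s.F.erase v).erase v').Nonempty := by
    rw [← card_pos, card_erase_of_mem (mem_erase.mpr ⟨hne.symm, hv'⟩), card_erase_of_mem hv,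
      card_F h0]
    have := lam'_pos h0; omega
  simp only [mem_erase] at hu
  obtain ⟨c, hc, c1⟩ := K_trans h0 hu.2.2 hv hv' hu.2.1.symm hu.1.symm
  obtain ⟨c', hc', c2⟩ := K_trans h0 hv' (M_F (K_le_M hu.2.2 hc) hv') hv
    (fun e => hne (by nth_rewrite 2 [← c1] at e; simpa using e.symm)) hne
  have hM : c' * c ∈ s.M := mul_mem (K_le_M hv' hc') (K_le_M hu.2.2 hc)
  have e1 : (c' * c) • v = v' := by rw [mul_smul, c1, K_fix hc']
  have e2 : (c' * c * (c' * c)) • v = v := by rw [mul_smul, e1, mul_smul, c2]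
  obtain ⟨j, hj⟩ := odd_k (s := s)
  refine ⟨(c' * c) ^ s.k, pow_mem hM _, ?_, ?_⟩
  · rw [← (Commute.refl _).mul_pow]; exact pow_k (M_fix h0 (mul_mem hM hM) hv e2)
  · have : ((c' * c * (c' * c)) ^ j) • v = v :=
      (pow_mem (show _ ∈ stabilizer G v from e2) j :)
    rw [hj, pow_succ', pow_mul, sq, mul_smul, this, e1]

theorem inv_uniq {g g' : G} (hg : g ∈ s.M) (hg' : g' ∈ s.M) (h2 : g * g = 1) (h2' : g' * g' = 1)
    {v : X} (hv : v ∈ s.F) (h : g • v = g' • v) : g = g' := by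
  by_cases hf : g • v = v
  · rw [one_of_sq (M_fix h0 hg hv hf) h2, one_of_sq (M_fix h0 hg' hv (h ▸ hf)) h2']
  have hw := M_fix2 h0 (mul_mem hg hg') hv (M_F hg hv) (Ne.symm hf)
    (by rw [mul_smul, ← h, ← mul_smul, h2, one_smul])
    (by rw [mul_smul, h, ← mul_smul g', h2', one_smul, h])
  have e := hg _ hw
  have : g * g' = 1 := one_of_sq hw.1 (by
    rw [← mul_assoc, e, ← mul_assoc, h2, one_mul, h2'])
  rw [← mul_one g, ← this, ← mul_assoc, h2, one_mul]

theorem inv_closed {g g' : G} (hg : g ∈ s.M) (hg' : g' ∈ s.M) (h2 : g * g = 1)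
    (h2' : g' * g' = 1) : g * g' * (g * g') = 1 := by
  classical
  by_cases hf : ∃ v ∈ s.F, (g * g') • v = v
  · obtain ⟨v, hv, h⟩ := hf
    rw [inv_uniq h0 hg hg' h2 h2' hv (by
      conv_lhs => rw [← h, ← mul_smul, ← mul_assoc, h2, one_mul]), h2', mul_one]
  push Not at hf
  have hh := mul_mem hg hg'
  set h := g * g' with hdef
  have hp := M_F hh A_mem_F
  have hpA := hf _ A_mem_F
  obtain ⟨e, he, e2, e3⟩ := ex_swap h0 A_mem_F hp hpA.symm
  have hC : s.C ∈ s.F := mem_F.mpr fun _ hw => hw.2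
  have ex : ∀ v ∈ s.F.erase s.A, ∃ c ∈ s.M, c • s.A = h • s.A ∧
      ((v = h • s.A ∧ c = e) ∨ (v ≠ h • s.A ∧ c • v = v)) := fun v hv => by
    rw [mem_erase] at hv
    by_cases h1 : v = h • s.A
    · exact ⟨e, he, e3, Or.inl ⟨h1, rfl⟩⟩
    · obtain ⟨c, hc, c1⟩ := K_trans h0 hv.2 A_mem_F hp hv.1.symm (Ne.symm h1)
      exact ⟨c, K_le_M hv.2 hc, c1, Or.inr ⟨h1, K_fix hc⟩⟩
  choose! f f1 f2 f3 using ex
  have agree : ∀ c ∈ s.M, ∀ c' ∈ s.M, c • s.A = c' • s.A → c • s.C = c' • s.C →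
      c⁻¹ * c' ∈ s.K s.A ⊓ stabilizer G s.C := fun c hc c' hc' h1 h2 =>
    M_fix2 h0 (mul_mem (inv_mem hc) hc') A_mem_F hC s.ACne
      (by rw [mul_smul, ← h1, inv_smul_smul]) (by rw [mul_smul, ← h2, inv_smul_smul])
  have agree' : ∀ c ∈ s.M, ∀ c' ∈ s.M, c • s.A = c' • s.A → c • s.C = c' • s.C →
      ∀ v ∈ s.F, c • v = c' • v := fun c hc c' hc' h1 h2 v hv => by
    have := mem_F.mp hv _ (agree c hc c' hc' h1 h2)
    rw [mul_smul, inv_smul_eq_iff] at this
    exact this.symm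
  have efp : ∀ v ∈ s.F, e • v ≠ v := fun v hv h1 => hpA (by
    rw [← e3, one_of_sq (M_fix h0 he hv h1) e2, one_smul])
  have hsurj := surj_on_of_inj_on_of_card_le (s := s.F.erase s.A) (t := s.F.erase (h • s.A))
    (fun v _ => f v • s.C) (fun v hv => mem_erase.mpr ⟨fun e => s.ACne (by
      rw [← f2 v hv] at e; simpa using e.symm), M_F (f1 v hv) hC⟩)
    (fun v v' hv hv' e => by
      have ag := agree' _ (f1 v hv) _ (f1 v' hv') ((f2 v hv).trans (f2 v' hv').symm) e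
      have m1 := (mem_erase.mp hv).2
      have m2 := (mem_erase.mp hv').2
      rcases f3 v hv with ⟨a1, a2⟩ | ⟨a1, a2⟩ <;> rcases f3 v' hv' with ⟨b1, b2⟩ | ⟨b1, b2⟩
      · rw [a1, b1]
      · exact absurd (by rw [← a2, ag _ m2, b2]) (efp _ m2)
      · exact absurd (by rw [← b2, ← ag _ m1, a2]) (efp _ m1)
      · by_contra hne
        have := M_fix2 h0 (f1 v hv) m1 m2 hne a2 (by rw [ag _ m2, b2])
        exact hpA (by rw [← f2 v hv, K_fix this.1]))
    (by rw [card_erase_of_mem hp, card_erase_of_mem A_mem_F])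
  obtain ⟨v, hv, e4⟩ := hsurj (h • s.C) (mem_erase.mpr ⟨by simpa using s.ACne.symm, M_F hh hC⟩)
  rcases f3 v hv with ⟨-, a2⟩ | ⟨-, a2⟩
  · rw [a2] at e4
    have hw := agree e he h hh e3 e4.symm
    have gi : g⁻¹ = g := inv_eq_of_mul_eq_one_right h2
    have e5 : g * h * g⁻¹ = h⁻¹ := by
      rw [hdef, mul_inv_rev, gi, inv_eq_of_mul_eq_one_right h2', ← mul_assoc, h2, one_mul]
    set w := e⁻¹ * h with hwdef
    have e6 : h = e * w := by rw [hwdef]; group
    have e7 : g * e * g⁻¹ * w = e * w⁻¹ := by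
      have c1 := hg w hw
      have c2 := he w⁻¹ (inv_mem hw)
      rw [← c2, ← inv_eq_of_mul_eq_one_right e2, ← mul_inv_rev, inv_eq_of_mul_eq_one_right e2,
        ← e6, ← e5, e6, gi, mul_assoc (g * e), ← c1]
      group
    have e8 : g * e * g⁻¹ = e := inv_uniq h0 (mul_mem (mul_mem hg he) (inv_mem hg)) he
      (by rw [conj_mul, e2]; group) e2 A_mem_F (by
        have := congrArg (· • s.A) e7
        simpa only [mul_smul _ w, mul_smul _ w⁻¹, K_fix hw.1, K_fix (inv_mem hw.1)] using this)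
    rw [e8] at e7
    have : w = 1 := one_of_sq hw.1 (by nth_rewrite 1 [mul_left_cancel e7]; simp)
    rw [e6, this, mul_one, e2]
  · have m1 := (mem_erase.mp hv).2
    exact absurd (by rw [← agree' _ (f1 v hv) h hh (f2 v hv) e4.symm v m1, a2]) (hf v m1)

theorem grid : s.k = 9 ∧ s.l = 6 := by
  classical
  obtain ⟨t, tA, t1, t2⟩ := exists_inv' s s.A
  have ti : t⁻¹ = t := inv_eq_of_mul_eq_one_right t2
  let V := univ.filter fun g : G => g ∈ s.M ∧ g * g = 1
  let Cf := V.filter fun g => t * g * t⁻¹ = g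
  have tM : ∀ g ∈ s.M, t * g * t⁻¹ ∈ s.M := fun g hg w hw => by
    have e1 := inv_K tA t1 t2 (inv_mem hw.1)
    have e2 := hg _ (inv_mem hw)
    rw [inv_inv] at e1
    rw [← e1, conj_mul, conj_mul, e2]
  have hV : s.F.card ≤ V.card := card_le_card_of_surjOn (fun g => g • s.A) fun v hv => by
    by_cases h : s.A = v
    · exact ⟨1, by simp [V, one_mem], by simpa using h⟩
    · obtain ⟨g, h1, h2, h3⟩ := ex_swap h0 A_mem_F hv h
      exact ⟨g, by simp [V, h1, h2], h3⟩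
  have hC : Cf.card ≤ 2 := by
    have h1 : (Cf.erase 1).card ≤ 1 := card_le_one.mpr fun a ha b hb => by
      simp only [Cf, V, mem_erase, mem_filter, mem_univ, true_and] at ha hb
      have key : ∀ a : G, a ≠ 1 ∧ (a ∈ s.M ∧ a * a = 1) ∧ t * a * t⁻¹ = a →
          a • s.A ≠ s.A ∧ t • a • s.A = a • s.A := fun a ha =>
        ⟨fun e => ha.1 (one_of_sq (M_fix h0 ha.2.1.1 A_mem_F e) ha.2.1.2), by
          conv_rhs => rw [← ha.2.2, mul_smul, mul_smul, ti, tA]⟩
      obtain ⟨c, hc, c1⟩ := K_trans h0 A_mem_F (M_F ha.2.1.1 A_mem_F) (M_F hb.2.1.1 A_mem_F)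
        (key a ha).1 (key b hb).1
      refine inv_uniq h0 ha.2.1.1 hb.2.1.1 ha.2.1.2 hb.2.1.2 A_mem_F ?_
      rw [← c1, fix_of_sq hc]
      have e1 := (key b hb).2
      have e2 : (t * c * t⁻¹) • a • s.A = t • c • a • s.A := by
        rw [mul_smul, mul_smul, ti, (key a ha).2]
      rw [← c1, ← e2, inv_K tA t1 t2 hc, inv_smul_eq_iff, ← mul_smul c c] at e1
      exact e1.symm
    have := pred_card_le_card_erase (s := Cf) (a := 1)
    omega
  have cm : ∀ a ∈ V, ∀ b ∈ V, a * b = b * a := fun a ha b hb => by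
    simp only [V, mem_filter, mem_univ, true_and] at ha hb
    have := inv_eq_of_mul_eq_one_right (inv_closed h0 ha.1 hb.1 ha.2 hb.2)
    rw [mul_inv_rev, inv_eq_of_mul_eq_one_right ha.2, inv_eq_of_mul_eq_one_right hb.2] at this
    exact this.symm
  have tV : ∀ a ∈ V, t * a * t⁻¹ ∈ V := fun a ha => by
    simp only [V, mem_filter, mem_univ, true_and] at ha ⊢
    exact ⟨tM a ha.1, by rw [conj_mul, ha.2]; group⟩
  have mV : ∀ a ∈ V, ∀ b ∈ V, a * b ∈ V := fun a ha b hb => by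
    simp only [V, mem_filter, mem_univ, true_and] at ha hb ⊢
    exact ⟨mul_mem ha.1 hb.1, inv_closed h0 ha.1 hb.1 ha.2 hb.2⟩
  have sq : ∀ a ∈ V, a * a = 1 := fun a ha => (mem_filter.mp ha).2.2
  have hle : V.card ≤ 2 * Cf.card := by
    refine card_le_mul_card_image_of_maps_to (f := fun a => a * (t * a * t⁻¹)) (fun a ha => ?_) 2
      fun b _ => ?_
    · refine mem_filter.mpr ⟨mV a ha _ (tV a ha), ?_⟩
      rw [← conj_mul, cm a ha _ (tV a ha)]
      congr 1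
      calc t * (t * a * t⁻¹) * t⁻¹ = (t * t) * a * (t * t)⁻¹ := by group
        _ = a := by rw [t2]; group
    · rcases (V.filter fun a => a * (t * a * t⁻¹) = b).eq_empty_or_nonempty with e | ⟨a0, ha0⟩
      · rw [e]; simp
      · refine le_trans (card_le_card_of_injOn (fun a => a0 * a) (fun a ha => ?_)
          fun a _ a' _ e => mul_left_cancel e) hC
        rw [mem_filter] at ha0
        simp only [coe_filter, Set.mem_setOf_eq] at ha
        refine mem_filter.mpr ⟨mV _ ha0.1 _ ha.1, ?_⟩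
        have e := ha0.2.trans ha.2.symm
        rw [← conj_mul]
        have e1 : t * a0 * t⁻¹ = a0 * (a * (t * a * t⁻¹)) := by
          rw [← e, ← mul_assoc, sq _ ha0.1, one_mul]
        rw [e1, mul_assoc, mul_assoc a, sq _ (tV a ha.1), mul_one]
  obtain ⟨n1, n2, -⟩ := grid_nums h0
  have := card_F h0
  have := lam'_pos h0
  have : s.lam' = 2 := by omega
  rw [n1, n2, this]; norm_num

end line

end St

end Cfsg.Agent.Part.Rk
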