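import Mathlib
import Cfsg.Agent.Part.Rk2
import Cfsg.Agent.Part.Rk5

/-!
# Rank 3 groups with a Frobenius suborbit: counting involutions
-/

set_option autoImplicit false

namespace Cfsg.Agent.Part.Rk

open MulAction Finset Subgroup

/-- An automorphism inverting more than three quarters of a group. -/
theorem three_quarters {L : Type*} [Group L] [Fintype L] (α : L →* L) (I : Finset L)
    (hI : ∀ h ∈ I, α h = h⁻¹) (hc : 3 * Fintype.card L < 4 * I.card) :
    (∀ a b : L, a * b = b * a) ∧ ∀ h, α h = h⁻¹ := by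
  classical
  have half : ∀ (P : Subgroup L) (T : Finset L), (∀ a ∈ T, a ∈ P) →
      Fintype.card L < 2 * T.card → P = ⊤ := fun P T hT h => by
    have h1 : T.card ≤ Nat.card P := by
      rw [← card_sub_eq]; exact card_le_card fun a ha => by simpa using hT a ha
    have h2 := P.index_mul_card
    rw [Nat.card_eq_fintype_card (α := L)] at h2
    have h3 : P.index ≠ 0 := index_ne_zero_of_finite
    rw [← index_eq_one]
    by_contra h4
    have : 2 ≤ P.index := by omega
    nlinarith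
  have hZ : ∀ x ∈ I, x ∈ center L := fun x hx => by
    have := half (centralizer {x}) (I ∩ I.image (x⁻¹ * ·)) (fun y hy => by
      obtain ⟨h1, h2⟩ := mem_inter.mp hy
      obtain ⟨z, hz, rfl⟩ := mem_image.mp h2
      rw [mem_centralizer_singleton_iff]
      have e := hI _ h1
      rw [map_mul, map_inv, hI x hx, hI z hz] at e
      have e2 : x * z⁻¹ = z⁻¹ * x := by simpa using e
      have : Commute x z := Commute.inv_right_iff.mp e2
      rw [mul_assoc, ← this.eq]; group) (by
      have h1 := card_union_add_card_inter I (I.image (x⁻¹ * ·))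
      rw [card_image_of_injective _ (mul_right_injective _)] at h1
      have := card_le_univ (I ∪ I.image (x⁻¹ * ·))
      omega)
    rw [mem_center_iff]
    intro g
    exact mem_centralizer_singleton_iff.mp (this ▸ mem_top g)
  have hz := half (center L) I hZ (by omega)
  have cm : ∀ a b : L, a * b = b * a := fun a b => mem_center_iff.mp (hz ▸ mem_top b) a
  refine ⟨cm, fun h => ?_⟩
  let P : Subgroup L :=
    { carrier := {h | α h = h⁻¹}
      one_mem' := by simp
      mul_mem' := fun {a b} ha hb => by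
        simp only [Set.mem_setOf_eq] at ha hb ⊢
        rw [map_mul, ha, hb, mul_inv_rev, cm]
      inv_mem' := fun {a} ha => by
        simp only [Set.mem_setOf_eq] at ha ⊢
        rw [map_inv, ha] }
  exact (half P I hI (by omega) ▸ mem_top h : h ∈ P)

variable {G X : Type*} [Group G] [Fintype G] [Fintype X] [MulAction G X]

namespace St

open Classical in
/-- Involutions with a fixed point. -/
noncomputable def D (G X : Type*) [Group G] [Fintype G] [MulAction G X] : Finset G :=
  univ.filter fun t => t ≠ 1 ∧ t * t = 1 ∧ ∃ v : X, t • v = v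

open Classical in
noncomputable def aa (G : Type*) {X : Type*} [Group G] [Fintype G] [MulAction G X] (x y : X) :
    Finset G := (D G X).filter fun t => t • x = y

theorem mem_D {t : G} : t ∈ D G X ↔ t ≠ 1 ∧ t * t = 1 ∧ ∃ v : X, t • v = v := by simp [D]

theorem mem_aa {t : G} {x y : X} : t ∈ aa G x y ↔ t ∈ D G X ∧ t • x = y := by simp [aa]

theorem D_conj (g : G) {t : G} : g * t * g⁻¹ ∈ D G X ↔ t ∈ D G X := by
  have key : ∀ g t : G, t ∈ D G X → g * t * g⁻¹ ∈ D G X := fun g t h => by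
    rw [mem_D] at h ⊢
    obtain ⟨h1, h2, v, h3⟩ := h
    exact ⟨by simpa [mul_inv_eq_one] using h1, by rw [conj_mul, h2]; group, g • v,
      (conj_fix g t v).mpr h3⟩
  exact ⟨fun h => by simpa [mul_assoc] using key g⁻¹ _ h, key g t⟩

theorem card_aa_smul (g : G) (x y : X) : (aa G x y).card = (aa G (g • x) (g • y)).card :=
  Finset.card_equiv (MulAut.conj g).toEquiv fun t => by
    simp [mem_aa, D_conj, mul_smul]

theorem card_aa_le (x y : X) : (aa G x y).card ≤ Nat.card (S2 G x y) := by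
  classical
  rcases (aa G x y).eq_empty_or_nonempty with e | ⟨t, ht⟩
  · rw [e]; simp
  rw [← card_sub_eq]
  have sw : ∀ t ∈ aa G x y, t • y = x := fun t ht => by
    rw [mem_aa, mem_D] at ht
    rw [← ht.2, ← mul_smul, ht.1.2.1, one_smul]
  refine card_le_card_of_injOn (t * ·) (fun b hb => ?_) fun a _ b _ e => mul_left_cancel e
  simp only [coe_filter, mem_univ, true_and, Set.mem_setOf_eq, mem_S2, mul_smul]
  rw [(mem_aa.mp hb).2, sw b hb, sw t ht, (mem_aa.mp ht).2]; exact ⟨rfl, rfl⟩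

variable {s : St G X}

theorem card_fx_conj (g t : G) : (fx (X := X) (g * t * g⁻¹)).card = (fx (X := X) t).card := by
  classical
  exact (card_filter_smul g _ _ fun x => (conj_fix g t x).symm).symm

theorem a1_conj (g t : G) : s.a1 (g * t * g⁻¹) = s.a1 t := by
  classical
  exact (card_filter_smul g _ _ fun x => by simp [mul_smul, adj_smul]).symm

theorem not_K {t : G} (ht : t ∈ D G X) (v : X) : t ∉ s.K v := fun h =>
  (mem_D.mp ht).1 (one_of_sq h (mem_D.mp ht).2.1)

theorem same_of_mul_K {t t' : G} (ht : t ∈ D G X) (ht' : t' ∈ D G X) {v a : X} (h1 : t • v = v)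
    (h2 : t' • v = v) (h3 : t • a = a) (h4 : t' • a = a)
    (h : ∀ c ∈ s.K v, c • a = a → c = 1) : t = t' := by
  rw [mem_D] at ht ht'
  have := h _ (mul_mem_K h1 ht.1 ht.2.1 h2 ht'.1 ht'.2.1) (by rw [mul_smul, h4, h3])
  rw [← mul_one t, ← this, ← mul_assoc, ht.2.1, one_mul]

theorem D_conj_ex (s : St G X) {t t' : G} (ht : t ∈ D G X) (ht' : t' ∈ D G X) :
    ∃ g : G, g * t * g⁻¹ = t' := by
  obtain ⟨v, hv⟩ := (mem_D.mp ht).2.2
  obtain ⟨v', hv'⟩ := (mem_D.mp ht').2.2
  obtain ⟨a, ha, h1⟩ := exists_fix hv (not_K (s := s) ht v)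
  obtain ⟨a', ha', h1'⟩ := exists_fix hv' (not_K (s := s) ht' v')
  obtain ⟨g, rfl, rfl⟩ := s.tr1 ha ha'
  exact ⟨g, same_of_mul_K ((D_conj g).mpr ht) ht' ((conj_fix _ _ _).mpr hv) hv'
    ((conj_fix _ _ _).mpr h1) h1' fun c hc => K_free hc ha'⟩

theorem mul_K_mem {t : G} {v : X} (ht : t ∈ aa G v v) {y : G} (hy : y ∈ s.K v) :
    t * y ∈ aa G v v := by
  rw [mem_aa] at ht ⊢
  have h := mem_D.mp ht.1
  have e : (t * y) • v = v := by rw [mul_smul, K_fix hy, ht.2]
  refine ⟨mem_D.mpr ⟨fun e => not_K ht.1 v (by rw [eq_inv_of_mul_eq_one_left e]; exact inv_mem hy),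
    ?_, v, e⟩, e⟩
  have := inv_K ht.2 h.1 h.2.1 hy
  rw [inv_eq_of_mul_eq_one_right h.2.1] at this
  rw [← mul_assoc, this, inv_mul_cancel]

open Classical in
theorem aa_eq {t : G} {v : X} (ht : t ∈ aa G v v) :
    aa G v v = (univ.filter (· ∈ s.K v)).image (t * ·) := by
  ext a
  simp only [mem_image, mem_filter, mem_univ, true_and]
  refine ⟨fun ha => ?_, fun ⟨y, hy, e⟩ => e ▸ mul_K_mem ht hy⟩
  rw [mem_aa, mem_D] at ht ha
  exact ⟨t * a, mul_mem_K ht.2 ht.1.1 ht.1.2.1 ha.2 ha.1.1 ha.1.2.1, by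
    rw [← mul_assoc, ht.1.2.1, one_mul]⟩

theorem exists_aa (s : St G X) (v : X) : ∃ t, t ∈ aa G v v := by
  obtain ⟨t, h0, h1, h2⟩ := exists_inv' s v
  exact ⟨t, mem_aa.mpr ⟨mem_D.mpr ⟨h1, h2, v, h0⟩, h0⟩⟩

theorem card_aa_self (v : X) : (aa G v v).card = s.k := by
  classical
  obtain ⟨t, ht⟩ := exists_aa s v
  rw [aa_eq (s := s) ht, card_image_of_injective _ (mul_right_injective _), card_sub_eq, card_K]

theorem card_D_fx {t : G} (ht : t ∈ D G X) :
    (D G X).card * (fx (X := X) t).card = Fintype.card X * s.k := by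
  classical
  have := Finset.sum_card_bipartiteAbove_eq_sum_card_bipartiteBelow (s := D G X)
    (t := (univ : Finset X)) (r := fun t v => t • v = v)
  rw [sum_congr rfl (g := fun _ => (fx (X := X) t).card), sum_congr (s₂ := univ) rfl
    (g := fun _ => s.k)] at this
  · simpa using this
  · intro v _
    rw [← card_aa_self (s := s) v]; congr 1
  · intro b hb
    obtain ⟨g, rfl⟩ := D_conj_ex s ht hb
    rw [← card_fx_conj g t]; congr 1

theorem card_aa_adj {x y : X} (h : s.adj x y) : (aa G x y).card = (aa G s.A s.B).card := by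
  obtain ⟨g, rfl, rfl⟩ := s.tr1 s.AB h
  exact (card_aa_smul g _ _).symm

theorem card_aa_na {x y : X} (h : s.na x y) : (aa G x y).card = (aa G s.A s.C).card := by
  obtain ⟨g, rfl, rfl⟩ := trn naAC h
  exact (card_aa_smul g _ _).symm

theorem card_D : (D G X).card =
    s.k + s.k * (aa G s.A s.B).card + s.l * (aa G s.A s.C).card := by
  classical
  have : (univ : Finset X) = insert s.A (s.N s.A ∪ s.Γ s.A) := by
    ext x; have := tri (s := s) s.A x; simp; tauto
  rw [card_eq_sum_card_fiberwise (f := fun t : G => t • s.A) (t := univ) (by simp), this,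
    sum_insert (by simp [s.irr, na]), sum_union
      (by rw [disjoint_left]; intro a h1 h2; simp [na] at h1 h2; tauto)]
  change (aa G s.A s.A).card + (∑ y ∈ s.N s.A, (aa G s.A y).card +
    ∑ y ∈ s.Γ s.A, (aa G s.A y).card) = _
  rw [sum_congr rfl (g := fun _ => (aa G s.A s.B).card) fun y hy => card_aa_adj (mem_N.mp hy),
    sum_congr (s₁ := s.Γ s.A) rfl (g := fun _ => (aa G s.A s.C).card)
      fun y hy => card_aa_na (mem_Γ.mp hy),
    sum_const, sum_const, smul_eq_mul, smul_eq_mul, add_assoc, card_aa_self (s := s)]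
  rfl

theorem card_D_a1 {t : G} (ht : t ∈ D G X) :
    (D G X).card * s.a1 t = Fintype.card X * (s.k * (aa G s.A s.B).card) := by
  classical
  have := Finset.sum_card_bipartiteAbove_eq_sum_card_bipartiteBelow (s := D G X)
    (t := (univ : Finset X)) (r := fun t v => s.adj v (t • v))
  rw [sum_congr rfl (g := fun _ => s.a1 t), sum_congr (s₂ := univ) rfl
    (g := fun _ => s.k * (aa G s.A s.B).card)] at this
  · simpa using this
  · intro v _
    rw [card_eq_sum_card_fiberwise (f := fun t : G => t • v) (t := s.N v)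
      (fun b hb => by simpa using (mem_filter.mp hb).2), ← card_N v, ← smul_eq_mul, ← sum_const]
    refine sum_congr rfl fun y hy => ?_
    rw [← card_aa_adj (mem_N.mp hy)]
    congr 1; ext b
    simp only [bipartiteBelow, mem_filter, mem_aa]
    exact ⟨fun h => ⟨h.1.1, h.2⟩, fun h => ⟨⟨h.1, h.2 ▸ mem_N.mp hy⟩, h.2⟩⟩
  · intro b hb
    obtain ⟨g, rfl⟩ := D_conj_ex s ht hb
    rw [← a1_conj g t]; congr 1

variable (h0 : s.K s.A ⊓ stabilizer G s.C = ⊥)
include h0

theorem K_free' {v a : X} {g : G} (h : g ∈ s.K v) (ha : v ≠ a) (hg : g • a = a) : g = 1 := by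
  by_contra h1
  have := card_L0 (na_of_K h h1 hg ha)
  rw [h0, card_bot, Subgroup.card_eq_one] at this
  exact h1 (this ▸ Subgroup.mem_inf.mpr ⟨h, hg⟩ : g ∈ (⊥ : Subgroup G))

theorem k_dvd_l : s.k ∣ s.l := by
  rw [← card_K s.A]
  refine dvd_card_of_free _ _ (fun g x => g • x) (by simp) (by simp [mul_smul])
    (fun g hg y hy => ?_) fun g hg y hy h => K_free' h0 hg (mem_Γ.mp hy).1 h
  have := (na_smul g _ _).mpr (mem_Γ.mp hy)
  rwa [K_fix hg, ← mem_Γ] at this

theorem fx_K {g : G} (h : g ∈ s.K s.A) (h1 : g ≠ 1) : (fx (X := X) g).card = 1 :=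
  card_eq_one.mpr ⟨s.A, by
    ext v; simp only [mem_fx, mem_singleton]
    exact ⟨fun hv => by_contra fun e => h1 (K_free' h0 h (Ne.symm e) hv), fun e => e ▸ K_fix h⟩⟩

theorem k_mul_fx {t : G} (ht : t ∈ D G X) :
    s.k * (fx (X := X) t).card = 2 * s.k + if Even s.el then s.l else 0 := by
  classical
  have := Finset.sum_card_bipartiteAbove_eq_sum_card_bipartiteBelow (s := aa G s.A s.A)
    (t := s.Γ s.A) (r := fun t v => t • v = v)
  have e1 : ∀ b ∈ aa G s.A s.A,
      (bipartiteAbove (fun t v => t • v = v) (s.Γ s.A) b).card + 2 = (fx (X := X) t).card := by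
    intro b hb
    rw [mem_aa] at hb
    obtain ⟨g, hg⟩ := D_conj_ex s ht hb.1
    obtain ⟨a, ha, h1⟩ := exists_fix hb.2 (not_K (s := s) hb.1 _)
    have : fx (X := X) b = insert s.A (insert a
        (bipartiteAbove (fun t v => t • v = v) (s.Γ s.A) b)) := by
      ext v
      simp only [mem_fx, mem_insert, bipartiteAbove, mem_filter, mem_Γ]
      refine ⟨fun hv => ?_, by rintro (rfl | rfl | h); exacts [hb.2, h1, h.2]⟩
      rcases tri (s := s) s.A v with h5 | h5 | h5
      · exact Or.inl h5.symm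
      · exact Or.inr (Or.inl (by_contra fun e => (mem_D.mp hb.1).1 (s.frob hb.2 h5 ha e hv h1)))
      · exact Or.inr (Or.inr ⟨h5, hv⟩)
    rw [← card_fx_conj g t, hg, this, card_insert_of_notMem (by simp [bipartiteAbove, na, adj_ne ha]),
      card_insert_of_notMem (by simp [bipartiteAbove, na, ha])]
  have e2 : ∀ y ∈ s.Γ s.A, (bipartiteBelow (fun t v => t • v = v) (aa G s.A s.A) y).card =
      if Even s.el then 1 else 0 := by
    intro y hy
    rw [mem_Γ] at hy
    split_ifs with he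
    · obtain ⟨b, b1, b2, b3⟩ := exists_inv_of_even (Q := S2 G s.A y) (by rwa [card_S2_na hy])
      have hb : b ∈ D G X := mem_D.mpr ⟨b2, b3, _, b1.1⟩
      refine card_eq_one.mpr ⟨b, ?_⟩
      ext c; simp only [bipartiteBelow, mem_filter, mem_aa, mem_singleton]
      exact ⟨fun h => same_of_mul_K h.1.1 hb h.1.2 b1.1 h.2 b1.2 fun c hc => K_free' h0 hc hy.1,
        fun e => e ▸ ⟨⟨hb, b1.1⟩, b1.2⟩⟩
    · rw [card_eq_zero, eq_empty_iff_forall_notMem]
      intro c hc
      simp only [bipartiteBelow, mem_filter, mem_aa, mem_D] at hc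
      refine he (even_iff_two_dvd.mpr ?_)
      rw [← card_S2_na hy, ← orderOf_eq_prime (p := 2) (x := c) (by rw [sq, hc.1.1.2.1]) hc.1.1.1]
      exact orderOf_dvd_natCard _ (show c ∈ S2 G s.A y from ⟨hc.1.2, hc.2⟩)
  have e3 := sum_congr rfl e1
  rw [sum_add_distrib, this, sum_congr rfl e2] at e3
  simp only [sum_const, smul_eq_mul, card_aa_self (s := s), card_Γ] at e3
  rw [← e3]; split_ifs <;> ring

open Classical in
theorem sum_a1 (he : Even s.el) {t : G} (ht : t ∈ D G X) :
    ∑ y ∈ univ.filter (· ∈ s.K s.A), s.a1 y = s.k * s.a1 t := by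
  obtain ⟨t0, ht0⟩ := exists_aa s s.A
  have e1 : ∑ y ∈ univ.filter (· ∈ s.K s.A), s.a1 (t0 * y) = s.k * s.a1 t := by
    rw [← card_K s.A, ← card_sub_eq, ← smul_eq_mul, ← sum_const]
    refine sum_congr rfl fun y hy => ?_
    obtain ⟨g, hg⟩ := D_conj_ex s ht (mem_aa.mp (mul_K_mem ht0 (mem_filter.mp hy).2)).1
    rw [← hg, a1_conj]
  rw [← e1]
  simp only [a1, card_filter]
  rw [sum_comm, sum_comm (s := univ.filter (· ∈ s.K s.A))]
  refine sum_congr rfl fun v _ => ?_
  obtain ⟨b, hb, hv⟩ : ∃ b ∈ aa G s.A s.A, b • v = v := by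
    rcases tri (s := s) s.A v with rfl | h | h
    · exact ⟨t0, ht0, (mem_aa.mp ht0).2⟩
    · obtain ⟨b, b1, b2, b3, b4⟩ := exists_inv h
      exact ⟨b, mem_aa.mpr ⟨mem_D.mpr ⟨b3, b4, _, b1⟩, b1⟩, b2⟩
    · obtain ⟨b, b1, b2, b3⟩ := exists_inv_of_even (Q := S2 G s.A v) (by rwa [card_S2_na h])
      exact ⟨b, mem_aa.mpr ⟨mem_D.mpr ⟨b2, b3, _, b1.1⟩, b1.1⟩, b1.2⟩
  rw [aa_eq (s := s) ht0] at hb
  obtain ⟨y0, hy0, rfl⟩ := mem_image.mp hb
  have hy0' := (mem_filter.mp hy0).2
  have h1 := mem_aa.mp ht0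
  have h2 := mem_D.mp h1.1
  refine sum_nbij' (fun y => y⁻¹ * y0) (fun y => y0 * y⁻¹) (fun y hy => ?_) (fun y hy => ?_)
    (fun y _ => by group) (fun y _ => by group) fun y hy => ?_
  · simpa using mul_mem (inv_mem (mem_filter.mp hy).2) hy0'
  · simpa using mul_mem hy0' (inv_mem (mem_filter.mp hy).2)
  · have := inv_K h1.2 h2.1 h2.2.1 (inv_mem (mem_filter.mp hy).2)
    rw [inv_inv, mul_inv_eq_iff_eq_mul] at this
    rw [← mul_assoc, this, mul_assoc, mul_smul, hv]

open Classical in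
theorem dvd_sum_a1 : s.k * s.m ∣ ∑ y ∈ univ.filter (· ∈ s.K s.A), s.a1 y := by
  have := dvd_card_of_free (stabilizer G s.A)
    (((univ.filter (· ∈ s.K s.A)) ×ˢ (univ : Finset X)).filter fun p => s.adj p.2 (p.1 • p.2))
    (fun g p => (g * p.1 * g⁻¹, g • p.2)) (by simp) (by simp [mul_smul, mul_assoc])
    (fun g hg p hp => by
      simp only [mem_filter, mem_product, mem_univ, true_and, and_true] at hp ⊢
      exact ⟨K_conj' hg hp.1, by simpa [mul_smul, adj_smul] using hp.2⟩)
    (fun g hg p hp h => by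
      simp only [mem_filter, mem_product, mem_univ, true_and, and_true, Prod.ext_iff] at hp h
      have h1 : p.1 ≠ 1 := fun e => s.irr p.2 (by simpa [e] using hp.2)
      refine K_free' h0 (mem_K_of_comm hg hp.1 h1 (mul_inv_eq_iff_eq_mul.mp h.1)) (fun e => ?_) h.2
      rw [← e, K_fix hp.1] at hp
      exact s.irr _ hp.2)
  rw [← card_stab_k (s := s), card_filter, sum_product] at this
  simpa only [a1, card_filter] using this

theorem aa_full (h : 3 * s.el < 4 * (aa G s.A s.C).card) : (aa G s.A s.C).card = s.el := by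
  classical
  obtain ⟨t, ht⟩ : (aa G s.A s.C).Nonempty := card_pos.mp (by omega)
  have sw : ∀ t ∈ aa G s.A s.C, t • s.C = s.A := fun t ht => by
    rw [mem_aa, mem_D] at ht
    rw [← ht.2, ← mul_smul, ht.1.2.1, one_smul]
  have t1 := mem_aa.mp ht
  have t2 := (mem_D.mp t1.1).2.1
  have ti : t⁻¹ = t := inv_eq_of_mul_eq_one_right t2
  let α : S2 G s.A s.C →* S2 G s.A s.C :=
    { toFun := fun a => ⟨t * a * t⁻¹, by
        rw [mem_S2, mul_smul, mul_smul, mul_smul, mul_smul, ti, t1.2, sw t ht, a.2.1, a.2.2]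
        exact ⟨sw t ht, t1.2⟩⟩
      map_one' := by ext; simp
      map_mul' := fun a b => by ext; simp [mul_assoc] }
  let I : Finset (S2 G s.A s.C) := univ.filter fun a => t * a ∈ aa G s.A s.C
  have hI : I.card = (aa G s.A s.C).card := by
    refine card_bij (fun a _ => t * a) (fun a ha => (mem_filter.mp ha).2)
      (fun a _ b _ e => Subtype.ext (mul_left_cancel e)) fun b hb => ⟨⟨t * b, ?_⟩, ?_, ?_⟩
    · rw [mem_S2, mul_smul, mul_smul, (mem_aa.mp hb).2, sw b hb, sw t ht, t1.2]; exact ⟨rfl, rfl⟩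
    · simpa [I, ← mul_assoc, t2] using hb
    · simp [← mul_assoc, t2]
  have hL : Fintype.card (S2 G s.A s.C) = s.el := by rw [el, Nat.card_eq_fintype_card]
  obtain ⟨cm, hα⟩ := three_quarters α I (fun a ha => Subtype.ext (by
    have := (mem_D.mp (mem_aa.mp (mem_filter.mp ha).2).1).2.1
    change t * a * t⁻¹ = (a : G)⁻¹
    rw [ti, eq_inv_iff_mul_eq_one, mul_assoc, this])) (by omega)
  rw [← hI, ← hL, ← card_univ]
  congr 1
  rw [eq_univ_iff_forall]
  intro g
  let Q : Finset (S2 G s.A s.C) := univ.image fun a => g * (a * a)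
  have hQ : s.el ≤ 2 * Q.card := by
    rw [← hL, ← card_univ]
    refine card_le_mul_card_image _ 2 fun b hb => ?_
    obtain ⟨a0, -, rfl⟩ := mem_image.mp hb
    have h1 : ((univ.filter fun a => g * (a * a) = g * (a0 * a0)).erase a0).card ≤ 1 := by
      refine card_le_one.mpr fun a ha b hb => ?_
      have key : ∀ a ∈ (univ.filter fun a => g * (a * a) = g * (a0 * a0)).erase a0,
          ((a0⁻¹ * a : S2 G s.A s.C) : G) ∈ D G X := fun a ha => by
        simp only [mem_erase, mem_filter, mem_univ, true_and, mul_right_inj] at ha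
        refine mem_D.mpr ⟨fun e => ha.1 (inv_mul_eq_one.mp (Subtype.ext e)).symm, ?_, _,
          (a0⁻¹ * a).2.1⟩
        rw [← Subgroup.coe_mul, mul_assoc, ← mul_assoc a, cm a, mul_assoc, ha.2]
        simp
      have := same_of_mul_K (key a ha) (key b hb) (a0⁻¹ * a).2.1 (a0⁻¹ * b).2.1 (a0⁻¹ * a).2.2
        (a0⁻¹ * b).2.2 fun c hc => K_free' h0 hc s.ACne
      exact mul_left_cancel (Subtype.ext this)
    have := pred_card_le_card_erase (s := univ.filter fun a => g * (a * a) = g * (a0 * a0)) (a := a0)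
    omega
  obtain ⟨b, hb⟩ : (I ∩ Q).Nonempty := by
    have h1 := card_union_add_card_inter I Q
    have := card_le_univ (I ∪ Q)
    rw [← card_pos]; omega
  obtain ⟨b1, b2⟩ := mem_inter.mp hb
  obtain ⟨a, -, rfl⟩ := mem_image.mp b2
  have b3 := mem_aa.mp (mem_filter.mp b1).2
  have e : (a : G) * (t * ((g * (a * a) : S2 G s.A s.C) : G)) * (a : G)⁻¹ = t * g := by
    have e1 : t * a * t⁻¹ = (a : G)⁻¹ := congrArg Subtype.val (hα a)
    have e2 : (a : G) * g = g * a := congrArg Subtype.val (cm a g)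
    have e3 : (a : G) * t * a = t := by
      rw [mul_assoc, mul_inv_eq_iff_eq_mul.mp e1]; group
    push_cast
    calc (a : G) * (t * (g * (a * a))) * (a : G)⁻¹ = a * t * (g * a) := by group
      _ = _ := by rw [← e2, ← mul_assoc, e3]
  refine mem_filter.mpr ⟨mem_univ _, mem_aa.mpr ⟨e ▸ (D_conj _).mpr b3.1, ?_⟩⟩
  rw [mul_smul, g.2.1, t1.2]

end St

end Cfsg.Agent.Part.Rk
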