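import Mathlib
import Cfsg.Agent.Part.Rk6

/-!
# Rank 3 groups with a Frobenius suborbit: the numbers
-/

set_option autoImplicit false

namespace Cfsg.Agent.Part.Rk

open MulAction Finset Subgroup

theorem num21 {u e θ d : ℤ} (hu : 2 ≤ u) (he : 2 ≤ e) (he2 : Even e) (hd : 0 < d)
    (h1 : 2 * θ = u * e - e + d) (h2 : d ^ 2 = (u * e - e) ^ 2 + 4 * (2 * (u * e) + 1 - e)) :
    False := by
  obtain ⟨τ, hτ⟩ : ∃ τ, τ = θ - (u * e - e) := ⟨_, rfl⟩
  have hm : 2 * e ≤ u * e := by nlinarith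
  set m := u * e
  have e1 : τ * (τ + (m - e)) = 2 * m + 1 - e := by
    have : d = 2 * τ + (m - e) := by linarith
    rw [this] at h2; nlinarith
  have e2 : 0 < τ := by
    by_contra hc
    have : 0 < τ + (m - e) := by linarith
    nlinarith
  obtain ⟨j, hj⟩ := he2
  rcases (by omega : τ = 1 ∨ τ = 2 ∨ 3 ≤ τ) with h | h | h
  · rw [h] at e1; omega
  · rw [h] at e1; omega
  · nlinarith

theorem num0 {u μ θ d : ℤ} (hu : 2 ≤ u) (hμ : 1 ≤ μ) (hd : 0 < d) (h1 : 2 * θ = 0 - μ + d)
    (h2 : d ^ 2 = (0 - μ) ^ 2 + 4 * (u * μ + 1 - μ)) :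
    d = μ + 2 * θ ∧ θ ^ 2 - 1 = μ * (u - 1 - θ) ∧ 1 ≤ θ ∧ θ ≤ u - 1 := by
  have e0 : d = μ + 2 * θ := by linarith
  have e1 : θ ^ 2 - 1 = μ * (u - 1 - θ) := by rw [e0] at h2; nlinarith
  have e2 : 1 ≤ θ := by
    by_contra hc
    have : 0 < θ + μ := by linarith
    nlinarith
  refine ⟨e0, e1, e2, ?_⟩
  by_contra hc
  nlinarith

theorem num22 {u e θ d a1 a2 c : ℤ} (hu : 2 ≤ u) (hu2 : Even u) (he : 2 ≤ e) (he2 : Even e)
    (hd : 0 < d) (h1 : 2 * θ = 0 - 2 * e + d)
    (h2 : d ^ 2 = (0 - 2 * e) ^ 2 + 4 * (u * (2 * e) + 1 - 2 * e))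
    (hz : (u + 2) * (a1 + u * a2) = u * (2 * e) * (u + 1)) (ha2 : a2 ≤ e) (hc : 0 ≤ c)
    (E1 : d ∣ (θ * (u + 1) + 1) * (u * (2 * e) + 1))
    (E3 : d * c = θ * (u + 1) + (u * (2 * e) + 1) - (u + 2) * a1) : False := by
  obtain ⟨e0, e1, e2, e3⟩ := num0 hu (by omega) hd h1 h2
  have f1 : u * e * u ≤ (u + 2) * a1 := by
    have : (u + 2) * (u * a2) ≤ (u + 2) * (u * e) := by gcongr
    nlinarith
  have f2 : 0 ≤ d * c := by positivity
  have f3 : θ * (u + 1) ≤ (u - 1) * (u + 1) := by gcongr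
  have f4 : e * (u - 2) ≤ u := by
    refine le_of_mul_le_mul_left (a := u) ?_ (by omega)
    nlinarith
  have f5 : u ≤ 4 := by nlinarith
  obtain ⟨j, hj⟩ := hu2
  obtain ⟨i, hi⟩ := he2
  rcases (by omega : u = 2 ∨ u = 4) with rfl | rfl
  · have : θ = 1 := by omega
    subst this
    have g1 : d ∣ 12 := by
      have : (12 : ℤ) = 8 * d - (1 * (2 + 1) + 1) * (2 * (2 * e) + 1) := by rw [e0]; ring
      rw [this]; exact dvd_sub (Dvd.intro_left _ rfl) E1
    have := Int.le_of_dvd (by norm_num) g1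
    rcases (by omega : e = 2 ∨ e = 4) with rfl | rfl
    · subst e0; omega
    · subst e0; norm_num at g1
  · have : e = 2 := by omega
    subst this; omega

theorem num11 {u μ θ d a1 a2 c κ : ℤ} (hu : 2 ≤ u) (hu2 : Even u) (he : 2 ≤ μ) (he2 : Even μ)
    (hd : 0 < d) (h1 : 2 * θ = 0 - μ + d) (h2 : d ^ 2 = (0 - μ) ^ 2 + 4 * (u * μ + 1 - μ))
    (hz : (u + 2) * (a1 + u * a2) = u * μ * (u + 1)) (hc : 0 ≤ c)
    (E3 : d * c = θ * (u + 1) + (u * μ + 1) - (u + 2) * a1) (hκ : (u + 2) * a1 = u * μ * κ)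
    (hκ0 : 0 ≤ κ) (h0 : κ = 0 → d ∣ u * μ + 1) (h34 : 3 * μ < 4 * a2 → a2 = μ) :
    u = 2 ∧ μ = 2 := by
  obtain ⟨e0, e1, e2, e3⟩ := num0 hu (by omega) hd h1 h2
  obtain ⟨r, hr⟩ : ∃ r, 2 * μ = (u + 2) * r := ⟨a1 + u * a2 - μ * (u - 1), by linarith⟩
  have r1 : 1 ≤ r := by
    by_contra hc
    nlinarith
  have f2 : 0 ≤ d * c := by positivity
  have f3 : θ * (u + 1) ≤ (u - 1) * (u + 1) := by gcongr
  obtain ⟨j, hj⟩ := hu2
  obtain ⟨i, hi⟩ := he2
  rcases (by omega : κ = 0 ∨ κ = 1 ∨ 2 ≤ κ) with h | h | h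
  · obtain ⟨x, hx⟩ := h0 h
    have : Even (d * x) := Even.mul_right ⟨i + θ, by omega⟩ x
    rw [← hx, hj, Int.even_add_one] at this
    exact absurd ⟨j * μ, by ring⟩ this
  · subst h
    have g1 : (u + 2) * a2 = u * μ := by
      refine mul_left_cancel₀ (a := u) (by omega) ?_
      linarith
    have g2 : d * c = θ * (u + 1) + 1 := by linarith
    have g3 : u ≤ 6 := by
      by_contra hc
      have := h34 (by nlinarith)
      rw [this] at g1; nlinarith
    rcases (by omega : u = 2 ∨ u = 4 ∨ u = 6) with rfl | rfl | rfl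
    · have : θ = 1 := by omega
      subst this
      have := Int.le_of_dvd (by norm_num) (Dvd.intro _ g2)
      omega
    · exfalso; interval_cases θ <;> omega
    · exfalso
      interval_cases θ
      · omega
      · omega
      · have : μ = 4 := by omega
        subst this; subst e0; omega
      · omega
      · omega
  · have g1 : u * μ * 2 ≤ u * μ * κ := by gcongr
    have g2 : u * μ ≤ θ * (u + 1) + 1 := by linarith
    rcases (by omega : r = 1 ∨ 2 ≤ r) with rfl | hr2
    · have g3 : u = 2 * μ - 2 := by omega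
      subst g3
      have : (θ - (μ - 1)) * (θ + 2 * μ - 1) = 0 := by linarith
      have g4 : θ = μ - 1 := by
        rcases mul_eq_zero.mp this with h | h <;> omega
      subst g4
      have : μ ≤ 2 := by nlinarith
      omega
    · exfalso
      have : u + 2 ≤ μ := by nlinarith
      nlinarith

variable {G X : Type*} [Group G] [Fintype G] [Fintype X] [MulAction G X]

namespace St

variable {s : St G X}

set_option maxHeartbeats 1600000 in
theorem semireg (h0 : s.K s.A ⊓ stabilizer G s.C = ⊥) :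
    (s.k = 3 ∧ s.l = 6 ∧ s.m = 2) ∨ (s.k = 5 ∧ s.l = 10) := by
  classical
  obtain ⟨u, hu⟩ := k_dvd_l h0
  have hk := two_le_k (s := s)
  have hm : s.m = u * s.el := by
    have := km_eq (s := s)
    rw [hu, mul_assoc] at this
    exact Nat.eq_of_mul_eq_mul_left (by omega) this
  obtain ⟨w, hw⟩ := m_dvd (s := s)
  obtain ⟨r, hr⟩ := el_dvd_mu (s := s)
  have hlam : s.lam + s.m * r = s.m * w := by
    have h1 := srg (s := s)
    have h2 := card_NΓ s.AB
    rw [hu, mul_assoc] at h1
    have h3 := Nat.eq_of_mul_eq_mul_left (by omega) h1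
    rw [hr, ← mul_assoc, ← hm] at h3
    omega
  have hm1 := one_lt_m (s := s)
  have hel := el_pos (s := s)
  have hr1 : 1 ≤ r := by
    have := mu_pos (s := s)
    rcases r with _ | r
    · omega
    · omega
  have hrw : r ≤ w := Nat.le_of_mul_le_mul_left (c := s.m) (by omega) (by omega)
  have hu1 : 1 ≤ u := by
    rcases u with _ | u
    · omega
    · omega
  obtain ⟨t, ht⟩ := exists_aa s s.A
  have ht' := (mem_aa.mp ht).1
  have hf := even_fx (s := s) (g := t) fun e => not_K ht' s.A (mem_K_of_pow (mem_aa.mp ht).2 e cop)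
  have c1 := k_mul_fx h0 ht'
  have c2 := card_D_fx (s := s) ht'
  have c3 := card_D (s := s)
  have c4 := card_D_a1 (s := s) ht'
  have b1 := card_aa_le (G := G) s.A s.B
  have b2 := card_aa_le (G := G) s.A s.C
  change _ ≤ s.m at b1
  change _ ≤ s.el at b2
  have h34 := aa_full h0
  generalize (aa G s.A s.B).card = a1 at *
  generalize (aa G s.A s.C).card = a2 at *
  generalize (fx (X := X) t).card = f at *
  have hn := card_X (s := s)
  have hz : (1 + a1 + u * a2) * f = 1 + s.k + s.k * u := by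
    refine Nat.eq_of_mul_eq_mul_left (show 0 < s.k by omega) ?_
    rw [← hu, ← hn, mul_comm s.k (Fintype.card X), ← c2, c3, hu]; ring
  have hα : s.a1 t = f * a1 := by
    refine Nat.eq_of_mul_eq_mul_left (show 0 < (D G X).card by omega) ?_
    rw [c4, ← mul_assoc, ← mul_assoc, c2]
  have hb : u * a2 ≤ s.m := by rw [hm]; gcongr
  have hkw : s.k = s.m * w + 1 := by omega
  have hme := even_m (s := s)
  have E1' : ∀ θ : ℤ, θ * (fx (X := X) (1 : G)).card - s.a1 1 + s.k - θ =
      (θ * (u + 1) + 1) * s.k := fun θ => by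
    rw [a1_one, fx_one, hn, hu]; push_cast; ring
  by_cases he : Even s.el
  · right
    rw [if_pos he, hu] at c1
    have hf2 : f = u + 2 := Nat.eq_of_mul_eq_mul_left (show 0 < s.k by omega) (by rw [c1]; ring)
    have hu2 : Even u := by rw [hf2] at hf; simpa [Nat.even_add] using hf
    have hu3 : 2 ≤ u := by obtain ⟨j, hj⟩ := hu2; omega
    have he3 : 2 ≤ s.el := by obtain ⟨j, hj⟩ := he; omega
    have hw2 : w ≤ 2 := by
      by_contra hc
      have h1 : s.m * 3 ≤ s.m * w := Nat.mul_le_mul_left _ (by omega)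
      have h2 : (1 + a1 + u * a2) * f ≤ (1 + 2 * s.m) * (u + 2) := by rw [hf2]; exact Nat.mul_le_mul_right _ (by omega)
      rw [hz, hkw] at h2
      nlinarith
    have hue : s.el * 2 ≤ s.m := by rw [hm, mul_comm]; gcongr
    obtain ⟨θ, d, hd, h1, h2, E2, E3⟩ := eig (s := s) (by
      rw [hu]; push_cast
      rcases (by omega : r = w ∨ (r = 1 ∧ w = 2)) with rfl | ⟨rfl, rfl⟩
      · have : s.lam = 0 := by omega
        rw [this]
        have h1 : (1 : ℤ) ≤ s.mu := by exact_mod_cast mu_pos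
        have h2 : (2 : ℤ) ≤ u := by exact_mod_cast hu3
        have h3 : (2 : ℤ) ≤ s.k := by exact_mod_cast hk
        have : (s.k : ℤ) * 2 ≤ s.k * u := by gcongr
        push_cast; nlinarith
      · have : (s.mu : ℤ) ≤ s.lam := by exact_mod_cast (by omega)
        have h3 : (2 : ℤ) ≤ s.k := by exact_mod_cast hk
        have : 0 ≤ ((s.lam : ℤ) - s.mu) * (s.k + s.k * u) := by
          apply mul_nonneg (by omega); positivity
        omega)
    obtain ⟨c, hc⟩ := E3 (s.K s.A)
    have hs := sum_a1 h0 he ht'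
    have E3' : d * c = θ * (u + 1) + s.k - (u + 2) * a1 := by
      refine mul_right_cancel₀ (b := (s.k : ℤ)) (by omega) ?_
      have e1 : ∑ g ∈ univ.filter (· ∈ s.K s.A), ((fx (X := X) g).card : ℤ) =
          Fintype.card X + (s.k - 1) := by
        rw [← add_sum_erase _ _ (show 1 ∈ univ.filter (· ∈ s.K s.A) by simpa using one_mem _),
          fx_one, sum_congr rfl (g := fun _ => (1 : ℤ)) fun g hg => by
            simp only [mem_erase, mem_filter] at hg
            rw [fx_K h0 hg.2.2 hg.1]; rfl]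
        rw [sum_const, card_erase_of_mem (by simpa using one_mem _), card_sub_eq, card_K]
        simp [Nat.cast_sub (show 1 ≤ s.k by omega)]
      have e2 : ∑ g ∈ univ.filter (· ∈ s.K s.A), (s.a1 g : ℤ) = s.k * ((u + 2) * a1) := by
        rw [← Nat.cast_sum, hs, hα, hf2]; push_cast; ring
      rw [card_K] at hc
      rw [hc, sum_sub_distrib, sum_add_distrib, sum_sub_distrib, ← mul_sum, e1, e2, sum_const,
        sum_const, card_sub_eq, card_K, hn, hu]
      push_cast; simp only [nsmul_eq_mul]; ring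
    have hz' : ((u : ℤ) + 2) * (a1 + u * a2) = (s.k - 1) * (u + 1) := by
      rw [hf2] at hz; zify at hz; linarith
    have E1 := E2 1
    rw [E1'] at E1
    have hu2' : Even (u : ℤ) := by exact_mod_cast hu2
    have he' : Even (s.el : ℤ) := by exact_mod_cast he
    have hu3' : (2 : ℤ) ≤ u := by exact_mod_cast hu3
    have he3' : (2 : ℤ) ≤ s.el := by exact_mod_cast he3
    rcases (by omega : (r = 1 ∧ w = 1) ∨ (r = 1 ∧ w = 2) ∨ (r = 2 ∧ w = 2)) with
      ⟨rfl, rfl⟩ | ⟨rfl, rfl⟩ | ⟨rfl, rfl⟩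
    · have l0 : (s.lam : ℤ) = 0 := by omega
      have l1 : (s.mu : ℤ) = s.el := by omega
      have l2 : (s.k : ℤ) = u * s.el + 1 := by rw [hkw, hm]; push_cast; ring
      obtain ⟨κ, hκ⟩ := dvd_sum_a1 h0
      have hκ' : f * a1 = s.m * κ := by
        rw [hs, hα, mul_assoc] at hκ
        exact Nat.eq_of_mul_eq_mul_left (by omega) hκ
      rw [l0, l1] at h1
      rw [l0, l1, l2] at h2
      have := num11 (κ := κ) (a1 := a1) (a2 := a2) (c := c) hu3' hu2' he3' he' hd h1 h2
        (by rw [hz', l2]; ring) (by positivity) (by rw [E3', l2])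
        (by rw [hf2, hm] at hκ'; exact_mod_cast hκ') (by positivity) (fun e => by
          obtain ⟨y, hy, hy1⟩ := exists_K (s := s) s.A
          have e1 : κ = 0 := by exact_mod_cast e
          rw [e1, mul_zero, sum_eq_zero_iff] at hκ
          have := E2 y
          rw [hκ y (by simpa using hy), fx_K h0 hy hy1, l2] at this
          simpa using this)
        (fun e => by exact_mod_cast h34 (by exact_mod_cast e))
      have g1 : u = 2 := by exact_mod_cast this.1
      have g2 : s.el = 2 := by exact_mod_cast this.2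
      subst g1; omega
    · exfalso
      have l0 : (s.lam : ℤ) = u * s.el := by exact_mod_cast (by omega)
      have l1 : (s.mu : ℤ) = s.el := by omega
      have l2 : (s.k : ℤ) = 2 * (u * s.el) + 1 := by rw [hkw, hm]; push_cast; ring
      rw [l0, l1] at h1
      rw [l0, l1, l2] at h2
      exact num21 hu3' he3' he' hd h1 h2
    · exfalso
      have l0 : (s.lam : ℤ) = 0 := by omega
      have l1 : (s.mu : ℤ) = 2 * s.el := by omega
      have l2 : (s.k : ℤ) = u * (2 * s.el) + 1 := by rw [hkw, hm]; push_cast; ring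
      rw [l0, l1] at h1
      rw [l0, l1, l2] at h2
      exact num22 (a1 := a1) (a2 := a2) (c := c) hu3' hu2' he3' he' hd h1 h2
        (by rw [hz', l2]; ring) (by exact_mod_cast b2) (by positivity) (l2 ▸ E1) (by rw [E3', l2])
  · left
    rw [if_neg he] at c1
    have hf2 : f = 2 := Nat.eq_of_mul_eq_mul_left (show 0 < s.k by omega) (by rw [c1]; ring)
    have hu2 : Even u := by rw [hm, Nat.even_mul] at hme; exact hme.resolve_right he
    have hu3 : 2 ≤ u := by obtain ⟨j, hj⟩ := hu2; omega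
    rw [hf2, hkw] at hz
    have h1 : (u + 1) * w ≤ 3 := by
      by_contra hc
      have : s.m * 4 ≤ s.m * ((u + 1) * w) := Nat.mul_le_mul_left _ (by omega)
      nlinarith
    have g1 : u = 2 := by nlinarith
    subst g1
    have g2 : w = 1 := by omega
    subst g2
    have g3 : r = 1 := by omega
    subst g3
    have l0 : (s.lam : ℤ) = 0 := by omega
    have l1 : (s.mu : ℤ) = s.el := by omega
    have l2 : (s.k : ℤ) = 2 * s.el + 1 := by omega
    obtain ⟨θ, d, hd, h1, h2, E2, -⟩ := eig (s := s) (by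
      rw [hu, l0, l1]; push_cast
      have : (1 : ℤ) ≤ s.el := by omega
      nlinarith)
    have E1 := E2 1
    rw [E1', l2] at E1
    rw [l0, l1] at h1
    rw [l0, l1, l2] at h2
    obtain ⟨e0, -, e2, e3⟩ := num0 (u := 2) le_rfl (by omega) hd h1 h2
    have : θ = 1 := by omega
    subst this
    have g1 : d ∣ 12 := by
      have : (12 : ℤ) = 8 * d - (1 * ((2 : ℕ) + 1) + 1) * (2 * s.el + 1) := by
        rw [e0]; push_cast; ring
      rw [this]; exact dvd_sub (Dvd.intro_left _ rfl) E1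
    have g2 := Int.le_of_dvd (by norm_num) g1
    have : s.el = 1 := by
      rw [Nat.not_even_iff_odd] at he
      obtain ⟨j, hj⟩ := he
      have : j ≤ 4 := by omega
      subst e0
      rw [hj] at g1 ⊢
      interval_cases j
      · rfl
      all_goals exact absurd g1 (by decide)
    omega

theorem main (s : St G X) : (s.k = 3 ∧ s.l = 6 ∧ s.m = 2) ∨ (s.k = 5 ∧ s.l = 10) ∨
    (s.k = 9 ∧ s.l = 6) := by
  by_cases h0 : s.K s.A ⊓ stabilizer G s.C = ⊥
  · rcases semireg h0 with h | h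
    · exact Or.inl h
    · exact Or.inr (Or.inl h)
  · exact Or.inr (Or.inr (grid h0))

end St

end Cfsg.Agent.Part.Rk
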