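import Mathlib
import Cfsg.Agent.Char.Indicator
import Cfsg.Agent.Char.Constit
import Cfsg.Agent.Char.Det
import Cfsg.Agent.Char.Kernel
import Cfsg.Agent.Char.IndRep

/-!
# Groups with an element `u` with `χ 1 - χ u = 4` or `χ u = 0`: small characters
-/

set_option autoImplicit false

open scoped ComplexConjugate

namespace Cfsg.Agent.Part

open Cfsg Cfsg.Agent.Char Cfsg.Agent.Char.Constit Cfsg.Agent.Char.Det

variable {G : Type*} [Group G] [Fintype G]

/-- Average over the group. -/
noncomputable def av (f : G → ℂ) : ℂ := (Nat.card G : ℂ)⁻¹ * ∑ g, f g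

theorem av_add (a b : G → ℂ) : av (fun g => a g + b g) = av a + av b := by
  simp [av, Finset.sum_add_distrib, mul_add]

theorem av_sub (a b : G → ℂ) : av (fun g => a g - b g) = av a - av b := by
  simp [av, Finset.sum_sub_distrib, mul_sub]

theorem av_mul (c : ℂ) (a : G → ℂ) : av (fun g => c * a g) = c * av a := by
  simp only [av, ← Finset.mul_sum]; ring

theorem av_congr {a b : G → ℂ} (h : ∀ g, a g = b g) : av a = av b := by
  rw [funext h]

theorem av_inner (a b : G → ℂ) : classInner a b = av (fun g => a g * conj (b g)) := rfl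

theorem av_one_right (a : G → ℂ) : classInner a (fun _ => 1) = av a := by
  simp [av_inner]

theorem av_const_one : av (fun _ : G => (1 : ℂ)) = 1 := by
  rw [← av_one_right]; exact classInner_one_one

theorem inner_deg_ne {a b : G → ℂ} (ha : IsIrrCharacter G a) (hb : IsIrrCharacter G b)
    (h : a 1 ≠ b 1) : classInner a b = 0 :=
  classInner_isIrr_ne ha hb fun e => h (by rw [e])

theorem nat_add_one_ne (n : ℕ) : (n : ℂ) + 1 ≠ 0 := by exact_mod_cast Nat.succ_ne_zero n

/-- A constituent with a value of the same sign. -/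
theorem exists_const_sign {θ : G → ℂ} (h : IsCharacter G θ) (u : G) (c : ℝ)
    (hp : 0 < c * (θ u).re) :
    ∃ ψ, IsIrrCharacter G ψ ∧ classInner θ ψ ≠ 0 ∧ 0 < c * (ψ u).re := by
  refine isChar_induction (P := fun θ => 0 < c * (θ u).re →
    ∃ ψ, IsIrrCharacter G ψ ∧ classInner θ ψ ≠ 0 ∧ 0 < c * (ψ u).re) h ?_ ?_ ?_ hp
  · intro ψ hψ h1
    exact ⟨ψ, hψ, by rw [classInner_isIrr_self hψ]; exact one_ne_zero, h1⟩
  · intro h1; simp at h1
  · intro φ ψ hφ hψ i1 i2 h1
    simp only [Pi.add_apply, Complex.add_re, mul_add] at h1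
    by_cases h2 : 0 < c * (φ u).re
    · obtain ⟨η, a, b, d⟩ := i1 h2
      exact ⟨η, a, inner_add_ne_zero_left hφ hψ (isIrr_isChar a) b, d⟩
    · obtain ⟨η, a, b, d⟩ := i2 (by linarith)
      exact ⟨η, a, add_comm ψ φ ▸ inner_add_ne_zero_left hψ hφ (isIrr_isChar a) b, d⟩

/-- The hypothesis. -/
def ZH (u : G) : Prop :=
  ∀ χ, IsIrrCharacter G χ → χ ≠ (fun _ => 1) → χ 1 - χ u = 4 ∨ χ u = 0

/-- Degree three, value `-1`. -/
def ZT3 (u : G) (χ : G → ℂ) : Prop := IsIrrCharacter G χ ∧ χ 1 = 3 ∧ χ u = -1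

namespace ZH

variable {u : G} (H : ZH u)
include H

theorem lin {χ : G → ℂ} (h : IsCharacter G χ) (h1 : χ 1 = 1) : χ = fun _ => 1 := by
  by_contra hn
  obtain ⟨lam, rfl⟩ := isChar_linear_of_degree_one h h1
  have hN := linear_norm lam u
  rcases H _ (isIrr_linear lam) hn with e | e
  · simp only [map_one, Units.val_one] at e
    have : (lam u : ℂ) = -3 := by linear_combination -e
    rw [this] at hN
    norm_num at hN
  · rw [show (lam u : ℂ) = 0 from e] at hN
    norm_num at hN

theorem pos {θ : G → ℂ} (h : IsCharacter G θ) (h1 : av θ = 0) (hp : 0 < (θ u).re) :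
    ∃ β, IsIrrCharacter G β ∧ classInner θ β ≠ 0 ∧ ∃ a : ℕ, 1 ≤ a ∧ β 1 = (a + 4 : ℕ) ∧ β u = a := by
  obtain ⟨β, b1, b2, b3⟩ := exists_const_sign h u 1 (by simpa using hp)
  have b4 : β ≠ fun _ => 1 := fun e => b2 (by rw [e, av_one_right, h1])
  obtain ⟨n, -, hn⟩ := isIrr_degree b1
  rcases H β b1 b4 with e | e
  · have e2 : β u = n - 4 := by linear_combination hn - e
    rw [e2] at b3
    simp at b3
    have : 4 < n := by exact_mod_cast b3
    obtain ⟨a, rfl⟩ : ∃ a, n = a + 4 := ⟨n - 4, by omega⟩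
    refine ⟨β, b1, b2, a, by omega, hn, by rw [e2]; push_cast; ring⟩
  · rw [e] at b3; simp at b3

omit H in
theorem mul_conj_sub {χ : G → ℂ} (h : IsIrrCharacter G χ) :
    IsCharacter G (fun g => χ g * conj (χ g) - 1) ∧ av (fun g => χ g * conj (χ g) - 1) = 0 := by
  have e : av (fun g => χ g * conj (χ g)) = 1 := classInner_isIrr_self h
  refine ⟨isChar_sub_constituent (isChar_mul (isIrr_isChar h) (isChar_conj (isIrr_isChar h)))
    isIrr_one (by rw [av_one_right]; exact e ▸ one_ne_zero), ?_⟩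
  rw [av_sub, e, av_const_one, sub_self]

theorem cases {χ : G → ℂ} (h : IsIrrCharacter G χ) : χ = (fun _ => 1) ∨ χ u = 0 ∨ ZT3 u χ ∨
    ∃ a : ℕ, 1 ≤ a ∧ χ 1 = (a + 4 : ℕ) ∧ χ u = a := by
  by_cases h0 : χ = fun _ => 1
  · exact Or.inl h0
  refine Or.inr ?_
  rcases H χ h h0 with e | e
  swap
  · exact Or.inl e
  obtain ⟨n, hn0, hn⟩ := isIrr_degree h
  have e2 : χ u = n - 4 := by linear_combination hn - e
  rcases lt_or_ge 4 n with h4 | h4
  · obtain ⟨a, rfl⟩ : ∃ a, n = a + 4 := ⟨n - 4, by omega⟩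
    exact Or.inr (Or.inr ⟨a, by omega, hn, by rw [e2]; push_cast; ring⟩)
  interval_cases n
  · exact absurd (H.lin (isIrr_isChar h) (by simpa using hn)) h0
  · exfalso
    obtain ⟨c1, c2⟩ := mul_conj_sub h
    have e3 : χ u = -2 := by rw [e2]; norm_num
    obtain ⟨β, b1, b2, a, a1, a2, -⟩ := H.pos c1 c2 (by simp [e3]; norm_num)
    have := degree_le_of_inner_ne_zero c1 b1 b2 (a := 3) (by simp [hn, map_ofNat]; norm_num) a2
    omega
  · exact Or.inr (Or.inl ⟨h, by simpa using hn, by rw [e2]; norm_num⟩)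
  · exact Or.inl (by rw [e2]; norm_num)

theorem neg {θ : G → ℂ} (h : IsCharacter G θ) (hp : (θ u).re < 0) :
    ∃ α, ZT3 u α ∧ classInner θ α ≠ 0 := by
  obtain ⟨β, b1, b2, b3⟩ := exists_const_sign h u (-1) (by simpa using hp)
  rcases H.cases b1 with e | e | e | ⟨a, -, -, e⟩
  · rw [e] at b3; norm_num at b3
  · rw [e] at b3; norm_num at b3
  · exact ⟨β, e, b2⟩
  · rw [e] at b3; simp at b3; exact absurd b3 (not_lt.mpr (Nat.cast_nonneg a))

theorem alt {χ : G → ℂ} (h : IsCharacter G χ) (h3 : χ 1 = 3) (g : G) :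
    χ (g * g) = χ g * χ g - 2 * conj (χ g) := by
  obtain ⟨n, M, hM⟩ := IndRep.exists_matrix_of_isChar h
  have hn : n = 3 := by
    have := hM 1
    rw [map_one, Matrix.trace_one, h3, Fintype.card_fin] at this
    exact_mod_cast this
  subst hn
  have e : χ = fun g => (M g).trace := funext fun g => (hM g).symm
  have hd : (M g).det = 1 := by
    rw [← detChar_matrix M g, ← e, H.lin (isChar_detChar h) (detChar_one h)]
  have hi : M g⁻¹ = (M g).adjugate := by
    have h1 : M g⁻¹ * M g = 1 := by rw [← map_mul, inv_mul_cancel, map_one]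
    have h2 := Matrix.mul_adjugate (M g)
    rw [hd, one_smul] at h2
    rw [← mul_one (M g⁻¹), ← h2, ← mul_assoc, h1, one_mul]
  rw [← isChar_inv h, ← hM, ← hM, ← hM, map_mul, hi, Matrix.adjugate_fin_three]
  simp [Matrix.trace, Matrix.mul_apply, Fin.sum_univ_three]
  ring

theorem sym {χ : G → ℂ} (h : IsCharacter G χ) (h3 : χ 1 = 3) :
    IsCharacter G (fun g => χ g * χ g - conj (χ g)) := by
  obtain ⟨α, β, a1, -, a3, a4⟩ := isChar_exists_sym_alt h
  convert a1 using 1
  funext g
  have e1 := congrFun a3 g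
  have e2 := congrFun a4 g
  simp only [Pi.mul_apply, Pi.add_apply, Pi.sub_apply, H.alt h h3 g] at e1 e2
  linear_combination (e1 + e2) / 2

theorem av_eq_zero {χ : G → ℂ} (h : IsIrrCharacter G χ) (h1 : χ 1 ≠ 1) : av χ = 0 := by
  rw [← av_one_right]; exact inner_deg_ne h isIrr_one h1

theorem irr_re {χ : G → ℂ} (h : IsIrrCharacter G χ) : -1 ≤ (χ u).re := by
  rcases H.cases h with e | e | e | ⟨a, -, -, e⟩
  · rw [e]; norm_num
  · rw [e]; norm_num
  · rw [e.2.2]; norm_num
  · rw [e]; simp; linarith [(Nat.cast_nonneg a : (0 : ℝ) ≤ a)]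

/-- A character of degree four, value zero and without principal constituent. -/
theorem four {δ : G → ℂ} (h : IsCharacter G δ) (h4 : δ 1 = 4) (h0 : av δ = 0) :
    ∃ η, IsIrrCharacter G η ∧ classInner δ η ≠ 0 ∧ η u = 0 ∧ ∃ d : ℕ, d ≤ 4 ∧ η 1 = d := by
  obtain ⟨η, a, b⟩ := exists_constituent h (fun e => by rw [e] at h4; norm_num at h4)
  obtain ⟨d, -, hd⟩ := isIrr_degree a
  have hle := degree_le_of_inner_ne_zero h a b (a := 4) (by simpa using h4) hd
  refine ⟨η, a, b, ?_, d, hle, hd⟩
  rcases H.cases a with e | e | e | ⟨c, c1, c2, -⟩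
  · exact absurd (by rw [e, av_one_right, h0]) b
  · exact e
  · exfalso
    have c1 := H.lin (isChar_sub_constituent h a b) (by simp [h4, e.2.1]; norm_num)
    have c2 : av (fun g => δ g - η g) = 1 := by
      rw [← av_const_one (G := G), ← c1]; rfl
    rw [av_sub, h0, H.av_eq_zero a (by rw [e.2.1]; norm_num)] at c2
    norm_num at c2
  · have : d = c + 4 := by exact_mod_cast hd.symm.trans c2
    omega

/-- The symmetric square of a `ZT3` character is not irreducible. -/
theorem not_irr_sym {χ : G → ℂ} (h : ZT3 u χ) :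
    ¬ IsIrrCharacter G (fun g => χ g * χ g - conj (χ g)) := by
  intro hs
  obtain ⟨h1, h3, hu⟩ := h
  have hc := isIrr_isChar h1
  have hb := isIrr_conj h1
  set σ : G → ℂ := fun g => χ g * χ g - conj (χ g) with hσ
  have s1 : σ 1 = 6 := by simp [hσ, h3, map_ofNat]; norm_num
  have su : σ u = 2 := by simp [hσ, hu]; norm_num
  obtain ⟨p1, p2⟩ := mul_conj_sub h1
  set ψ : G → ℂ := fun g => χ g * conj (χ g) - 1 with hψ
  have q1 : ψ 1 = 8 := by simp [hψ, h3, map_ofNat]; norm_num
  have qu : ψ u = 0 := by simp [hψ, hu]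
  have i1 : av (fun g => σ g * conj (σ g)) = 1 := classInner_isIrr_self hs
  have i2 : classInner σ (fun g => conj (χ g)) = 0 :=
    inner_deg_ne hs hb (by simp [s1, h3, map_ofNat])
  have i2' : classInner (fun g => conj (χ g)) σ = 0 := classInner_eq_zero_comm.mp i2
  have i3 : av (fun g => χ g * conj (χ g)) = 1 := classInner_isIrr_self h1
  rw [av_inner] at i2 i2'
  have hψi : IsIrrCharacter G ψ := by
    refine isIrr_of_inner_self p1 ?_
    rw [av_inner, av_congr (b := fun g => σ g * conj (σ g) + σ g * conj (conj (χ g)) +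
      conj (χ g) * conj (σ g) - χ g * conj (χ g) + 1) (fun g => by simp [hσ, hψ]; ring)]
    simp only [av_add, av_sub, i1, i2, i2', i3, av_const_one]
    ring
  have hσc := isIrr_isChar hs
  have t0 : classInner (σ * χ) ψ ≠ 0 := by
    obtain ⟨n, hn⟩ := classInner_isChar_nat (isChar_mul hσc hσc) hc
    rw [av_inner] at hn ⊢
    rw [av_congr (b := fun g => (σ * σ) g * conj (χ g) + σ g * conj (σ g)) (fun g => by
        simp [hσ, hψ]; ring)]
    simp only [av_add, i1, hn]
    exact nat_add_one_ne n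
  have τc := isChar_sub_constituent (isChar_mul hσc hc) hψi t0
  obtain ⟨α, ⟨a1, a2, a3⟩, a4⟩ := H.neg τc (by simp [su, hu, qu])
  have τ2 := isChar_sub_constituent τc a1 a4
  obtain ⟨β, ⟨b1, b2, b3⟩, b4⟩ := H.neg τ2 (by simp [su, hu, qu, a3])
  have τ3 := isChar_sub_constituent τ2 b1 b4
  obtain ⟨η, e1, e2, e3, d, d4, hd⟩ := H.four τ3 (by simp [s1, h3, q1, a2, b2]; norm_num) (by
    have := av_congr (a := σ * χ - ψ - α - β)
      (b := fun g => σ g * conj (conj (χ g)) - ψ g - α g - β g) (fun g => by simp)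
    rw [this]
    simp only [av_sub, i2, p2, H.av_eq_zero a1 (by rw [a2]; norm_num),
      H.av_eq_zero b1 (by rw [b2]; norm_num), sub_self])
  have ηc := isIrr_isChar e1
  have f1 : classInner (σ * χ) η ≠ 0 := by
    have := inner_add_ne_zero_left τ3 (isChar_add (isChar_add p1 (isIrr_isChar a1))
      (isIrr_isChar b1)) ηc e2
    rwa [show σ * χ - ψ - α - β + (ψ + α + β) = σ * χ by abel] at this
  have μc := isChar_mul ηc (isChar_conj hc)
  have f2 : classInner (η * fun g => conj (χ g)) σ ≠ 0 := by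
    rw [Ne, classInner_eq_zero_comm, ← classInner_mul_left]; exact f1
  obtain ⟨ε, ε1, ε2⟩ := exists_add_of_inner_ne_zero μc hs f2
  have εu : ε u = -2 := by
    have := congrFun ε2 u
    simp only [Pi.mul_apply, Pi.add_apply, e3, su] at this
    linear_combination -this
  obtain ⟨r1, r2⟩ := mul_conj_sub e1
  obtain ⟨m, hm⟩ := classInner_isChar_nat r1 p1
  have m1 : m ≤ 1 := by
    have := isChar_mult_mul_degree_le r1 hψi
    rw [hm, q1, hd] at this
    simp at this
    have d4' : (d : ℝ) ≤ 4 := by exact_mod_cast d4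
    have : (m : ℝ) < 2 := by nlinarith [(Nat.cast_nonneg d : (0 : ℝ) ≤ d)]
    have : m < 2 := by exact_mod_cast this
    omega
  have n1 : classInner (σ + ε) (σ + ε) = m + 1 := by
    rw [← ε2, ← hm, av_inner, av_inner, av_congr (b := fun g => (η g * conj (η g) - 1) * conj (ψ g)
      + (η g * conj (η g) - 1) + ψ g + 1) (fun g => by simp [hψ]; ring)]
    simp only [av_add, r2, p2, av_const_one, add_zero]
  obtain ⟨k, hk⟩ := classInner_isChar_nat hσc ε1
  obtain ⟨j, hj⟩ := classInner_isChar_nat ε1 ε1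
  rw [classInner_add_left, classInner_add_right, classInner_add_right, hk, hj,
    classInner_comm_of_natCast hk, classInner_isIrr_self hs] at n1
  have n2 : 1 + k + (k + j) = m + 1 := by exact_mod_cast n1
  rcases (by omega : j = 0 ∨ j = 1) with rfl | rfl
  · rw [classInner_self_eq_zero (φ := ε).mp (by simpa using hj)] at εu
    norm_num at εu
  · have := H.irr_re (isIrr_of_inner_self ε1 (by simpa using hj))
    rw [εu] at this
    norm_num at this

theorem real {χ : G → ℂ} (h : ZT3 u χ) : (∀ g, conj (χ g) = χ g) ∧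
    IsIrrCharacter G (fun g => χ g * χ g - χ g - 1) := by
  have hn := H.not_irr_sym h
  obtain ⟨h1, h3, hu⟩ := h
  have hc := isIrr_isChar h1
  have hs := H.sym hc h3
  have a0 : av (fun g => conj (χ g)) = 0 :=
    H.av_eq_zero (isIrr_conj h1) (by simp [h3, map_ofNat])
  by_cases h0 : av (fun g => χ g * χ g - conj (χ g)) = 0
  · exfalso
    obtain ⟨β, b1, b2, a, a1, a2, a3⟩ := H.pos hs h0 (by simp [hu])
    have hle := degree_le_of_inner_ne_zero hs b1 b2 (a := 6)
      (by simp [h3, map_ofNat]; norm_num) a2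
    rcases (by omega : a = 1 ∨ a = 2) with rfl | rfl
    · have c1 := H.lin (isChar_sub_constituent hs b1 b2) (by simp [h3, a2, map_ofNat]; norm_num)
      have c2 : av (fun g => (χ g * χ g - conj (χ g)) - β g) = 1 := by
        rw [← av_const_one (G := G), ← c1]; rfl
      rw [av_sub, h0, H.av_eq_zero b1 (by rw [a2]; norm_num)] at c2
      norm_num at c2
    · exact hn (by
        rw [eq_of_inner_ne_zero_of_degree hs b1 b2 (a := 6) (by simp [h3, map_ofNat]; norm_num)
          a2 le_rfl]; exact b1)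
  · have r : χ = fun g => conj (χ g) := by
      refine isIrr_eq_of_classInner_ne_zero h1 (isIrr_conj h1) fun e => h0 ?_
      rw [av_inner] at e
      rw [av_sub, a0, sub_zero, ← e]
      exact av_congr fun g => by simp
    have r' : ∀ g, conj (χ g) = χ g := fun g => (congrFun r g).symm
    refine ⟨r', ?_⟩
    simp only [r'] at hs h0 a0
    have c1 := isChar_sub_constituent hs isIrr_one (by rwa [av_one_right])
    have c2 : av ((fun g => χ g * χ g - χ g) - fun _ => 1) = 0 := by
      have i3 : av (fun g => χ g * conj (χ g)) = 1 := classInner_isIrr_self h1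
      simp only [r'] at i3
      change av (fun g => χ g * χ g - χ g - 1) = 0
      simp only [av_sub, i3, av_const_one]
      rw [show av χ = 0 from a0]; ring
    obtain ⟨β, b1, b2, a, a1, a2, a3⟩ := H.pos c1 c2 (by simp [hu])
    have := eq_of_inner_ne_zero_of_degree c1 b1 b2 (a := 5) (by simp [h3]; norm_num) a2 (by omega)
    rw [← this] at b1
    exact b1

end ZH

end Cfsg.Agent.Part
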