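import Mathlib
import Cfsg.Agent.Part.Zh1

/-!
# Groups with an element `u` with `χ 1 - χ u = 4` or `χ u = 0`: the quotient of order 60
-/

set_option autoImplicit false

open scoped ComplexConjugate

namespace Cfsg.Agent.Part

open Cfsg Cfsg.Agent.Char Cfsg.Agent.Char.Constit Cfsg.Agent.Char.Det

variable {G : Type*} [Group G] [Fintype G]

/-- The degree five character attached to a real character of degree three. -/
def th5 (x : G → ℂ) : G → ℂ := fun g => x g * x g - x g - 1

/-- The degree seven character attached to a real character of degree three. -/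
def v7 (x : G → ℂ) : G → ℂ := fun g => x g * x g * x g - 2 * (x g * x g) - x g + 1

theorem av_real {a b : G → ℂ} (hb : ∀ g, conj (b g) = b g) :
    classInner a b = av (fun g => a g * b g) := by
  rw [av_inner]; simp only [hb]

namespace ZH

variable {u : G} (H : ZH u) {x y z : G → ℂ}
include H

theorem th_irr (h : ZT3 u x) : IsIrrCharacter G (th5 x) := (H.real h).2

theorem th_real (h : ZT3 u x) (g : G) : conj (th5 x g) = th5 x g := by
  simp [th5, (H.real h).1]

omit H [Fintype G] in
theorem th_one (h : ZT3 u x) : th5 x 1 = 5 := by simp [th5, h.2.1]; norm_num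

omit H [Fintype G] in
theorem th_u (h : ZT3 u x) : th5 x u = 1 := by simp [th5, h.2.2]

theorem av_x (h : ZT3 u x) : av x = 0 := H.av_eq_zero h.1 (by rw [h.2.1]; norm_num)

theorem av_th (h : ZT3 u x) : av (th5 x) = 0 :=
  H.av_eq_zero (H.th_irr h) (by rw [th_one h]; norm_num)

theorem av_xx (h : ZT3 u x) : av (fun g => x g * x g) = 1 := by
  rw [← av_real (H.real h).1]; exact classInner_isIrr_self h.1

theorem av_xy (h : ZT3 u x) (h' : ZT3 u y) (hne : x ≠ y) : av (fun g => x g * y g) = 0 := by
  rw [← av_real (H.real h').1]; exact classInner_isIrr_ne h.1 h'.1 hne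

theorem av_xt (h : ZT3 u x) (h' : ZT3 u y) : av (fun g => x g * th5 y g) = 0 := by
  rw [← av_real (H.th_real h')]
  exact inner_deg_ne h.1 (H.th_irr h') (by rw [h.2.1, th_one h']; norm_num)

theorem av_tt (h : ZT3 u x) : av (fun g => th5 x g * th5 x g) = 1 := by
  rw [← av_real (H.th_real h)]; exact classInner_isIrr_self (H.th_irr h)

theorem norm_xy (h : ZT3 u x) (h' : ZT3 u y) (hne : x ≠ y) :
    classInner (x * y) (x * y) = 1 + av (fun g => th5 x g * th5 y g) := by
  rw [av_real (fun g => by simp [(H.real h).1, (H.real h').1]),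
    av_congr (b := fun g => 1 + th5 x g * th5 y g + x g + y g + th5 x g + th5 y g + x g * y g +
      x g * th5 y g + y g * th5 x g) (fun g => by simp [th5]; ring)]
  simp only [av_add, av_const_one, H.av_xy h h' hne, H.av_xt h h', H.av_xt h' h]
  rw [H.av_x h, H.av_x h', H.av_th h, H.av_th h']
  ring

theorem th_eq (h : ZT3 u x) (h' : ZT3 u y) : th5 x = th5 y := by
  by_cases hne : x = y
  · rw [hne]
  by_contra hn
  have e := H.norm_xy h h' hne
  rw [← av_real (H.th_real h'), classInner_isIrr_ne (H.th_irr h) (H.th_irr h') hn, add_zero] at e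
  have i := isIrr_of_inner_self (isChar_mul (isIrr_isChar h.1) (isIrr_isChar h'.1)) e
  have e1 : (x * y) 1 = 9 := by simp [h.2.1, h'.2.1]; norm_num
  have e2 : (x * y) u = 1 := by simp [h.2.2, h'.2.2]
  rcases H.cases i with e | e | e | ⟨a, -, a1, a2⟩
  · rw [e] at e1; norm_num at e1
  · rw [e] at e2; norm_num at e2
  · rw [e.2.1] at e1; norm_num at e1
  · have b1 : a + 4 = 9 := by exact_mod_cast a1.symm.trans e1
    have b2 : a = 1 := by exact_mod_cast a2.symm.trans e2
    omega

theorem av_xxx (h : ZT3 u x) : av (fun g => x g * x g * x g) = 1 := by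
  rw [av_congr (b := fun g => x g * th5 x g + x g * x g + x g) (fun g => by simp [th5]; ring)]
  simp only [av_add, H.av_xt h h, H.av_xx h]
  rw [H.av_x h]; ring

theorem v7_char (h : ZT3 u x) : IsCharacter G (v7 x) ∧ classInner (v7 x) x = 0 := by
  have e0 : av (fun g => v7 x g * x g) = 0 := by
    rw [av_congr (b := fun g => th5 x g * th5 x g - x g - 1)
      (fun g => by simp [th5, v7]; ring)]
    simp only [av_sub, H.av_tt h, av_const_one]
    rw [H.av_x h]; ring
  refine ⟨?_, by rwa [av_real (H.real h).1]⟩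
  obtain ⟨α, β, -, b1, a3, a4⟩ := isChar_exists_sym_alt (isIrr_isChar (H.th_irr h))
  have e : β = v7 x + x := by
    funext g
    have e1 := congrFun a3 g
    have e2 := congrFun a4 g
    simp only [Pi.mul_apply, Pi.add_apply, Pi.sub_apply, th5, v7,
      H.alt (isIrr_isChar h.1) h.2.1 g, (H.real h).1] at e1 e2 ⊢
    linear_combination (e2 - e1) / 2
  have := isChar_sub_constituent b1 h.1 (by
    rw [e, classInner_add_left, av_real (H.real h).1, e0, classInner_isIrr_self h.1]; norm_num)
  rwa [e, add_sub_cancel_right] at this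

omit H [Fintype G] in
theorem v7_one (h : ZT3 u x) : v7 x 1 = 7 := by simp [v7, h.2.1]; norm_num

theorem v7_partner (h : ZT3 u x) : ∃ y, ZT3 u y ∧ x ≠ y ∧ classInner (v7 x) y ≠ 0 := by
  obtain ⟨y, a, b⟩ := H.neg (H.v7_char h).1 (by simp [v7, h.2.2]; norm_num)
  exact ⟨y, a, fun e => b (e ▸ (H.v7_char h).2), b⟩

theorem av_xtt (h : ZT3 u x) : av (fun g => x g * th5 x g * th5 x g) = 1 := by
  obtain ⟨y, a, -, b⟩ := H.v7_partner h
  have e : classInner (v7 x) (th5 x) = 0 := by
    by_contra hn
    obtain ⟨η, c, d⟩ := exists_add_add_of_inner_ne_zero (H.v7_char h).1 a.1 (H.th_irr h)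
      (fun e => by have := th_one h; rw [← e, a.2.1] at this; norm_num at this) b hn
    obtain ⟨n, hn⟩ := isChar_degree c
    have := congrFun d 1
    simp only [Pi.add_apply, v7_one h, a.2.1, th_one h, hn] at this
    have : 7 = 3 + 5 + n := by exact_mod_cast this
    omega
  rw [av_real (H.th_real h)] at e
  rw [av_congr (b := fun g => v7 x g * th5 x g + th5 x g * th5 x g + x g * th5 x g)
    (fun g => by simp [th5, v7]; ring)]
  simp only [av_add, e, H.av_tt h, H.av_xt h h]
  ring

theorem av_v7 (h : ZT3 u x) (h' : ZT3 u y) (hne : x ≠ y) :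
    classInner (v7 x) y = av (fun g => x g * y g * th5 x g) := by
  rw [av_real (H.real h').1, av_congr (b := fun g => x g * y g * th5 x g - y g * th5 x g -
    x g * y g) (fun g => by simp [th5, v7]; ring)]
  simp only [av_sub, H.av_xt h' h, H.av_xy h h' hne, sub_zero]

theorem key (h : ZT3 u x) (h' : ZT3 u y) (hne : x ≠ y)
    (h0 : av (fun g => x g * y g * th5 x g) ≠ 0) (g : G) :
    x g * th5 x g = x g + y g + x g * y g := by
  have hc := isChar_mul (isIrr_isChar h.1) (isIrr_isChar h'.1)
  have ht := H.th_eq h h'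
  have e0 : classInner (x * y) (th5 x) = av (fun g => x g * y g * th5 x g) :=
    av_real (H.th_real h)
  obtain ⟨m, hm⟩ := classInner_isChar_nat hc (isIrr_isChar (H.th_irr h))
  have m1 : m = 1 := by
    have := isChar_mult_mul_degree_le hc (H.th_irr h)
    rw [hm, th_one h] at this
    simp [h.2.1, h'.2.1] at this
    have a : (m : ℝ) < 2 := by linarith
    have a : m < 2 := by exact_mod_cast a
    have b : m ≠ 0 := fun e => h0 (by rw [← e0, hm, e]; simp)
    omega
  rw [m1, Nat.cast_one] at hm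
  have dc := isChar_sub_constituent hc (H.th_irr h) (by rw [hm]; exact one_ne_zero)
  have di : IsIrrCharacter G (x * y - th5 x) := by
    refine isIrr_of_inner_self dc ?_
    rw [classInner_sub_left, classInner_sub_right, classInner_sub_right, hm,
      classInner_isChar_comm (isIrr_isChar (H.th_irr h)) hc, hm,
      classInner_isIrr_self (H.th_irr h), H.norm_xy h h' hne, ← ht, H.av_tt h]
    ring
  have d1 : (x * y - th5 x) 1 = 4 := by simp [h.2.1, h'.2.1, th_one h]; norm_num
  have i1 : classInner (v7 x) (x * y - th5 x) ≠ 0 := by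
    have t1 := H.av_xtt h'
    have t2 := H.av_xt h' h
    have t3 := H.av_xy h h' hne
    rw [← ht] at t1
    rw [av_real (fun g => by simp [(H.real h).1, (H.real h').1, H.th_real h]),
      av_congr (b := fun g => y g * th5 x g * th5 x g - x g * th5 x g * th5 x g +
        th5 x g * th5 x g + x g * th5 x g - x g * y g - y g) (fun g => by simp [th5, v7]; ring)]
    simp only [av_add, av_sub, t1, t3, H.av_xtt h, H.av_tt h, H.av_xt h h]
    rw [H.av_x h']; norm_num
  obtain ⟨η, c, d⟩ := exists_add_add_of_inner_ne_zero (H.v7_char h).1 h'.1 di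
    (fun e => by rw [← e, h'.2.1] at d1; norm_num at d1) (by rwa [H.av_v7 h h' hne]) i1
  have η0 : η = 0 := isChar_eq_zero_of_degree c (by
    have := congrFun d 1
    simp only [Pi.add_apply, v7_one h, h'.2.1, d1] at this
    linear_combination -this)
  have := congrFun d g
  simp only [η0, Pi.add_apply, Pi.sub_apply, Pi.mul_apply, Pi.zero_apply, v7, th5] at this ⊢
  linear_combination this

theorem partner (h : ZT3 u x) : ∃ y, ZT3 u y ∧ x ≠ y ∧ ∀ g,
    (th5 x g = 0 ∧ y g = 1 - x g) ∨ (y g = x g ∧ (x g = 0 ∨ x g = 3 ∨ x g = -1)) := by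
  obtain ⟨y, a, b, c⟩ := H.v7_partner h
  rw [H.av_v7 h a b] at c
  have ht := H.th_eq h a
  refine ⟨y, a, b, fun g => ?_⟩
  have e1 := H.key h a b c g
  have e2 := H.key a h b.symm (by rw [← ht]; simpa only [mul_comm (y _)] using c) g
  have e3 := congrFun ht g
  rw [← ht] at e2
  by_cases e : y g = x g
  · refine Or.inr ⟨e, ?_⟩
    simp only [th5, e] at e1
    have : x g * ((x g - 3) * (x g + 1)) = 0 := by linear_combination e1
    simpa only [mul_eq_zero, sub_eq_zero, add_eq_zero_iff_eq_neg] using this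
  · refine Or.inl ⟨mul_left_cancel₀ (sub_ne_zero.mpr e) (by linear_combination e2 - e1), ?_⟩
    simp only [th5] at e3
    exact mul_left_cancel₀ (sub_ne_zero.mpr e) (by linear_combination -e3)

theorem uniq (h : ZT3 u x) : ∃ y, ZT3 u y ∧ x ≠ y ∧ ∀ z, ZT3 u z → z = x ∨ z = y := by
  obtain ⟨y, a, b, c⟩ := H.partner h
  refine ⟨y, a, b, fun z hz => ?_⟩
  by_contra hn
  push Not at hn
  obtain ⟨w, -, -, d⟩ := H.partner hz
  have ht := H.th_eq h hz
  have e : ∀ g, z g * z g - z g * x g - z g * y g + x g * y g = 0 := fun g => by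
    have e3 := congrFun ht g
    simp only [th5] at e3
    rcases c g with ⟨c1, c2⟩ | ⟨c1, c2⟩
    · rw [c2]; linear_combination -e3
    · rcases d g with ⟨d1, -⟩ | ⟨-, d2⟩
      · rw [← ht] at d1
        simp only [th5] at d1
        rcases c2 with c2 | c2 | c2 <;> rw [c2] at d1 <;> norm_num at d1
      · rw [c1]
        rcases c2 with c2 | c2 | c2 <;> rcases d2 with d2 | d2 | d2 <;>
          rw [c2, d2] at e3 ⊢ <;> first | (norm_num at e3; done) | norm_num
  have := av_congr e
  simp only [av_add, av_sub, H.av_xx hz, H.av_xy hz h hn.1, H.av_xy hz a hn.2, H.av_xy h a b]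
    at this
  simp [av] at this

theorem index_ker (h : ZT3 u x) : (charKer x).index = 60 := by
  classical
  obtain ⟨y, -, -, c⟩ := H.partner h
  have e : ∀ g, x g * x g * th5 x g + x g * th5 x g = if g ∈ charKer x then 60 else 0 := fun g => by
    rw [mem_charKer_iff (isIrr_isChar h.1), h.2.1]
    rcases c g with ⟨c1, -⟩ | ⟨-, c2 | c2 | c2⟩
    · rw [if_neg fun e => by simp [th5, e] at c1; norm_num at c1, c1]; ring
    · simp [c2]
    · simp [c2, th5]; norm_num
    · rw [if_neg (by rw [c2]; norm_num), c2]; ring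
  have e1 : av (fun g => x g * x g * th5 x g + x g * th5 x g) = 1 := by
    rw [av_congr (b := fun g => th5 x g * th5 x g + 2 * (x g * th5 x g) + th5 x g)
      (fun g => by simp [th5]; ring)]
    simp only [av_add, av_mul, H.av_tt h, H.av_xt h h]
    rw [H.av_th h]; ring
  rw [av_congr e, av, ← Finset.sum_filter, Finset.sum_const, nsmul_eq_mul,
    inv_mul_eq_iff_eq_mul₀ card_ne_zero, mul_one, ← Fintype.card_subtype,
    ← Nat.card_eq_fintype_card, ← (charKer x).card_mul_index] at e1
  have e2 : Nat.card (charKer x) * 60 = Nat.card (charKer x) * (charKer x).index := by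
    exact_mod_cast e1
  exact (Nat.eq_of_mul_eq_mul_left Nat.card_pos e2).symm

theorem exists_ZT3 (hu : u ≠ 1) : ∃ x, ZT3 u x := by
  have c := isChar_sub_constituent (isChar_regChar (G := G)) isIrr_one (by
    rw [classInner_regChar_left]; simp)
  obtain ⟨x, a, -⟩ := H.neg c (by simp [regChar_of_ne hu])
  exact ⟨x, a⟩

theorem card_cent (hu : u ≠ 1) : Nat.card (Subgroup.centralizer ({u} : Set G)) = 4 := by
  classical
  obtain ⟨x, h⟩ := H.exists_ZT3 hu
  obtain ⟨y, a, b, c⟩ := H.uniq h
  let o : IrrCharacter G := ⟨_, isIrr_one⟩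
  let x' : IrrCharacter G := ⟨x, h.1⟩
  let y' : IrrCharacter G := ⟨y, a.1⟩
  let t' : IrrCharacter G := ⟨_, H.th_irr h⟩
  have ne : ∀ p q : IrrCharacter G, p.1 1 ≠ q.1 1 → p ≠ q := fun p q e i => e (by rw [i])
  have n1 : o ≠ x' := ne _ _ (by simp [o, x', h.2.1])
  have n2 : o ≠ y' := ne _ _ (by simp [o, y', a.2.1])
  have n3 : o ≠ t' := ne _ _ (by simp [o, t', th_one h])
  have n4 : x' ≠ y' := fun e => b (congrArg Subtype.val e)
  have n5 : x' ≠ t' := ne _ _ (by simp [x', t', th_one h, h.2.1])
  have n6 : y' ≠ t' := ne _ _ (by simp [y', t', th_one h, a.2.1])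
  let s : Finset (IrrCharacter G) := {o, x', y', t'}
  have hs : ∀ F : IrrCharacter G → ℂ, ∑ χ, F χ = F o + F x' + F y' + F t' + ∑ χ ∈ sᶜ, F χ :=
    fun F => by
      rw [← Finset.sum_add_sum_compl s, Finset.sum_insert (by simp [n1, n2, n3]),
        Finset.sum_insert (by simp [n4, n5]), Finset.sum_pair n6]
      ring
  have hr : ∀ χ ∈ sᶜ, χ.1 u = 0 ∨ ∃ a : ℕ, 1 ≤ a ∧ χ.1 1 = (a + 4 : ℕ) ∧ χ.1 u = a :=
    fun χ hχ => by
      simp only [s, Finset.mem_compl, Finset.mem_insert, Finset.mem_singleton, not_or] at hχ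
      rcases H.cases χ.2 with e | e | e | e
      · exact absurd (Subtype.ext e) hχ.1
      · exact Or.inl e
      · rcases c _ e with e | e
        · exact absurd (Subtype.ext e) hχ.2.1
        · exact absurd (Subtype.ext e) hχ.2.2.1
      · exact Or.inr e
  have s1 := sum_irr_one_mul_of_ne hu
  rw [hs] at s1
  simp only [o, x', y', t', h.2.1, h.2.2, a.2.1, a.2.2, th_one h, th_u h] at s1
  have s2 : ∑ χ ∈ sᶜ, (χ.1 1 * χ.1 u).re = 0 := by
    rw [← Complex.re_sum, show ∑ χ ∈ sᶜ, χ.1 1 * χ.1 u = 0 by linear_combination s1]; rfl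
  rw [Finset.sum_eq_zero_iff_of_nonneg (fun χ hχ => by
    rcases hr χ hχ with e | ⟨a, -, e1, e2⟩
    · simp [e]
    · rw [e1, e2, ← Nat.cast_mul, Complex.natCast_re]; exact Nat.cast_nonneg _)] at s2
  have s3 := sum_irr_mul_conj_of_isConj (IsConj.refl u)
  rw [hs, Finset.sum_eq_zero (fun χ hχ => by
    rcases hr χ hχ with e | ⟨a, a1, e1, e2⟩
    · simp [e]
    · have := s2 χ hχ
      rw [e1, e2, ← Nat.cast_mul, Complex.natCast_re, Nat.cast_eq_zero, Nat.mul_eq_zero] at this
      omega)] at s3
  simp only [o, x', y', t', h.2.2, a.2.2, th_u h] at s3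
  have : ((4 : ℕ) : ℂ) = Nat.card (Subgroup.centralizer ({u} : Set G)) := by
    rw [← s3]; simp; norm_num
  exact_mod_cast this.symm

theorem perfect : commutator G = ⊤ := by
  by_contra hn
  obtain ⟨z, hz⟩ : ∃ z, z ∉ commutator G := by simpa [Subgroup.eq_top_iff'] using hn
  obtain ⟨χ, a, b, c⟩ := exists_irr_of_not_mem _ hz
  rw [H.lin (isIrr_isChar a) ((isIrr_degree_one_iff a).mpr b), charKer_one] at c
  exact c trivial

/-- The character-theoretic conclusion. -/
theorem main (hu : u ≠ 1) : commutator G = ⊤ ∧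
    Nat.card (Subgroup.centralizer ({u} : Set G)) = 4 ∧
    ∃ K : Subgroup G, K.Normal ∧ K.index = 60 ∧ u ∉ K := by
  obtain ⟨x, h⟩ := H.exists_ZT3 hu
  refine ⟨H.perfect, H.card_cent hu, charKer x, charKer_normal (isIrr_classFun h.1),
    H.index_ker h, fun e => ?_⟩
  have := apply_eq_of_mem_charKer e
  rw [h.2.1, h.2.2] at this
  norm_num at this

end ZH

end Cfsg.Agent.Part
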